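import Cfsg.Agent.H42.PcDefs

/-! Project PC, piece PICK. -/

set_option autoImplicit false

namespace Cfsg.Agent.H6.PcPick

open Subgroup Cfsg.Agent.H42.Pc

universe u

theorem pick : PickStmt.{u} := by
  intro G _ _ U _ P hU
  have : Fact (Nat.Prime 2) := ⟨Nat.prime_two⟩
  let Q : Sylow 2 (G ⧸ U) := P.mapSurjective (QuotientGroup.mk'_surjective U)
  have hQ : (Q : Subgroup (G ⧸ U)) ≠ ⊥ := by
    intro e
    have := Q.not_dvd_index
    rw [e, index_bot] at this
    exact this (even_iff_two_dvd.1 hU)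
  have : Nontrivial (Q : Subgroup (G ⧸ U)) := (nontrivial_iff_ne_bot _).2 hQ
  have hc := Q.isPGroup'.center_nontrivial
  have h2 : 2 ∣ Nat.card (center (Q : Subgroup (G ⧸ U))) := by
    obtain ⟨n, hn, e⟩ := (IsPGroup.nontrivial_iff_card (Q.isPGroup'.to_subgroup (center _))).1 hc
    rw [e]; exact dvd_pow_self 2 hn.ne'
  obtain ⟨c, hc2⟩ := exists_prime_orderOf_dvd_card' 2 h2
  obtain ⟨t, ht, e⟩ : ∃ t ∈ (P : Subgroup G), (t : G ⧸ U) = c.1.1 := c.1.2
  refine ⟨t, ht, fun h => ?_, ?_, fun g hg => ?_⟩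
  · have : c = 1 := Subtype.ext (Subtype.ext (e.symm.trans ((QuotientGroup.eq_one_iff t).2 h)))
    rw [this, orderOf_one] at hc2
    omega
  · rw [← QuotientGroup.eq_one_iff, QuotientGroup.mk_mul, e]
    have := pow_orderOf_eq_one c
    rw [hc2, pow_two] at this
    exact congrArg (fun x : center (Q : Subgroup (G ⧸ U)) => (x.1.1 : G ⧸ U)) this
  · rw [← QuotientGroup.eq_one_iff]
    have h1 := congrArg Subtype.val (mem_center_iff.1 c.2 ⟨(g : G ⧸ U), g, hg, rfl⟩)
    simp only [coe_mul, ← e] at h1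
    simp only [QuotientGroup.mk_mul, QuotientGroup.mk_inv, h1]
    group

end Cfsg.Agent.H6.PcPick
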