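import Cfsg.Agent.H35.S4Defs

/-!
# The step `BaseStmt`: elementary facts on a standard subgroup `Sp₄(q)`
-/

set_option autoImplicit false

namespace Cfsg.Agent.H6.S4B

open Cfsg Cfsg.Agent.H63 Cfsg.Agent.H63.SL Cfsg.Agent.H35.S4 Subgroup
open scoped commutatorElement

universe u v

section Grp

variable {G : Type u} [Group G]

theorem fix_inv [Finite G] {N : Subgroup G} {t : G} (ht : t * t = 1)
    (hn : ∀ x ∈ N, t * x * t ∈ N) (he : ¬ Odd (Nat.card N)) :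
    ∃ u ∈ N, u ≠ 1 ∧ u * u = 1 ∧ u * t = t * u := by
  classical
  have : Fact (Nat.Prime 2) := ⟨Nat.prime_two⟩
  have := Fintype.ofFinite N
  let f : Function.End N := fun x => ⟨t * x * t, hn x x.2⟩
  have hf : f ^ 2 ^ 1 = 1 := by
    funext x
    refine Subtype.ext ?_
    show t * (t * x * t) * t = x
    calc _ = (t * t) * x * (t * t) := by group
      _ = _ := by rw [ht]; group
  have h1 := Equiv.Perm.card_fixedPoints_modEq hf
  have h2 : Fintype.card (Function.fixedPoints f) =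
      Nat.card (N ⊓ centralizer {t} : Subgroup G) := by
    rw [← Nat.card_eq_fintype_card]
    refine Nat.card_congr ⟨fun x => ⟨x.1.1, x.1.2, mem_centralizer_singleton_iff.2 ?_⟩,
      fun x => ⟨⟨x.1, x.2.1⟩, Subtype.ext ?_⟩, fun _ => rfl, fun _ => rfl⟩
    · have h3 : t * x.1.1 * t = x.1.1 := congrArg Subtype.val x.2
      calc x.1.1 * t = t * x.1.1 * t * t := by rw [h3]
        _ = _ := by rw [mul_assoc, ht, mul_one]
    · show t * x.1 * t = x.1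
      rw [← mem_centralizer_singleton_iff.1 x.2.2, mul_assoc, ht, mul_one]
  rw [h2, ← Nat.card_eq_fintype_card] at h1
  have h3 : 2 ∣ Nat.card (N ⊓ centralizer {t} : Subgroup G) :=
    (h1.dvd_iff dvd_rfl).1 (even_iff_two_dvd.1 (Nat.not_odd_iff_even.1 he))
  obtain ⟨u, hu⟩ := exists_prime_orderOf_dvd_card' 2 h3
  rw [← orderOf_coe] at hu
  refine ⟨u, u.2.1, fun e => ?_, ?_, mem_centralizer_singleton_iff.1 u.2.2⟩
  · rw [e, orderOf_one] at hu; omega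
  · rw [← pow_two, ← hu, pow_orderOf_eq_one]

theorem conj_mem {H : Subgroup G} {g y : G} (hg : g ∈ N[H]) (hy : y ∈ H) : g * y * g⁻¹ ∈ H :=
  (Subgroup.mem_set_normalizer_iff.1 hg y).1 hy

theorem mem_N_of [Finite G] {H : Subgroup G} {g : G} (h : ∀ y ∈ H, g * y * g⁻¹ ∈ H) :
    g ∈ N[H] := Subgroup.mem_normalizer_fintype (S := (H : Set G)) h

theorem cC {H : Subgroup G} {g x : G} (hg : g ∈ C[H]) (hx : x ∈ H) : Commute g x := (hg x hx).symm

theorem conj_cent {A B : Subgroup G} {g p : G} (h : ∀ x ∈ B, g⁻¹ * x * g⁻¹⁻¹ ∈ A)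
    (hp : p ∈ C[A]) : g * p * g⁻¹ ∈ C[B] := by
  intro x hx
  have e := hp _ (h x hx)
  calc x * (g * p * g⁻¹) = g * (g⁻¹ * x * g⁻¹⁻¹ * p) * g⁻¹ := by group
    _ = g * (p * (g⁻¹ * x * g⁻¹⁻¹)) * g⁻¹ := by rw [e]
    _ = _ := by group

theorem conj_mv {g p t z : G} (hg : Commute g t) (h : p * t * p⁻¹ = t * z) :
    g * p * g⁻¹ * t * (g * p * g⁻¹)⁻¹ = t * (g * z * g⁻¹) := by
  have e : g⁻¹ * t * g = t := by rw [mul_assoc, ← hg.eq, inv_mul_cancel_left]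
  calc g * p * g⁻¹ * t * (g * p * g⁻¹)⁻¹ = g * (p * (g⁻¹ * t * g) * p⁻¹) * g⁻¹ := by group
    _ = g * t * z * g⁻¹ := by rw [e, h]; group
    _ = _ := by rw [hg.eq]; group

theorem conj_sup {A B C : Subgroup G} {g : G} (hA : ∀ x ∈ A, g * x * g⁻¹ ∈ C)
    (hB : ∀ x ∈ B, g * x * g⁻¹ ∈ C) : ∀ x ∈ A ⊔ B, g * x * g⁻¹ ∈ C := by
  have : A ⊔ B ≤ C.comap (MulAut.conj g).toMonoidHom :=
    sup_le (fun x hx => hA x hx) fun x hx => hB x hx
  exact fun x hx => this hx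

variable {L : Subgroup G} {t : G}

theorem tt (tc : Tc L t) : t * t = 1 := by rw [← sq, ← tc.t2, pow_orderOf_eq_one]

theorem split [Finite G] (tc : Tc L t) (r2 : R2 L t) {k : G} (hk : k ∈ C[L]) (hkt : Commute k t) :
    k ∈ Od L t ∨ t * k ∈ Od L t := by
  obtain ⟨n, m, hm, e⟩ := Nat.exists_eq_two_pow_mul_odd (orderOf_pos k).ne'
  rcases r2 (k ^ m) (pow_mem hk m) (hkt.pow_left m)
    ⟨n, by rw [← pow_mul, mul_comm, ← e, pow_orderOf_eq_one]⟩ with h | h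
  · exact Or.inl ⟨hk, hkt, hm.of_dvd_nat (orderOf_dvd_of_pow_eq_one h)⟩
  · refine Or.inr ⟨mul_mem tc.tc hk, (Commute.refl t).mul_left hkt,
      hm.of_dvd_nat (orderOf_dvd_of_pow_eq_one ?_)⟩
    obtain ⟨j, hj⟩ := hm
    rw [hkt.symm.mul_pow, h, hj, pow_succ, pow_mul, sq, tt tc, one_pow, one_mul, tt tc]

theorem od [Finite G] (tc : Tc L t) (r2 : R2 L t) : ∃ O : Subgroup G, (O : Set G) = Od L t := by
  have : Fact (Nat.Prime 2) := ⟨Nat.prime_two⟩
  set M : Subgroup G := C[L] ⊓ C1[t]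
  set H : Subgroup M := (zpowers t).subgroupOf M
  have hc : ∀ x : M, x ∈ H → ∀ g, g * x = x * g := fun x hx g => by
    obtain ⟨n, hn⟩ := mem_zpowers_iff.1 (mem_subgroupOf.1 hx)
    have : Commute g.1 t := mem_centralizer_singleton_iff.1 g.2.2
    exact Subtype.ext (show Commute g.1 x.1 from hn ▸ this.zpow_right n)
  have h2 : ∀ x : M, x ∈ H → (x : G) ^ 2 = 1 := fun x hx => by
    obtain ⟨n, hn⟩ := mem_zpowers_iff.1 (mem_subgroupOf.1 hx)
    rw [← hn, sq, ← (Commute.refl t).mul_zpow, tt tc, one_zpow]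
  have : H.Normal := ⟨fun x hx g => by rwa [hc x hx, mul_inv_cancel_right]⟩
  let _ : CommGroup H := { (inferInstance : Group H) with
    mul_comm := fun a b => Subtype.ext (hc _ b.2 _) }
  have ho : Odd H.index := by
    rw [← Nat.not_even_iff_odd, even_iff_two_dvd]
    intro h2'
    obtain ⟨q, hq⟩ := exists_prime_orderOf_dvd_card' (G := M ⧸ H) 2 h2'
    obtain ⟨x, rfl⟩ := QuotientGroup.mk_surjective q
    have h3 : x ^ 2 ∈ H := by
      rw [← QuotientGroup.eq_one_iff, QuotientGroup.mk_pow, ← hq, pow_orderOf_eq_one]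
    have h4 : x ∈ H := by
      rcases r2 x x.2.1 (mem_centralizer_singleton_iff.1 x.2.2)
        ⟨2, by rw [sq 2, pow_mul]; exact h2 _ h3⟩ with e | e
      · exact mem_subgroupOf.2 (e ▸ one_mem _)
      · exact mem_subgroupOf.2 (e ▸ mem_zpowers _)
    rw [(QuotientGroup.eq_one_iff x).2 h4, orderOf_one] at hq
    omega
  have key : ∀ x : M, x ∈ (MonoidHom.transfer (MonoidHom.id H)).ker ↔ Odd (orderOf (x : G)) := by
    intro x
    have hk : ∀ (k : ℕ) (g₀ : M), g₀⁻¹ * x ^ k * g₀ ∈ H → g₀⁻¹ * x ^ k * g₀ = x ^ k :=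
      fun k g hk => by
        have := hc _ hk g
        calc _ = g * (g⁻¹ * x ^ k * g) * g⁻¹ := by rw [this]; group
          _ = _ := by group
    rw [MonoidHom.mem_ker, MonoidHom.transfer_eq_pow _ x hk, MonoidHom.id_apply, Subtype.ext_iff,
      Subtype.ext_iff]
    refine ⟨fun e => ho.of_dvd_nat (orderOf_dvd_of_pow_eq_one e), fun e => ?_⟩
    have h5 := orderOf_dvd_of_pow_eq_one (h2 _ (MonoidHom.transfer_eq_pow_aux x hk))
    have h6 : Odd (orderOf ((x : G) ^ H.index)) := e.of_dvd_nat (orderOf_pow_dvd _)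
    rcases (Nat.dvd_prime Nat.prime_two).1 h5 with h | h
    · exact orderOf_eq_one_iff.1 h
    · rw [show orderOf ((x : G) ^ H.index) = 2 from h] at h6
      exact absurd h6 (by decide)
  refine ⟨(MonoidHom.transfer (MonoidHom.id H)).ker.map (Subgroup.subtype _),
    Set.ext fun x => ⟨?_, fun hx => ?_⟩⟩
  · rintro ⟨y, hy, rfl⟩
    exact ⟨y.2.1, mem_centralizer_singleton_iff.1 y.2.2, (key y).mp hy⟩
  · exact ⟨⟨x, hx.1, mem_centralizer_singleton_iff.2 hx.2.1⟩, (key _).mpr hx.2.2, rfl⟩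

theorem fin [Finite G] (tc : Tc L t) (r2 : R2 L t) {g v k : G} (hg : Commute g t) (hv : v ∈ L)
    (hk : k ∈ C[L]) (e : g = v * k) : ∃ o ∈ Od L t, g = v * o ∨ g = t * v * o := by
  have h1 : Commute v t := (cC tc.tc hv).symm
  have h2 : Commute k t := by
    rw [show k = v⁻¹ * g by rw [e, inv_mul_cancel_left]]
    exact h1.inv_left.mul_left hg
  rcases split tc r2 hk h2 with h | h
  · exact ⟨k, h, Or.inl e⟩
  · exact ⟨t * k, h, Or.inr (by rw [← h1.eq, mul_assoc, ← mul_assoc t, tt tc, one_mul, e])⟩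

end Grp

variable {F : Type v} [Field F] {G : Type u} [Group G] {L : Subgroup G} {x : ZMod 8 → F → G}
  {t g : G} {ρ : Equiv.Perm (ZMod 8)}

omit [Field F] in
theorem x_mem (i : ZMod 8) (a : F) : x i a ∈ XR x i := subset_closure ⟨a, rfl⟩

theorem xL (m : Mod L x) (i : ZMod 8) (a : F) : x i a ∈ L :=
  m.gen ▸ subset_closure ⟨i, trivial, x_mem i a⟩

theorem x_zero (p : Pin2 x) (i : ZMod 8) : x i 0 = 1 := by
  have := p.add i 0 0
  rwa [add_zero, left_eq_mul] at this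

theorem x_sq (p : Pin2 x) (i : ZMod 8) (a : F) : x i a * x i a = 1 := by
  rw [← p.add, ← two_mul, p.two, zero_mul, x_zero p]

theorem x_inj (p : Pin2 x) {i : ZMod 8} {a b : F} (h : x i a = x i b) : a = b := by
  have := p.inj i (a + b) (by rw [p.add, h, x_sq p])
  linear_combination this - b * p.two

theorem ext (m : Mod L x) (hg : g ∈ L) (h : ∀ i a, Commute g (x i a)) : g = 1 := by
  have h1 : L ≤ C1[g] := by
    rw [← m.gen]
    refine (closure_le _).2 ?_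
    rintro y ⟨i, -, hy⟩
    refine (show XR x i ≤ C1[g] from (closure_le _).2 ?_) hy
    rintro _ ⟨a, rfl⟩
    exact mem_centralizer_singleton_iff.2 (h i a).symm
  have h2 : g ∈ Z[L] := ⟨hg, fun y hy => mem_centralizer_singleton_iff.1 (h1 hy)⟩
  rwa [m.zL, mem_bot] at h2

theorem nL (m : Mod L x) (k : ZMod 8) : n2 x k ∈ L :=
  mul_mem (mul_mem (xL m _ _) (xL m _ _)) (xL m _ _)

theorem A3_le (m : Mod L x) (kp : KP L x) (i : ZMod 8) : A3 x i ≤ L := fun v hv => by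
  obtain ⟨a, b, c, rfl⟩ := (kp.memA i v).1 hv
  exact mul_mem (mul_mem (xL m _ _) (xL m _ _)) (xL m _ _)

/-- `g ∈ L` permutes the root subgroups. -/
structure Cj (L : Subgroup G) (x : ZMod 8 → F → G) (g : G) (ρ : Equiv.Perm (ZMod 8)) : Prop where
  mem : g ∈ L
  act : ∀ i, ∃ w : Fˣ, ∀ a, g * x i a * g⁻¹ = x (ρ i) (w * a)
  dih : (∀ i d, ρ (i + d) = ρ i + d) ∨ ∀ i d, ρ (i + d) = ρ i - d

namespace Cj

variable (c : Cj L x g ρ)
include c

theorem inv : Cj L x g⁻¹ ρ.symm where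
  mem := inv_mem c.mem
  act i := by
    obtain ⟨w, hw⟩ := c.act (ρ.symm i)
    refine ⟨w⁻¹, fun a => ?_⟩
    have := hw ((w⁻¹ : Fˣ) * a)
    rw [ρ.apply_symm_apply, Units.mul_inv_cancel_left] at this
    rw [← this]
    group
  dih := c.dih.imp (fun h i d => ρ.injective (by simp [h]))
    fun h i d => ρ.injective (by rw [sub_eq_add_neg, h]; simp)

theorem pm (i d : ZMod 8) :
    (ρ (i - d) = ρ i - d ∧ ρ (i + d) = ρ i + d) ∨ (ρ (i - d) = ρ i + d ∧ ρ (i + d) = ρ i - d) :=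
  c.dih.imp (fun h => ⟨by rw [sub_eq_add_neg, h, sub_eq_add_neg], h i d⟩)
    fun h => ⟨by rw [sub_eq_add_neg, h, sub_neg_eq_add], h i d⟩

theorem fX (i : ZMod 8) : ∀ y ∈ XR x i, g * y * g⁻¹ ∈ XR x (ρ i) := by
  have : XR x i ≤ (XR x (ρ i)).comap (MulAut.conj g).toMonoidHom := by
    refine (closure_le _).2 ?_
    rintro _ ⟨a, rfl⟩
    obtain ⟨w, hw⟩ := c.act i
    change g * x i a * g⁻¹ ∈ XR x (ρ i)
    rw [hw]
    exact x_mem _ _
  exact fun y hy => this hy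

theorem bX (i : ZMod 8) : ∀ y ∈ XR x (ρ i), g⁻¹ * y * g⁻¹⁻¹ ∈ XR x i := by
  have := c.inv.fX (ρ i)
  rwa [ρ.symm_apply_apply] at this

theorem fA (i : ZMod 8) : ∀ y ∈ A3 x i, g * y * g⁻¹ ∈ A3 x (ρ i) := by
  have h1 : XR x (ρ i - 1) ≤ A3 x (ρ i) := le_sup_left.trans le_sup_left
  have h2 : XR x (ρ i) ≤ A3 x (ρ i) := le_sup_right.trans le_sup_left
  have h3 : XR x (ρ i + 1) ≤ A3 x (ρ i) := le_sup_right
  refine conj_sup (conj_sup (fun y hy => ?_) fun y hy => h2 (c.fX i y hy)) fun y hy => ?_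
  · rcases c.pm i 1 with h | h
    · exact h1 (h.1 ▸ c.fX _ y hy)
    · exact h3 (h.1 ▸ c.fX _ y hy)
  · rcases c.pm i 1 with h | h
    · exact h3 (h.2 ▸ c.fX _ y hy)
    · exact h1 (h.2 ▸ c.fX _ y hy)

theorem fK (i : ZMod 8) : ∀ y ∈ KK x (i + 2), g * y * g⁻¹ ∈ KK x (ρ i + 2) := by
  have e : ∀ j : ZMod 8, j + 2 + 4 = j - 2 := by decide
  have h1 : XR x (ρ i + 2) ≤ KK x (ρ i + 2) := le_sup_left
  have h2 : XR x (ρ i - 2) ≤ KK x (ρ i + 2) := e (ρ i) ▸ le_sup_right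
  refine conj_sup (fun y hy => ?_) fun y hy => ?_
  · rcases c.pm i 2 with h | h
    · exact h1 (h.2 ▸ c.fX _ y hy)
    · exact h2 (h.2 ▸ c.fX _ y hy)
  · rw [e] at hy
    rcases c.pm i 2 with h | h
    · exact h2 (h.1 ▸ c.fX _ y hy)
    · exact h1 (h.1 ▸ c.fX _ y hy)

variable [Finite G]

theorem fH : ∀ h ∈ HH x L, g * h * g⁻¹ ∈ HH x L := fun h hh => by
  refine ⟨L.mul_mem (L.mul_mem c.mem hh.1) (L.inv_mem c.mem), mem_iInf.2 fun j => ?_⟩
  obtain ⟨i, rfl⟩ := ρ.surjective j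
  refine mem_N_of fun y hy => ?_
  have := c.fX i _ (conj_mem (mem_iInf.1 hh.2 i) (c.bX i y hy))
  convert this using 1
  group

theorem fT (i : ZMod 8) : ∀ h ∈ TT x L i, g * h * g⁻¹ ∈ TT x L (ρ i) := fun h hh =>
  ⟨c.fH h hh.1, conj_cent (c.bX i) hh.2⟩

theorem hat (tc : Tc L t) (a0 : F) (i : ZMod 8) :
    ∀ p ∈ HatS L x t a0 i, g * p * g⁻¹ ∈ HatS L x t a0 (ρ i) := by
  rintro p ⟨h1, h2, ⟨a, h3, h4⟩, h5⟩
  have gt : Commute g t := (cC tc.tc c.mem).symm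
  obtain ⟨w, hw⟩ := c.act i
  have b1 := c.inv.fA (ρ i)
  have b2 := c.inv.fT (ρ i)
  rw [ρ.symm_apply_apply] at b1 b2
  refine ⟨conj_cent b1 h1, conj_cent b2 h2, ⟨w * a, by rw [conj_mv gt h3, hw], ?_⟩, ?_⟩
  · rw [conj_mul, h4, hw, mul_left_comm]
  · rintro ⟨b, hb⟩
    refine h5 ⟨(w⁻¹ : Fˣ) * b, ?_⟩
    have := hw ((w⁻¹ : Fˣ) * b)
    rw [Units.mul_inv_cancel_left] at this
    rw [← this, ← mul_assoc, ← mul_assoc, ← gt.eq, mul_left_inj, mul_assoc, mul_right_inj] at hb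
    exact hb

theorem tld (tc : Tc L t) (i : ZMod 8) :
    ∀ p ∈ TldS L x t i, g * p * g⁻¹ ∈ TldS L x t (ρ i) := by
  rintro p ⟨⟨n, h1⟩, h2, h3, h4⟩
  have gt : Commute g t := (cC tc.tc c.mem).symm
  have b1 := c.inv.fK (ρ i)
  rw [ρ.symm_apply_apply] at b1
  have b2 : ∀ j, ∀ r ∈ HatS L x t 0 (ρ j), g⁻¹ * r * g⁻¹⁻¹ ∈ HatS L x t 0 j := fun j => by
    have := c.inv.hat tc 0 (ρ j)
    rwa [ρ.symm_apply_apply] at this
  refine ⟨⟨n, by rw [conj_pow, h1, mul_one, mul_inv_cancel]⟩, conj_cent b1 h2, fun r hr => ?_, ?_⟩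
  · have : g⁻¹ * r * g⁻¹⁻¹ ∈ HatS L x t 0 (i - 1) ∪ HatS L x t 0 (i + 1) := by
      rcases c.pm i 1 with h | h <;> rcases hr with hr | hr
      · exact Or.inl (b2 _ r (h.1 ▸ hr))
      · exact Or.inr (b2 _ r (h.2 ▸ hr))
      · exact Or.inr (b2 _ r (h.2 ▸ hr))
      · exact Or.inl (b2 _ r (h.1 ▸ hr))
    have e := (h3 _ this).eq
    show g * p * g⁻¹ * r = r * (g * p * g⁻¹)
    calc g * p * g⁻¹ * r = g * (p * (g⁻¹ * r * g⁻¹⁻¹)) * g⁻¹ := by group
      _ = g * (g⁻¹ * r * g⁻¹⁻¹ * p) * g⁻¹ := by rw [e]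
      _ = _ := by group
  · rw [conj_mv (z := t⁻¹ * (p * t * p⁻¹)) gt (by group), inv_mul_cancel_left]
    exact c.hat tc 1 i _ h4

end Cj

theorem cj_n (m : Mod L x) (kp : KP L x) (k : ZMod 8) :
    Cj L x (n2 x k) (Equiv.subLeft (2 * k + 4)) :=
  ⟨nL m k, fun i => ⟨1, fun a => by simpa using kp.nn k i a⟩,
    Or.inr fun i d => by simp only [Equiv.subLeft_apply]; ring⟩

theorem cj_h (kp : KP L x) {h : G} (hh : h ∈ HH x L) : Cj L x h (Equiv.refl _) :=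
  let ⟨α, β, e⟩ := kp.memH h hh
  ⟨hh.1, fun i => ⟨wt α β i, e i⟩, Or.inl fun _ _ => rfl⟩

theorem ne1 [Finite F] (m : Mod L x) : ∃ γ : Fˣ, γ ≠ 1 ∧ γ ^ 2 ≠ 1 := by
  classical
  have h4 := m.four
  obtain ⟨a, h0, h1⟩ : ∃ a : F, a ≠ 0 ∧ a ≠ 1 := by
    by_contra! h
    have := Fintype.ofFinite F
    have h2 : (Finset.univ : Finset F) ⊆ {0, 1} := fun a _ => by
      by_cases e : a = 0 <;> simp [e, h a]
    have h3 := (Finset.card_le_card h2).trans Finset.card_le_two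
    rw [Finset.card_univ, ← Nat.card_eq_fintype_card] at h3
    omega
  refine ⟨Units.mk0 a h0, fun e => h1 (by simpa using congrArg Units.val e), fun e => h1 ?_⟩
  have e' : a ^ 2 = 1 := by simpa using congrArg Units.val e
  have : (a - 1) ^ 2 = 0 := by linear_combination e' + (1 - a) * m.pin.two
  exact sub_eq_zero.1 (pow_eq_zero_iff two_ne_zero |>.1 this)

theorem wt_surj (i : ZMod 8) (γ : Fˣ) : ∃ α β : Fˣ, wt α β i = γ := by
  have h : ∀ i : ZMod 8, i = 1 ∨ i = 2 ∨ i = 3 ∨ i = 4 ∨ i = 5 ∨ i = 6 ∨ i = 7 ∨ i = 0 := by decide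
  rcases h i with rfl | rfl | rfl | rfl | rfl | rfl | rfl | rfl
  · exact ⟨γ, 1, rfl⟩
  · exact ⟨1, γ, show 1 ^ 2 * γ = γ by simp⟩
  · exact ⟨1, γ, one_mul γ⟩
  · exact ⟨1, γ, rfl⟩
  · exact ⟨γ⁻¹, 1, inv_inv γ⟩
  · exact ⟨1, γ⁻¹, show (1 ^ 2 * γ⁻¹)⁻¹ = γ by simp⟩
  · exact ⟨1, γ⁻¹, show (1 * γ⁻¹)⁻¹ = γ by simp⟩
  · exact ⟨1, γ⁻¹, inv_inv γ⟩

theorem wt_nb (i : ZMod 8) {γ : Fˣ} (h1 : γ ≠ 1) :
    ∃ α β : Fˣ, wt α β i = 1 ∧ wt α β (i - 1) ≠ 1 ∧ wt α β (i + 1) ≠ 1 := by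
  have h : ∀ i : ZMod 8, i = 1 ∨ i = 2 ∨ i = 3 ∨ i = 4 ∨ i = 5 ∨ i = 6 ∨ i = 7 ∨ i = 0 := by decide
  have h2 : γ⁻¹ ≠ 1 := inv_ne_one.2 h1
  have a1 : γ * (γ ^ 2)⁻¹ = γ⁻¹ := by group
  have a2 : γ ^ 2 * γ⁻¹ = γ := by group
  rcases h i with rfl | rfl | rfl | rfl | rfl | rfl | rfl | rfl
  · exact ⟨1, γ, rfl, h2, show 1 ^ 2 * γ ≠ 1 by simpa using h1⟩
  · exact ⟨γ, (γ ^ 2)⁻¹, mul_inv_cancel _, h1, show γ * (γ ^ 2)⁻¹ ≠ 1 from a1 ▸ h2⟩
  · exact ⟨γ, γ⁻¹, mul_inv_cancel _, show γ ^ 2 * γ⁻¹ ≠ 1 from a2.symm ▸ h1, h2⟩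
  · exact ⟨γ, 1, rfl, show γ * 1 ≠ 1 by simpa using h1, h2⟩
  · exact ⟨1, γ, inv_one, h1, show (1 ^ 2 * γ)⁻¹ ≠ 1 by simpa using h1⟩
  · exact ⟨γ, (γ ^ 2)⁻¹, show (γ ^ 2 * (γ ^ 2)⁻¹)⁻¹ = 1 by simp, h2,
      show (γ * (γ ^ 2)⁻¹)⁻¹ ≠ 1 by rw [a1, inv_inv]; exact h1⟩
  · exact ⟨γ, γ⁻¹, show (γ * γ⁻¹)⁻¹ = 1 by simp, show (γ ^ 2 * γ⁻¹)⁻¹ ≠ 1 by rw [a2]; exact h2,
      show γ⁻¹⁻¹ ≠ 1 by rw [inv_inv]; exact h1⟩
  · exact ⟨γ, 1, inv_one, show (γ * 1)⁻¹ ≠ 1 by simpa using h1, h1⟩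

theorem torH [Finite G] (kp : KP L x) {h : G} (hl : h ∈ L) {α β : Fˣ} (e : Tor x h α β) :
    h ∈ HH x L :=
  ⟨hl, mem_iInf.2 fun i => mem_N_of fun y hy => by
    obtain ⟨a, rfl⟩ := (kp.memX i y).1 hy
    rw [e]
    exact x_mem _ _⟩

theorem memT [Finite G] (m : Mod L x) (kp : KP L x) (i : ZMod 8) (h : G) :
    h ∈ TT x L i ↔ h ∈ L ∧ ∃ α β, Tor x h α β ∧ wt α β i = 1 := by
  refine ⟨fun hh => ⟨hh.1.1, ?_⟩, fun ⟨hl, α, β, e, e1⟩ => ⟨torH kp hl e, fun y hy => ?_⟩⟩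
  · obtain ⟨α, β, e⟩ := kp.memH h hh.1
    refine ⟨α, β, e, Units.ext ?_⟩
    have := e i 1
    rw [(cC hh.2 (x_mem i 1)).eq, mul_inv_cancel_right, mul_one] at this
    exact (x_inj m.pin this).symm
  · obtain ⟨a, rfl⟩ := (kp.memX i y).1 hy
    have := e i a
    rw [e1, Units.val_one, one_mul] at this
    exact (mul_inv_eq_iff_eq_mul.1 this).symm

theorem cA [Finite G] (m : Mod L x) (kp : KP L x) (kn : KN L x) (tc : Tc L t) (r2 : R2 L t)
    (i : ZMod 8) (g : G) (hg : Commute g t) (hA : g ∈ C[A3 x i]) :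
    ∃ v ∈ A3 x i, ∃ o ∈ Od L t, g = v * o ∨ g = t * v * o := by
  obtain ⟨v, hv, k, hk, e⟩ := kn.cA i g ⟨tc.cN (mem_centralizer_singleton_iff.2 hg),
    centralizer_le (SetLike.coe_subset_coe.2 (le_sup_right.trans le_sup_left)) hA⟩ fun v hv => by
      rw [commutatorElement_eq_one_iff_commute.2 (cC hA hv)]
      exact one_mem _
  exact ⟨v, hv, fin tc r2 hg (A3_le m kp i hv) hk e⟩

theorem cT [Finite F] [Finite G] (m : Mod L x) (kp : KP L x) {i : ZMod 8} {v : G} (hv : v ∈ A3 x i)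
    (h : ∀ h ∈ TT x L i, Commute v h) : ∃ a, v = x i a := by
  obtain ⟨γ, h1, -⟩ := ne1 m
  obtain ⟨α, β, w0, w1, w2⟩ := wt_nb i h1
  obtain ⟨s, hs, e⟩ := kp.tor α β
  obtain ⟨a, b, c, rfl⟩ := (kp.memA i v).1 hv
  have h2 := (h s ((memT m kp i s).2 ⟨hs.1, α, β, e, w0⟩)).symm.eq
  rw [← mul_inv_eq_iff_eq_mul, ← conj_mul, ← conj_mul, e, e, e, w0, Units.val_one, one_mul] at h2
  have c1 : ∀ a b, Commute (x (i - 1) a) (x i b) := fun a b => by
    simpa using m.pin.c1 (i - 1) a b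
  have c2 : ∀ a b, Commute (x (i - 1) a) (x (i + 1) b) := fun a b => by
    have := m.pin.c2 (i - 1) a b
    rwa [show i - 1 + 2 = i + 1 by ring] at this
  have h3 := kp.uniq (i - 1) (a + wt α β (i - 1) * a) 0 (wt α β (i + 1) * c + c) 0 (by
    rw [x_zero m.pin, x_zero m.pin, mul_one, mul_one, show i - 1 + 2 = i + 1 by ring, m.pin.add,
      m.pin.add]
    have h4 : x (i - 1) (wt α β (i - 1) * a) * x (i + 1) (wt α β (i + 1) * c) =
        x (i - 1) a * x (i + 1) c := by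
      rw [(c1 _ _).eq, (c1 _ _).eq, mul_assoc, mul_assoc, mul_right_inj] at h2
      exact h2
    rw [mul_assoc, ← mul_assoc (x (i - 1) (_ * a)), h4, mul_assoc, x_sq m.pin, mul_one, x_sq m.pin])
  have k : ∀ (w : Fˣ) (a : F), w ≠ 1 → a + w * a = 0 → a = 0 := fun w a hw e => by
    have : ((w : F) - 1) * a = 0 := by linear_combination e - a * m.pin.two
    exact (mul_eq_zero.1 this).resolve_left fun e => hw (Units.ext (sub_eq_zero.1 e))
  rw [k _ a w1 h3.1, k _ c w2 (by rw [add_comm]; exact h3.2.2.1), x_zero m.pin, x_zero m.pin,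
    one_mul, mul_one]
  exact ⟨b, rfl⟩

/-- **BASE** -/
theorem base : BaseStmt.{u, v} := by
  intro F _ _ G _ _ L x m kp kn t tc r2
  have : Fact (Nat.Prime 2) := ⟨Nat.prime_two⟩
  have zl : ∀ l ∈ L, l ∈ C[L] → l = 1 := fun l h1 h2 => by
    have : l ∈ Z[L] := ⟨h1, h2⟩
    rwa [m.zL, mem_bot] at this
  refine
    { xL := xL m
      tL := fun l hl => cC tc.tc hl
      root := fun a => ?_
      ne1 := ne1 m
      ext := fun g => ext m
      nL := nL m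
      nsq := fun k => ext m (mul_mem (nL m k) (nL m k)) fun i a => ?_
      torH := fun h hl α β => torH kp hl
      memT := memT m kp
      wtH := fun i γ => ?_
      comH := fun h hh h' hh' => ?_
      oddH := ?_
      nH := fun k => (cj_n m kp k).fH
      nT := fun k => (cj_n m kp k).fT
      od := od tc r2
      split := fun k => split tc r2
      lto := fun l hl o ho => ⟨fun e => ?_, fun e => ?_⟩
      cA := cA m kp kn tc r2
      cAT := fun i g hg hA hT => ?_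
      cU := fun g hg hZ hU => ?_
      hatH := fun h hh => (cj_h kp hh).hat tc
      hatN := fun k => (cj_n m kp k).hat tc
      tldH := fun h hh => (cj_h kp hh).tld tc
      tldN := fun k => (cj_n m kp k).tld tc
      rot := fun k => ?_
      oddN := fun Γ hΓ h g hg => ?_ }
  · exact Finite.surjective_of_injective (f := fun s : F => s ^ 2) (fun a b e => by
      have e' : a ^ 2 = b ^ 2 := e
      have : (a - b) ^ 2 = 0 := by linear_combination e' + (b * b - a * b) * m.pin.two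
      exact sub_eq_zero.1 (pow_eq_zero_iff two_ne_zero |>.1 this)) a
  · refine mul_inv_eq_iff_eq_mul.1 ?_
    rw [mul_inv_rev, mul_assoc (n2 x k), ← mul_assoc, mul_assoc (n2 x k), kp.nn, kp.nn,
      sub_sub_cancel]
  · obtain ⟨α, β, e⟩ := wt_surj i γ
    obtain ⟨h, hh, e'⟩ := kp.tor α β
    exact ⟨h, hh, α, β, e', e⟩
  · obtain ⟨α, β, e⟩ := kp.memH h hh
    obtain ⟨α', β', e'⟩ := kp.memH h' hh'
    have : (h' * h)⁻¹ * (h * h') = 1 :=
      ext m (mul_mem (inv_mem (mul_mem hh'.1 hh.1)) (mul_mem hh.1 hh'.1)) fun i a => by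
        refine mul_inv_eq_iff_eq_mul.1 ?_
        have h1 : h * (h' * x i a * h'⁻¹) * h⁻¹ = h' * (h * x i a * h⁻¹) * h'⁻¹ := by
          rw [e', e, e, e', mul_left_comm]
        calc _ = (h' * h)⁻¹ * (h * (h' * x i a * h'⁻¹) * h⁻¹) * (h' * h) := by group
          _ = _ := by rw [h1]; group
    exact (inv_mul_eq_one.1 this).symm
  · by_contra he
    obtain ⟨⟨h, hh⟩, h1⟩ :=
      exists_prime_orderOf_dvd_card' 2 (even_iff_two_dvd.1 (Nat.not_odd_iff_even.1 he))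
    rw [orderOf_mk] at h1
    have h2 : h * h = 1 := by rw [← sq, ← h1, pow_orderOf_eq_one]
    obtain ⟨α, β, e⟩ := kp.memH h hh
    have : h = 1 := ext m hh.1 fun i a => by
      have h3 : h * (h * x i 1 * h⁻¹) * h⁻¹ = x i 1 := by
        calc _ = (h * h) * x i 1 * (h * h)⁻¹ := by group
          _ = _ := by rw [h2]; group
      rw [e, e] at h3
      have h4 := x_inj m.pin h3
      have h5 : ((wt α β i : F) - 1) ^ 2 = 0 := by
        linear_combination h4 + (1 - (wt α β i : F)) * m.pin.two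
      have h6 := e i a
      rw [sub_eq_zero.1 (pow_eq_zero_iff two_ne_zero |>.1 h5), one_mul] at h6
      exact mul_inv_eq_iff_eq_mul.1 h6
    rw [this, orderOf_one] at h1
    omega
  · have h1 := zl l hl (eq_inv_of_mul_eq_one_left e ▸ inv_mem ho.1)
    exact ⟨h1, by rwa [h1, one_mul] at e⟩
  · have h1 : l = t⁻¹ * o⁻¹ := by rw [← eq_inv_of_mul_eq_one_left e, inv_mul_cancel_left]
    have h2 := zl l hl (h1 ▸ mul_mem (inv_mem tc.tc) (inv_mem ho.1))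
    rw [h2, mul_one] at e
    have h3 := ho.2.2
    rw [← orderOf_inv, ← eq_inv_of_mul_eq_one_left e, tc.t2] at h3
    exact absurd h3 (by decide)
  · obtain ⟨v, hv, o, ho, e⟩ := cA m kp kn tc r2 i g hg hA
    obtain ⟨a, rfl⟩ := cT m kp hv fun h hh => by
      have h1 := cC hT hh
      have h2 := (cC ho.1 hh.1.1).inv_left
      have h3 := (cC tc.tc hh.1.1).inv_left
      rcases e with e | e
      · rw [show v = g * o⁻¹ by rw [e]; group]
        exact h1.mul_left h2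
      · rw [show v = t⁻¹ * g * o⁻¹ by rw [e]; group]
        exact (h3.mul_left h1).mul_left h2
    exact ⟨a, o, ho, e⟩
  · obtain ⟨u, hu, k, hk, e⟩ := kn.cU g ⟨tc.cN (mem_centralizer_singleton_iff.2 hg), hZ⟩ hU
    exact ⟨u, hu, fin tc r2 hg (kp.syl.le hu) hk e⟩
  · have e : ∀ i a, n2 x k * n2 x 0 * x i a * (n2 x k * n2 x 0)⁻¹ = x (i + 2 * k) a := fun i a => by
      rw [mul_inv_rev, mul_assoc (n2 x k), ← mul_assoc, mul_assoc (n2 x k), kp.nn, kp.nn]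
      congr 1
      ring
    have c : Cj L x (n2 x k * n2 x 0) (Equiv.addRight (2 * k)) :=
      ⟨mul_mem (nL m k) (nL m 0), fun i => ⟨1, fun a => by simpa using e i a⟩,
        Or.inl fun i d => by simp only [Equiv.coe_addRight]; ring⟩
    refine ⟨_, c.mem, e, fun a i p => ⟨c.hat tc a i p, fun h => ?_⟩,
      fun i p => ⟨c.tld tc i p, fun h => ?_⟩⟩
    · have := c.inv.hat tc a (Equiv.addRight (2 * k) i) _ h
      rw [Equiv.symm_apply_apply] at this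
      convert this using 1
      group
    · have := c.inv.tld tc (Equiv.addRight (2 * k) i) _ h
      rw [Equiv.symm_apply_apply] at this
      convert this using 1
      group
  · refine Odd.of_dvd_nat ?_ (orderOf_dvd_natCard Γ hg)
    by_contra he
    obtain ⟨u, h1, h2, h3, h4⟩ := fix_inv (N := Γ) (tt tc) (fun y hy => by
      have := conj_mem hΓ hy
      rwa [inv_eq_of_mul_eq_one_right (tt tc)] at this) he
    exact h2 (h u h1 h4 h3)

end Cfsg.Agent.H6.S4B
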