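import Cfsg.Agent.H53.UwDefs

/-!
Project UW (statement S4793), piece CASE2.
-/

set_option autoImplicit false

namespace Cfsg.Agent.H6.UwCase2

open Module Cfsg.Agent.H31 Cfsg.Agent.H53.Uw

universe u

section Geo

variable {E V : Type u} [Field E] [AddCommGroup V] [Module E V] {σ : E →+* E}
  {B : V →ₛₗ[σ] V →ₗ[E] E}

/-- An isometry fixing `u` commutes with the quasi-reflections with centre `u`. -/
theorem comm_of_fix [FiniteDimensional E V] (h : IsHerm B) {u : V} (hu : B u u ≠ 0)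
    {k r : isom B} (hk : k.1 u = u) (hr : r ∈ CX B (E ∙ u)) : r * k = k * r := by
  refine isom_ext fun v => ?_
  obtain ⟨c, hc⟩ := Submodule.mem_span_singleton.1 (sub_mem_of_CX h hr u)
  have hru : r.1 u = u + c • u := by rw [hc]; abel
  obtain ⟨a, w, hw, rfl⟩ : ∃ (a : E) (w : V), B u w = 0 ∧ v = a • u + w :=
    ⟨B u v / B u u, v - (B u v / B u u) • u, by
      rw [map_sub, map_smul, smul_eq_mul, div_mul_cancel₀ _ hu, sub_self], by abel⟩
  have hkw : B u (k.1 w) = 0 := by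
    have := mem_isom.1 k.2 u w
    rw [hk] at this
    rw [this, hw]
  rw [mul_ap, mul_ap]
  simp only [map_add, map_smul, hk, hru, mem_CX_span.1 hr _ hw, mem_CX_span.1 hr _ hkw]

/-- An isometry stabilizing `X` normalizes `CX X`. -/
theorem conj_mem {X : Submodule E V} {h : isom B} {t : X ≃ₗ[E] X} (ht : ∀ x : X, h.1 x = t x)
    {a : isom B} (ha : a ∈ CX B X) : h⁻¹ * a * h ∈ CX B X := by
  refine mem_CX.2 fun v hv => ?_
  have hv' : h.1 v ∈ perp B X := by
    refine mem_perp.2 fun x hx => ?_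
    have e : x = h.1 (t.symm ⟨x, hx⟩ : X) := by rw [ht, LinearEquiv.apply_symm_apply]
    rw [e, mem_isom.1 h.2]
    exact mem_perp.1 hv _ (t.symm ⟨x, hx⟩).2
  rw [mul_ap, mul_ap, mem_CX.1 ha _ hv']
  exact inv_apply_apply h.1 v

theorem pow_ap {X : Submodule E V} {g : isom B} {C : X ≃ₗ[E] X} (hg : ∀ x : X, g.1 x = C x)
    (d : ℕ) (x : X) : (g ^ d).1 x = (C ^ d) x := by
  induction d generalizing x with
  | zero => rfl
  | succ d ih => rw [pow_succ, pow_succ, mul_ap, hg, ih]; rfl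

theorem pow_scalar {X : Type u} [AddCommGroup X] [Module E X] {D : X ≃ₗ[E] X} {a : E}
    (hD : ∀ x, D x = a • x) (k : ℕ) (x : X) : (D ^ k) x = a ^ k • x := by
  induction k generalizing x with
  | zero => rw [pow_zero, pow_zero, one_smul]; rfl
  | succ k ih =>
    rw [pow_succ, pow_succ, LinearEquiv.mul_apply, hD, map_smul, ih, smul_smul, mul_comm]

end Geo

theorem case2 (r1 : R1Stmt.{u}) (r2 : R2Stmt.{u}) (r3 : R3Stmt.{u}) (gen : GenStmt.{u})
    (form : FormStmt.{u}) (fo : FoStmt.{u}) (tor : TorStmt.{u}) (kit : KitStmt.{u}) :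
    Case2Stmt.{u} := by
  intro E V _ _ _ _ _ σ B q st M _ _ _ ρ u X η v fl hq hv hvF
  have : Module.Finite E V := Module.Finite.of_finite
  have hmul : ∀ (a b : isom B) (w : M), ρ a (ρ b w) = ρ (a * b) w := fun a b w => by
    rw [map_mul]; rfl
  have hcomm : ∀ z ∈ CX B X, ∀ z' ∈ CX B X, z * z' = z' * z := fun z hz z' hz' =>
    isom_ext fun x => by
      have h1 := (gen E V σ B q st X fl.ti).2.1 z hz z' hz' x
      have h2 := (gen E V σ B q st X fl.ti).2.1 z' hz' z hz x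
      rw [add_comm, ← h2] at h1
      exact sub_left_injective h1
  have hzu : ∀ z ∈ CX B X, z.1 u = u := fun z hz =>
    mem_CX.1 hz u (mem_perp.2 fun x hx => st.herm.flip_zero (fl.orth x hx))
  have hinv : ∀ k : isom B, k.1 u = u → ∀ w ∈ Wt ρ (CX B (E ∙ u)) η,
      ρ k w ∈ Wt ρ (CX B (E ∙ u)) η := fun k hk w hw => mem_Wt.2 fun r hr => by
    rw [hmul, comm_of_fix st.herm fl.an hk hr, ← hmul, mem_Wt.1 hw r hr, map_smul]
  obtain ⟨a₀, ha₀, hne⟩ : ∃ a₀ ∈ CX B X, ρ a₀ v ≠ v := by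
    by_contra hc
    push Not at hc
    exact hvF (mem_Fix.2 hc)
  obtain ⟨l, w, hw0, hwN, hwl, hl⟩ := r1 (isom B) M ρ (CX B X) (Wt ρ (CX B (E ∙ u)) η)
    (fun a ha => hinv a (hzu a ha))
    (fun a ha b hb x _ => by rw [hmul, hmul, hcomm a ha b hb]) a₀ ha₀ v hv hne
  have hl1 : l 1 = 1 := by
    have h1 := mem_Wt.1 hwl 1 (CX B X).one_mem
    rw [map_one, Module.End.one_apply] at h1
    have h2 : (1 : ℂ) • w = l 1 • w := by rw [one_smul]; exact h1
    exact (smul_left_injective ℂ hw0 h2).symm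
  have hlm : ∀ z ∈ CX B X, ∀ z' ∈ CX B X, l (z * z') = l z * l z' := fun z hz z' hz' => by
    have h1 := mem_Wt.1 hwl _ ((CX B X).mul_mem hz hz')
    rw [← hmul, mem_Wt.1 hwl z' hz', map_smul, mem_Wt.1 hwl z hz, smul_smul, mul_comm] at h1
    exact (smul_left_injective ℂ hw0 h1).symm
  obtain ⟨ψ, hψ⟩ := (kit E V σ B q st).1
  obtain ⟨β, hβs, -, hβ0, -, hβt⟩ := form E V σ B q st ψ X l hψ fl.ti hl1 hlm
  have hβne : β ≠ 0 := fun h => hl (hβ0 h a₀ ha₀)
  obtain ⟨C, hC, hCt⟩ := fo E X σ q β st.card st.pow hβs hβne hq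
  obtain ⟨g, hgu, hgC, hg⟩ := tor E V σ B q st u X C fl hC
  have hconj : ∀ h : isom B, h * g = g * h → ∀ a ∈ CX B X, h⁻¹ * a * h ∈ CX B X :=
    fun h hh a ha => by
      obtain ⟨t, -, ht⟩ := (hg h hh).1
      exact conj_mem ht ha
  have hscal : ∀ h : isom B, h * g = g * h → (∀ z ∈ CX B X, l (h⁻¹ * z * h) = l z) →
      ∃ a : E, a * σ a = 1 ∧ ∀ x ∈ X, h.1 x = a • x := fun h hh hz => by
    obtain ⟨t, htC, ht⟩ := (hg h hh).1
    obtain ⟨a, ha, hta⟩ := hCt t htC (hβt h t ht hz)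
    exact ⟨a, ha, fun x hx => by rw [ht ⟨x, hx⟩, hta]; rfl⟩
  refine ⟨?_, fun hη hZ => ⟨g, r2 (isom B) M ρ (CX B X) _ l w ?_ hw0 hwl ?_⟩⟩
  · by_contra hlt
    push Not at hlt
    set n := finrank ℂ (Wt ρ (CX B (E ∙ u)) η) with hn
    have hgu' : ∀ i : ℕ, (g ^ i).1 u = u := fun i => by
      induction i with
      | zero => rfl
      | succ i ih => rw [pow_succ, mul_ap, hgu, ih]
    have key : ∀ i j : ℕ, i < j → j ≤ n →
        ¬ ∀ a ∈ CX B X, l ((g ^ i)⁻¹ * a * g ^ i) = l ((g ^ j)⁻¹ * a * g ^ j) := by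
      intro i j hij hjn hall
      obtain ⟨d, rfl⟩ := Nat.exists_eq_add_of_lt hij
      obtain ⟨a, ha, hga⟩ := hscal (g ^ (d + 1)) (by group) fun z hz => by
        have h1 := hall _ (hconj (g ^ i)⁻¹ (by group) z hz)
        have e1 : (g ^ i)⁻¹ * ((g ^ i)⁻¹⁻¹ * z * (g ^ i)⁻¹) * g ^ i = z := by group
        have e2 : (g ^ (i + d + 1))⁻¹ * ((g ^ i)⁻¹⁻¹ * z * (g ^ i)⁻¹) * g ^ (i + d + 1) =
            (g ^ (d + 1))⁻¹ * z * g ^ (d + 1) := by group
        rw [e1, e2] at h1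
        exact h1.symm
      have hCa : ∀ x : X, (C ^ (d + 1)) x = a • x := fun x =>
        Subtype.ext (by rw [← pow_ap hgC, hga x x.2]; rfl)
      have ha1 : a ^ (q + 1) = 1 := by rw [pow_succ', ← st.pow, ha]
      have hC1 : C ^ ((d + 1) * (q + 1)) = 1 := by
        rw [pow_mul]
        exact LinearEquiv.ext fun x => by rw [pow_scalar hCa, ha1, one_smul]; rfl
      have hle := Nat.le_of_dvd (by positivity) (orderOf_dvd_of_pow_eq_one hC1)
      rw [hC.1] at hle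
      have : (d + 1) * (q + 1) ≤ (q + 1) * n := by
        rw [mul_comm]; exact Nat.mul_le_mul_left _ (by omega)
      omega
    have h3 := r3 (isom B) M ρ (CX B X) (Wt ρ (CX B (E ∙ u)) η) (n + 1)
      (fun i a => l ((g ^ (i : ℕ))⁻¹ * a * g ^ (i : ℕ))) fun i j hij => by
        by_contra hc
        push Not at hc
        rcases lt_or_gt_of_ne (Fin.val_ne_of_ne hij) with h | h
        · exact key i j h (Nat.lt_succ_iff.1 j.2) hc
        · exact key j i h (Nat.lt_succ_iff.1 i.2) fun a ha => (hc a ha).symm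
    have h4 : ∀ i : Fin (n + 1), 1 ≤ finrank ℂ ↥(Wt ρ (CX B (E ∙ u)) η ⊓
        Wt ρ (CX B X) fun a => l ((g ^ (i : ℕ))⁻¹ * a * g ^ (i : ℕ))) := fun i => by
      rw [Nat.one_le_iff_ne_zero, Ne, Submodule.finrank_eq_zero, ← Ne, Submodule.ne_bot_iff]
      refine ⟨ρ (g ^ (i : ℕ)) w, ⟨hinv _ (hgu' i) w hwN, mem_Wt.2 fun a ha => ?_⟩, fun h0 => ?_⟩
      · rw [← map_smul, ← mem_Wt.1 hwl _ (hconj (g ^ (i : ℕ)) (by group) a ha), hmul, hmul]
        congr 2
        group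
      · apply hw0
        have := congrArg (ρ (g ^ (i : ℕ))⁻¹) h0
        rwa [hmul, inv_mul_cancel, map_one, map_zero] at this
    have h5 := Finset.sum_le_sum (s := Finset.univ) fun i _ => h4 i
    rw [Finset.sum_const, Finset.card_univ, Fintype.card_fin, smul_eq_mul, mul_one] at h5
    omega
  · intro h hh
    exact hconj h (Subgroup.mem_centralizer_singleton_iff.1 hh)
  · intro h hh hz
    have hh' := Subgroup.mem_centralizer_singleton_iff.1 hh
    obtain ⟨a, ha, hha⟩ := hscal h hh' hz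
    obtain ⟨s, hs, r, hr, -, rfl⟩ := (hg h hh').2.2 a ha hha
    rw [← hmul, mem_Wt.1 hwN r hr, hη r hr, one_smul, hZ s hs, Module.End.one_apply]

end Cfsg.Agent.H6.UwCase2
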