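import Mathlib
import Cfsg.Agent.H6.E82Defs

/-! The final assembly for `L₂(64) < E₈(2)`. -/

set_option autoImplicit false

namespace Cfsg.Agent.H6.E82

open Equiv Cfsg.Lie H37 H40 H34 H29 Module H82 H50.SL2S Finset
open scoped Matrix MatrixGroups

universe u

theorem final (red : RedStmt.{u}) (par : ParStmt) (ch : ChStmt) (l65 : L65Stmt) (twa : TwaStmt)
    (twb : TwbStmt) (en : EndStmt) (ca : CaseAStmt) (cb : CaseBStmt)
    (E : Type u) [Field E] [Fintype E] (hE : Fintype.card E = 64) (H : Subgroup G0)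
    (hH : Nonempty (Cfsg.generalizedFittingSubgroup H ≃* PSL(2, E))) : ¬ IsCoatom H := by
  intro hc
  obtain ⟨ψ, hψ⟩ := red E hE H hH
  obtain ⟨⟨p⟩, hp⟩ := par
  have h65 := (hp p).1
  have ho : orderOf (ψ (x0 p)) = 65 := (orderOf_injective ψ hψ.1 _).trans h65
  obtain ⟨i, hi, t, ht, hcj⟩ := l65 _ p.θ ho p.hθ
  have htw : TwP t (nn (wl i)) := by
    rcases lt_or_ge i 2 with h | h
    · exact twa i h p.θ t p.hθ ht
    · exact twb i hi h p.θ t p.hθ ht
  refine cb ψ hψ.1 (ca H ψ hc hψ (x0 p) (fun e => ?_) (en _ t _ (by rw [ho]; decide) hcj htw)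
    (ch H ψ hψ _ h65))
  rw [e, orderOf_one] at h65
  omega

end Cfsg.Agent.H6.E82
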