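import Mathlib
import Cfsg.Agent.H6.E82Defs

/-! The possible composition factors. -/

set_option autoImplicit false

namespace Cfsg.Agent.H6.E82.Enum

open Finset

/-- The smallest member of the orbit of `r`. -/
def orb (r : ℕ) : ℕ := ((List.range 6).map fun k => sg^[k] r).foldl min r
def reps : List ℕ := [0, 1, 3, 5, 7, 9, 11, 13, 15, 21, 23, 27, 31, 63]
def co (n e a : ℕ) : ℕ := ∑ r ∈ range 64, if orb r = a then EE n r e else 0

theorem orb_spec : ∀ r < 64, orb r ∈ reps ∧ ∃ k < 6, orb r = sg^[k] r := by decide +kernel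

theorem sg_lt : ∀ r < 64, sg r < 64 := by decide +kernel

theorem m_orb {m : ℕ → ℕ} (h : ∀ r < 64, m (sg r) = m r) {r : ℕ} (hr : r < 64) : m r = m (orb r) := by
  obtain ⟨-, k, -, e⟩ := orb_spec r hr
  rw [e]
  clear e
  induction k generalizing r with
  | zero => rfl
  | succ k ih => rw [Function.iterate_succ_apply, ← ih (sg_lt r hr), h r hr]

theorem SE_eq {m : ℕ → ℕ} (h : ∀ r < 64, m (sg r) = m r) (n e : ℕ) :
    SE m n e = (reps.map fun a => co n e a * m a).sum := by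
  rw [← List.sum_toFinset _ (by decide)]
  simp only [co, sum_mul]
  rw [sum_comm]
  refine sum_congr rfl fun r hr => ?_
  have hr := mem_range.1 hr
  rw [sum_eq_single (orb r), if_pos rfl, m_orb h hr, mul_comm]
  · intro b _ hb
    rw [if_neg hb.symm, zero_mul]
  · intro hb
    exact absurd (List.mem_toFinset.2 (orb_spec r hr).1) hb

def lin (c : List ℕ) (m : ℕ → ℕ) : ℕ := (List.zipWith (fun x a => x * m a) c reps).sum

theorem SE_lin {m : ℕ → ℕ} (h : ∀ r < 64, m (sg r) = m r) {n e : ℕ} {c : List ℕ}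
    (hc : reps.map (co n e) = c) : SE m n e = lin c m := by
  rw [SE_eq h, lin, ← hc, List.zipWith_map_left, List.zipWith_self]

theorem sum_lin {m : ℕ → ℕ} (h : ∀ r < 64, m (sg r) = m r) {n d k : ℕ} {c : List ℕ}
    (hc : (reps.map fun a => ∑ j ∈ range k, co n (d * j) a) = c) :
    ∑ j ∈ range k, SE m n (d * j) = lin c m := by
  rw [lin, ← hc, List.zipWith_map_left, List.zipWith_self, ← List.sum_toFinset _ (by decide)]
  simp only [SE_eq h, sum_mul]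
  rw [sum_comm]
  exact sum_congr rfl fun j _ => (List.sum_toFinset _ (by decide)).symm

def Eqs (n1 n3 n5 n7 n9 n11 n13 n15 n21 n23 n27 n31 n63 n0 a1 a3 a5 a7 a11 a13 : ℕ) : Prop :=
  n1 + n3 + n7 + n15 + n31 + n63 = a1 ∧ n3 + n5 + n7 + n13 + n15 + n23 + 3 * n31 + n63 = a3 ∧
  n5 + n7 + n11 + n13 + 2 * n15 + n23 + n27 + 3 * n31 + n63 = a5 ∧
  n7 + n9 + 2 * n11 + 2 * n15 + n23 + n27 + 3 * n31 + n63 = a7 ∧
  n11 + n13 + n15 + n21 + 4 * n23 + 2 * n27 + 5 * n31 + n63 = a11 ∧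
  3 * n13 + 3 * n15 + n21 + 3 * n23 + 3 * n31 + n63 = a13 ∧ n0 + 6 ≤ 6 * n1 ∧
  (∃ f7, n0 + 12 * n7 + 6 * n9 + 12 * n11 + 12 * n15 + 4 * n21 + 12 * n23 + 12 * n27 + 24 * n31 +
      10 * n63 = f7 ∧ (f7 = 248 ∨ f7 = 80 ∨ f7 = 38)) ∧
  ∃ f9, n0 + 6 * n9 + 12 * n11 + 12 * n15 + 12 * n23 + 12 * n27 + 24 * n31 + 8 * n63 = f9 ∧
    f9 ≠ 38 ∧ f9 ≠ 32 ∧ f9 ≠ 26

variable {n1 n3 n5 n7 n9 n11 n13 n15 n21 n23 n27 n31 n63 : ℕ}

theorem ar0 (h : Eqs n1 n3 n5 n7 n9 n11 n13 n15 n21 n23 n27 n31 n63 8 4 3 5 4 3 3) :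
    False := by
  obtain ⟨e1, e3, e5, e7, e11, e13, hp, ⟨f7, g7, h7⟩, f9, g9, h9⟩ := h
  have b1 : n63 ≤ 3 := by omega
  have b2 : n21 ≤ 3 := by omega
  interval_cases n63 <;> interval_cases n21 <;> omega

theorem ar1 (h : Eqs n1 n3 n5 n7 n9 n11 n13 n15 n21 n23 n27 n31 n63 8 3 4 5 3 4 3) :
    False := by
  obtain ⟨e1, e3, e5, e7, e11, e13, hp, ⟨f7, g7, h7⟩, f9, g9, h9⟩ := h
  have b1 : n63 ≤ 3 := by omega
  have b2 : n21 ≤ 3 := by omega
  interval_cases n63 <;> interval_cases n21 <;> omega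

theorem ar2 (h : Eqs n1 n3 n5 n7 n9 n11 n13 n15 n21 n23 n27 n31 n63 12 4 3 3 2 7 2) :
    False := by
  obtain ⟨e1, e3, e5, e7, e11, e13, hp, ⟨f7, g7, h7⟩, f9, g9, h9⟩ := h
  have b1 : n63 ≤ 3 := by omega
  have b2 : n21 ≤ 3 := by omega
  interval_cases n63 <;> interval_cases n21 <;> omega

theorem ar3 (h : Eqs n1 n3 n5 n7 n9 n11 n13 n15 n21 n23 n27 n31 n63 12 3 2 3 7 4 2) :
    False := by
  obtain ⟨e1, e3, e5, e7, e11, e13, hp, ⟨f7, g7, h7⟩, f9, g9, h9⟩ := h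
  have b1 : n63 ≤ 3 := by omega
  have b2 : n21 ≤ 3 := by omega
  interval_cases n63 <;> interval_cases n21 <;> omega

theorem ar4 (h : Eqs n1 n3 n5 n7 n9 n11 n13 n15 n21 n23 n27 n31 n63 12 2 7 3 4 3 2) :
    False := by
  obtain ⟨e1, e3, e5, e7, e11, e13, hp, ⟨f7, g7, h7⟩, f9, g9, h9⟩ := h
  have b1 : n63 ≤ 3 := by omega
  have b2 : n21 ≤ 3 := by omega
  interval_cases n63 <;> interval_cases n21 <;> omega

theorem ar5 (h : Eqs n1 n3 n5 n7 n9 n11 n13 n15 n21 n23 n27 n31 n63 12 7 4 3 3 2 2) :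
    n7 = 0 ∧ n11 = 0 ∧ n13 = 0 ∧ n15 = 0 ∧ n23 = 0 ∧ n27 = 0 ∧ n31 = 0 ∧ n3 = 1 ∧
      ((n1 = 4 ∧ n5 = 1 ∧ n9 = 1 ∧ n21 = 0 ∧ n63 = 2) ∨
        (n1 = 6 ∧ n5 = 3 ∧ n9 = 3 ∧ n21 = 2 ∧ n63 = 0)) := by
  obtain ⟨e1, e3, e5, e7, e11, e13, hp, ⟨f7, g7, h7⟩, f9, g9, h9⟩ := h
  have b1 : n63 ≤ 3 := by omega
  have b2 : n21 ≤ 3 := by omega
  obtain rfl : n13 = 0 := by omega
  obtain rfl : n15 = 0 := by omega
  obtain rfl : n23 = 0 := by omega
  obtain rfl : n31 = 0 := by omega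
  have b3 : n11 ≤ 1 := by omega
  have b4 : n27 ≤ 1 := by omega
  have b5 : n7 ≤ 3 := by omega
  have h1 : n7 = 0 ∧ n11 = 0 ∧ n27 = 0 ∧ n63 ≠ 1 := by
    rcases h7 with rfl | rfl | rfl <;> interval_cases n63 <;> interval_cases n11 <;>
      interval_cases n27 <;> omega
  obtain ⟨rfl, rfl, rfl, h2⟩ := h1
  refine ⟨rfl, rfl, rfl, rfl, rfl, rfl, rfl, by omega, ?_⟩
  rcases Nat.eq_zero_or_pos n63 with rfl | h3
  · exact Or.inr ⟨by omega, by omega, by omega, by omega, rfl⟩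
  · exact Or.inl ⟨by omega, by omega, by omega, by omega, by omega⟩

theorem enum : EnumStmt := by
  intro m h i hi hx hp ho
  have e0 := (SE_lin h (c := [1, 0, 0, 0, 0, 0, 0, 0, 0, 0, 0, 0, 0, 0]) (by decide +kernel)).symm.trans
    (hx 0 (by decide))
  have e1 := (SE_lin h (c := [0, 1, 1, 0, 1, 0, 0, 0, 1, 0, 0, 0, 1, 1]) (by decide +kernel)).symm.trans
    (hx 1 (by decide))
  have e3 := (SE_lin h (c := [0, 0, 1, 1, 1, 0, 0, 1, 1, 0, 1, 0, 3, 1]) (by decide +kernel)).symm.trans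
    (hx 3 (by decide))
  have e5 := (SE_lin h (c := [0, 0, 0, 1, 1, 0, 1, 1, 2, 0, 1, 1, 3, 1]) (by decide +kernel)).symm.trans
    (hx 5 (by decide))
  have e7 := (SE_lin h (c := [0, 0, 0, 0, 1, 1, 2, 0, 2, 0, 1, 1, 3, 1]) (by decide +kernel)).symm.trans
    (hx 7 (by decide))
  have e11 := (SE_lin h (c := [0, 0, 0, 0, 0, 0, 1, 1, 1, 1, 4, 2, 5, 1]) (by decide +kernel)).symm.trans
    (hx 11 (by decide))
  have e13 := (SE_lin h (c := [0, 0, 0, 0, 0, 0, 0, 3, 3, 1, 3, 0, 3, 1]) (by decide +kernel)).symm.trans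
    (hx 13 (by decide))
  have g7 := sum_lin h (n := 63) (d := 7) (k := 9) (c := [1, 0, 0, 0, 12, 6, 12, 0, 12, 4, 12, 12, 24, 10])
    (by decide +kernel)
  have g9 := sum_lin h (n := 63) (d := 9) (k := 7) (c := [1, 0, 0, 0, 0, 6, 12, 0, 12, 0, 12, 12, 24, 8])
    (by decide +kernel)
  rw [Ok63, g7, g9] at ho
  simp only [lin, reps, List.zipWith_cons_cons, List.zipWith_nil_right, List.sum_cons, List.sum_nil,
    zero_mul, one_mul, zero_add, add_zero, ← add_assoc] at e0 e1 e3 e5 e7 e11 e13 ho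
  have key : m 0 ≠ 0 → Eqs (m 1) (m 3) (m 5) (m 7) (m 9) (m 11) (m 13) (m 15) (m 21) (m 23) (m 27) (m 31)
      (m 63) (pat i 0) (pat i 1) (pat i 3) (pat i 5) (pat i 7) (pat i 11) (pat i 13) := fun h0 =>
    ⟨e1, e3, e5, e7, e11, e13, e0 ▸ hp h0, ⟨_, by rw [← e0], ho.1⟩, _, by rw [← e0], ho.2⟩
  interval_cases i
  · exact (ar0 (key (by rw [e0]; decide))).elim
  · exact (ar1 (key (by rw [e0]; decide))).elim
  · exact (ar2 (key (by rw [e0]; decide))).elim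
  · exact (ar3 (key (by rw [e0]; decide))).elim
  · exact (ar4 (key (by rw [e0]; decide))).elim
  obtain ⟨z7, z11, z13, z15, z23, z27, z31, z3, ⟨z1, z5, z9, z21, z63⟩ | ⟨z1, z5, z9, z21, z63⟩⟩ :=
    ar5 (key (by rw [e0]; decide))
  · refine Or.inl ⟨z63, fun r hr h0 => ?_⟩
    have h1 : ∀ r < 63, dS r ≤ 4 ∨ orb r ∈ [7, 11, 13, 15, 21, 23, 27, 31] := by decide +kernel
    refine (h1 r hr).resolve_right fun h2 => h0 ?_
    rw [m_orb h (by omega : r < 64)]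
    simp only [List.mem_cons, List.not_mem_nil, or_false] at h2
    rcases h2 with h2 | h2 | h2 | h2 | h2 | h2 | h2 | h2 <;> rw [h2] <;> assumption
  · refine Or.inr fun e he => ?_
    have z0 : m 0 = 12 := e0
    have h1 : ∀ e < 63, co 63 e 0 * 12 + (co 63 e 1 * 6 + (co 63 e 3 * 1 + (co 63 e 5 * 3 +
        (co 63 e 9 * 3 + co 63 e 21 * 2)))) = pat3 e := by decide +kernel
    rw [SE_eq h, ← h1 e he]
    simp only [reps, List.map_cons, List.map_nil, List.sum_cons, List.sum_nil, z0, z1, z3, z5, z7, z9,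
      z11, z13, z15, z21, z23, z27, z31, z63, mul_zero, zero_add, add_zero]

end Cfsg.Agent.H6.E82.Enum
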