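import Cfsg.Agent.S4441
import Cfsg.Agent.S4503
import Cfsg.Agent.S4504
import Cfsg.Agent.S0907
import Cfsg.Agent.H19.GaloisBlock
import Cfsg.Agent.H11.Kernel
import Cfsg.Agent.H20.PPart

/-! The principal block of a simple group with a Sylow subgroup of odd prime order. -/

set_option autoImplicit false
set_option linter.unusedSectionVars false

namespace Cfsg.Agent.H6.K4

open Subgroup Cfsg.Agent.H19
open scoped ComplexConjugate

universe u

variable {G : Type u} [Group G] [Finite G]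

/-- `|N(H) : C(H)|`. -/
noncomputable abbrev ee (H : Subgroup G) : ℕ :=
  (centralizer (H : Set G)).relIndex (normalizer (H : Set G))

/-- The degree as an integer. -/
noncomputable abbrev dg (χ : IrrCharacter G) : ℤ := (charDegree χ.1 : ℤ)

theorem ee_dvd {p : ℕ} (hp : p.Prime) {H : Subgroup G} (hH : Nat.card H = p) : ee H ∣ p - 1 := by
  have := Fact.mk hp
  have := isCyclic_of_prime_card hH
  rw [ee, relIndex, ← H.normalizerMonoidHom_ker, index_ker, ← Nat.totient_prime hp, ← hH,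
    ← IsCyclic.card_mulAut]
  exact card_subgroup_dvd_card _

theorem cong {p : ℕ} (hp : p.Prime) {χ : G → ℂ} (hχ : IsCharacter G χ) {x y : G} {k : ℕ}
    (hx : x ^ p ^ k = 1) (hxy : Commute x y) {m n : ℤ} (hm : χ (x * y) = m) (hn : χ y = n) :
    (p : ℤ) ∣ m - n := by
  obtain ⟨M, hM⟩ := exists_isPModular hp
  have := charP_kk hM
  have h := red_char_mul hM hχ hx hxy
  rw [hm, hn, red_intCast, red_intCast] at h
  rw [← CharP.intCast_eq_zero_iff (kk M) p]
  push_cast
  rw [h, sub_self]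

theorem dg_cast (χ : IrrCharacter G) : ((dg χ : ℤ) : ℂ) = χ.1 1 := by
  rw [← charDegree_cast_irr]; simp

theorem dg_pos (χ : IrrCharacter G) : 0 < dg χ := Int.natCast_pos.2 (charDegree_pos χ)

theorem brauer {p : ℕ} [hp : Fact p.Prime] (h2 : p ≠ 2) (P : Sylow p G) (hP : Nat.card P = p) :
    ∃ (M : Ideal AlgInt) (_ : IsPModular p M) (X Y : Finset (IrrCharacter G))
      (εX : IrrCharacter G → ℤ) (ε : ℤ), (∀ χ, χ ∈ principalBlock M G ↔ χ ∈ X ∨ χ ∈ Y) ∧
      (∀ χ ∈ X, χ ∉ Y) ∧ X.card = ee (P : Subgroup G) ∧ Y.card = (p - 1) / ee (P : Subgroup G) ∧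
      (∀ χ ∈ X, (εX χ = 1 ∨ εX χ = -1) ∧ dg χ ≡ εX χ [ZMOD p] ∧
        ∀ g, p ∣ orderOf g → χ.1 g = εX χ) ∧ (ε = 1 ∨ ε = -1) ∧
      (∀ θ ∈ Y, dg θ ≡ ε * ee (P : Subgroup G) [ZMOD p]) ∧
      (∀ θ ∈ Y, ∀ g, ¬ p ∣ orderOf g → ε * θ.1 g = ∑ χ ∈ X, εX χ * χ.1 g) ∧
      ∀ θ ∈ Y, ε * dg θ = ∑ χ ∈ X, εX χ * dg χ := by
  let _ := Fintype.ofFinite G
  obtain ⟨M, hM⟩ := exists_isPModular hp.out
  obtain ⟨X, Y, hB, hD, cX, cY, εX, ε, hX, hε, hY, -, hR⟩ := S4441.result p M hM h2 P hP _ rfl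
  lift X to Finset (IrrCharacter G) using Set.toFinite X
  lift Y to Finset (IrrCharacter G) using Set.toFinite Y
  have hR' : ∀ θ ∈ Y, ∀ g, ¬ p ∣ orderOf g → ε * θ.1 g = ∑ χ ∈ X, εX χ * χ.1 g :=
    fun θ hθ g hg => by rw [hR θ hθ g hg, finsum_mem_coe_finset]
  refine ⟨M, hM, X, Y, εX, ε, fun χ => by rw [hB]; rfl, fun χ h => Set.disjoint_left.1 hD h,
    (Set.ncard_coe_finset X).symm.trans cX, (Set.ncard_coe_finset Y).symm.trans cY, fun χ h => ⟨(hX χ h).1, (hX χ h).2.1, fun g hg => ?_⟩,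
    hε, hY, hR', fun θ hθ => ?_⟩
  · obtain ⟨x, y, rfl, hc, ⟨k, hk⟩, hy⟩ := H20.exists_pPart hp.out g
    have x1 : x ≠ 1 := fun e => hy (by rwa [e, one_mul] at hg)
    have h1 : IsPGroup p (zpowers x) := IsPGroup.of_card (by rw [Nat.card_zpowers, hk])
    obtain ⟨Q, hQ⟩ := h1.exists_le_sylow
    obtain ⟨c, rfl⟩ := MulAction.exists_smul_eq G Q P
    have m : c * x * c⁻¹ ∈ ((c • Q : Sylow p G) : Subgroup G) := ⟨x, hQ (mem_zpowers x), rfl⟩
    have n1 : c * x * c⁻¹ ≠ 1 := fun e => x1 (by simpa using conj_eq_one_iff.1 e)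
    rw [← H11.isClassFunction_of_irr χ.2 (x * y) c,
      show c * (x * y) * c⁻¹ = c * x * c⁻¹ * (c * y * c⁻¹) by group]
    refine (hX χ h).2.2 _ m n1 _ (fun z hz => ?_) ?_
    · obtain ⟨j, hj⟩ := mem_powers_of_prime_card hP (g := ⟨_, m⟩) (g' := ⟨z, hz⟩)
        fun e => n1 (congrArg Subtype.val e)
      have hz' : z = (c * x * c⁻¹) ^ j := (congrArg Subtype.val hj).symm
      rw [hz']
      exact ((hc.map (MulAut.conj c)).pow_left j).eq
    · exact fun e => hy (by rwa [← (MulAut.conj c).orderOf_eq y])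
  · have := hR' θ hθ 1 (by rw [orderOf_one]; exact hp.out.not_dvd_one)
    simp only [← dg_cast] at this
    exact_mod_cast this

section Simple

variable [IsSimpleGroup G] (nc : ¬ IsMulCommutative G)
include nc

omit [Finite G] in
theorem center_bot : center G = ⊥ :=
  (inferInstance : (center G).Normal).eq_bot_or_eq_top.resolve_right fun h =>
    nc ⟨⟨fun a b => (mem_center_iff.1 (h ▸ mem_top b) a)⟩⟩

omit nc in
theorem ker_bot {χ : IrrCharacter G} (h : χ ≠ oneIrr G) : H11.charKer χ.1 = ⊥ :=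
  H11.charKer_eq_bot_of_isSimpleGroup χ.2 fun e => h (Subtype.ext e)

omit nc in
theorem faith {χ : IrrCharacter G} (h : χ ≠ oneIrr G) (g : G) (e : χ.1 g = χ.1 1) : g = 1 :=
  mem_bot.1 (ker_bot h ▸ (H11.mem_charKer_irr_iff χ.2).2 e)

theorem abs_lt {χ : IrrCharacter G} (h : χ ≠ oneIrr G) {g : G} (hg : g ≠ 1) {m : ℤ}
    (e : χ.1 g = m) : |m| < dg χ := by
  have h1 := H11.norm_apply_le (H11.irr_isCharacter χ) g
  have h2 : ‖χ.1 g‖ ≠ ‖χ.1 1‖ := fun k => hg (mem_bot.1 (by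
    rw [← center_bot nc, ← H11.charCenter_eq_center χ.2 (ker_bot h)]
    exact (H11.mem_charCenter_iff (H11.irr_isCharacter χ)).2 k))
  rw [e, ← dg_cast, Complex.norm_intCast, Complex.intCast_re] at h1
  rw [e, ← dg_cast, Complex.norm_intCast, Complex.norm_intCast] at h2
  have h3 : |m| ≤ dg χ := by exact_mod_cast h1
  refine lt_of_le_of_ne h3 fun k => h2 ?_
  rw [← abs_of_pos (dg_pos χ)] at k
  exact_mod_cast k

theorem lin {χ : IrrCharacter G} (h : dg χ = 1) : χ = oneIrr G := by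
  by_contra k
  have h1 := H11.commutator_le_charKer (H11.irr_isCharacter χ) (by rw [← dg_cast, h]; simp)
  rw [ker_bot k, le_bot_iff] at h1
  refine nc ⟨⟨fun a b => commutatorElement_eq_one_iff_mul_comm.1 (mem_bot.1 ?_)⟩⟩
  exact h1 ▸ commutator_mem_commutator (mem_top a) (mem_top b)

omit nc [IsSimpleGroup G] [Finite G] in
theorem dg_one : dg (oneIrr G) = 1 := by
  rw [dg, oneIrr_coe, charDegree_const_one]; rfl

theorem data {p : ℕ} [hp : Fact p.Prime] (h2 : p ≠ 2) (P : Sylow p G) (hP : Nat.card P = p) :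
    2 ≤ ee (P : Subgroup G) ∧ ∃ (d : ℕ) (ε : ℤ), (ε = 1 ∨ ε = -1) ∧ d % 2 = 1 ∧ 1 < d ∧
      d ∣ Nat.card G ∧ p ≤ 2 * d + 1 ∧
      (2 * d + 1 = p → Nonempty (G ≃* Matrix.ProjectiveSpecialLinearGroup (Fin 2) (ZMod p))) ∧
      ((d : ℤ) ≡ ε [ZMOD p] ∨ ((d : ℤ) ≡ ε * ee (P : Subgroup G) [ZMOD p] ∧
        (ee (P : Subgroup G) = 2 → (d : ℤ) - ε ∣ Nat.card G))) := by
  classical
  obtain ⟨M, hM, X, Y, εX, ε, hB, hD, cX, cY, hX, hε, hY, -, hR⟩ := brauer h2 P hP
  have p2 := hp.out.two_le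
  have ed := ee_dvd hp.out hP
  have e0 : 0 < ee (P : Subgroup G) := Nat.pos_of_dvd_of_pos ed (by omega)
  obtain ⟨θ, hθ⟩ : Y.Nonempty :=
    Finset.card_pos.1 (cY ▸ Nat.div_pos (Nat.le_of_dvd (by omega) ed) e0)
  have o := (hB _).1 (oneIrr_mem_principalBlock (G := G) hM.2.1)
  have d1 : p ∣ Nat.card G := hP ▸ card_subgroup_dvd_card (P : Subgroup G)
  have d2 : ¬ p ^ 2 ∣ Nat.card G := fun h => P.not_dvd_index (by
    rw [← (P : Subgroup G).card_mul_index, hP, sq] at h
    exact Nat.dvd_of_mul_dvd_mul_left hp.out.pos h)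
  have nn : ∀ H : Subgroup G, H.Normal → Nat.card H ≠ p := fun H hH e => by
    rcases hH.eq_bot_or_eq_top with rfl | rfl
    · rw [card_bot] at e; omega
    · rw [card_top] at e
      have := isCyclic_of_prime_card e
      exact nc inferInstance
  constructor
  · by_contra h
    obtain ⟨χ, rfl⟩ := Finset.card_eq_one.1 (cX.trans (by omega : _ = 1))
    have sg := (hX χ (Finset.mem_singleton_self χ)).1
    have key : ∀ θ ∈ Y, dg θ = dg χ := fun θ hθ => by
      have h1 := hR θ hθ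
      have := dg_pos θ
      have := dg_pos χ
      rw [Finset.sum_singleton] at h1
      rcases sg with s | s <;> rcases hε with t | t <;> rw [s, t] at h1 <;> omega
    rcases o with o | o
    · have e := Finset.mem_singleton.1 o
      exact hD _ o (lin nc ((key θ hθ).trans (e ▸ dg_one)) ▸ hθ)
    · exact hD χ (Finset.mem_singleton_self χ) (lin nc ((key _ o).symm.trans dg_one) ▸ o)
  obtain ⟨ξ, hξ, n1, od⟩ : ∃ ξ, (ξ ∈ X ∨ ξ ∈ Y) ∧ ξ ≠ oneIrr G ∧ ¬ 2 ∣ dg ξ := by
    by_contra h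
    push Not at h
    rcases o with o | o
    · have h1 := hR θ hθ
      rw [← Finset.add_sum_erase X _ o, dg_one] at h1
      have h3 : (2 : ℤ) ∣ ∑ χ ∈ X.erase (oneIrr G), εX χ * dg χ := Finset.dvd_sum fun χ k =>
        (h χ (.inl (Finset.mem_of_mem_erase k)) (Finset.ne_of_mem_erase k)).mul_left _
      have h4 := (h θ (.inr hθ) fun e => hD _ o (e ▸ hθ)).mul_left ε
      have := (hX _ o).1
      omega
    · have h1 := hR _ o
      rw [dg_one] at h1
      have h3 : (2 : ℤ) ∣ ∑ χ ∈ X, εX χ * dg χ := Finset.dvd_sum fun χ k =>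
        (h χ (.inl k) fun e => hD _ k (e ▸ o)).mul_left _
      omega
  have pos := dg_pos ξ
  have n2 : dg ξ ≠ 1 := fun e => n1 (lin nc e)
  have hc := H11.irr_isCharacter ξ
  have iso : 2 * charDegree ξ.1 + 1 = p →
      Nonempty (G ≃* Matrix.ProjectiveSpecialLinearGroup (Fin 2) (ZMod p)) := fun e => by
    obtain ⟨f⟩ := S4504.result p hp.out d1 d2 nn ξ.1 hc (faith n1) e
    exact ⟨QuotientGroup.quotientBot.symm.trans
      ((QuotientGroup.quotientMulEquivOfEq (center_bot nc).symm).trans f)⟩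
  have le := S4503.result p hp.out d1 d2 nn ξ.1 hc (faith n1)
  unfold dg at pos n2 od
  rcases hξ with h | h
  · exact ⟨_, εX ξ, (hX ξ h).1, by omega, by omega, charDegree_dvd_card ξ, le, iso,
      .inl (hX ξ h).2.1⟩
  refine ⟨_, ε, hε, by omega, by omega, charDegree_dvd_card ξ, le, iso, .inr ⟨hY ξ h, fun e => ?_⟩⟩
  have oX : oneIrr G ∈ X := o.resolve_right fun o => by
    have := (hR _ o).trans (hR _ h).symm
    rw [dg_one] at this
    unfold dg at this
    rcases hε with t | t <;> rw [t] at this <;> omega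
  obtain ⟨g, hg⟩ := exists_prime_orderOf_dvd_card' (G := G) p d1
  have e1 : εX (oneIrr G) = 1 := by
    have : (1 : ℂ) = εX (oneIrr G) := (hX _ oX).2.2 g hg.symm.dvd
    exact_mod_cast this.symm
  obtain ⟨χ, hχ⟩ := Finset.card_eq_one.1
    (show (X.erase (oneIrr G)).card = 1 by rw [Finset.card_erase_of_mem oX, cX, e])
  have mχ : χ ∈ X := Finset.mem_of_mem_erase (hχ ▸ Finset.mem_singleton_self χ)
  have h1 := hR ξ h
  rw [← Finset.add_sum_erase X _ oX, dg_one, hχ, Finset.sum_singleton, e1] at h1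
  have dv : dg χ ∣ Nat.card G := Int.natCast_dvd_natCast.2 (charDegree_dvd_card χ)
  have : dg ξ - ε = dg χ ∨ dg ξ - ε = - dg χ := by
    rcases (hX χ mχ).1 with s | s <;> rcases hε with t | t <;> rw [s, t] at h1 <;> omega
  rcases this with k | k
  · exact k ▸ dv
  · exact k ▸ (neg_dvd.2 dv)

end Simple

/-- The principal `3`-block `{1, χ, ψ}`. -/
structure Three (x : ℕ) (χ ψ : IrrCharacter G) (f : G → ℤ) : Prop where
  two : 2 ≤ x
  md : x % 3 = 1
  d1 : charDegree χ.1 = x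
  d2 : charDegree ψ.1 = x + 1
  v1 : ∀ g, χ.1 g = f g
  reg : ∀ g, ¬ 3 ∣ orderOf g → ψ.1 g = (f g + 1 : ℤ)
  s1 : ∀ g, 3 ∣ orderOf g → f g = 1
  s2 : ∀ g, 3 ∣ orderOf g → ψ.1 g = (-1 : ℤ)

theorem three_of [IsSimpleGroup G] (nc : ¬ IsMulCommutative G) (h3 : 3 ∣ Nat.card G)
    {M : Ideal AlgInt} {α β : IrrCharacter G} (hα : α ∈ principalBlock M G)
    (hB : ∀ χ ∈ principalBlock M G, χ = oneIrr G ∨ χ = α ∨ χ = β) (n1 : α ≠ oneIrr G)
    (reg : ∀ g, ¬ 3 ∣ orderOf g → β.1 g = α.1 g + 1) (s1 : ∀ g, 3 ∣ orderOf g → α.1 g = 1)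
    (s2 : ∀ g, 3 ∣ orderOf g → β.1 g = -1) : ∃ x χ ψ f, Three (G := G) x χ ψ f := by
  have := Fact.mk Nat.prime_three
  have d2 : dg β = dg α + 1 := by
    have := reg 1 (by simp)
    rw [← dg_cast, ← dg_cast] at this
    exact_mod_cast this
  have n2 : dg α ≠ 1 := fun e => n1 (lin nc e)
  have pos := dg_pos α
  have int : ∀ g, ∃ z : ℤ, α.1 g = z := fun g =>
    H12.exists_int_of_forall_ringEquiv (irr_isIntegral α g) fun σ => by
      have dd : dg (galIrr σ α) = dg α := congrArg Nat.cast (charDegree_galIrr σ α)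
      rcases hB _ ((galIrr_mem_principalBlock_iff σ).2 hα) with e | e | e
      · rw [e, dg_one] at dd; omega
      · rw [← galIrr_apply, e]
      · rw [e] at dd; omega
  choose f hf using int
  obtain ⟨u, hu⟩ := exists_prime_orderOf_dvd_card' (G := G) 3 h3
  have c := cong Nat.prime_three (H11.irr_isCharacter α) (x := u) (y := 1) (k := 1)
    (by rw [pow_one, ← hu, pow_orderOf_eq_one]) (Commute.one_right u) (m := 1) (n := dg α)
    (by rw [mul_one, s1 u hu.symm.dvd]; simp) (dg_cast α).symm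
  unfold dg at *
  refine ⟨_, α, β, f, by omega, by omega, rfl, by omega, hf, fun g hg => ?_, fun g hg => ?_,
    fun g hg => by rw [s2 g hg]; simp⟩
  · rw [reg g hg, hf]; simp
  · have := (hf g).symm.trans (s1 g hg)
    exact_mod_cast this

theorem three [IsSimpleGroup G] (nc : ¬ IsMulCommutative G) (P : Sylow 3 G)
    (hP : Nat.card P = 3) : ∃ x χ ψ f, Three (G := G) x χ ψ f := by
  classical
  have := Fact.mk Nat.prime_three
  have e2 : ee (P : Subgroup G) = 2 :=
    le_antisymm (Nat.le_of_dvd two_pos (ee_dvd Nat.prime_three hP)) (data nc (by norm_num) P hP).1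
  have h3 : 3 ∣ Nat.card G := hP ▸ card_subgroup_dvd_card (P : Subgroup G)
  obtain ⟨u, hu⟩ := exists_prime_orderOf_dvd_card' (G := G) 3 h3
  obtain ⟨M, hM, X, Y, εX, ε, hB, hD, cX, cY, hX, hε, -, hR, hR1⟩ := brauer (by norm_num) P hP
  rw [e2] at cX cY
  obtain ⟨θ, rfl⟩ := Finset.card_eq_one.1 cY
  have hθ := Finset.mem_singleton_self θ
  have o1 : ¬ 3 ∣ orderOf (1 : G) := by simp
  have vθ : ∀ g, 3 ∣ orderOf g → θ.1 g = ((-ε : ℤ) : ℂ) := fun g hg => by
    have h1 := S0907.result 3 M hM _ (isPBlock_principalBlock (M := M) (G := G)) 1 g o1 hg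
    have n : θ ∉ X := fun h => hD θ h hθ
    rw [show principalBlock M G = ((insert θ X : Finset _) : Set (IrrCharacter G)) from
      Set.ext fun χ => by simp [hB, or_comm], finsum_mem_coe_finset, Finset.sum_insert n] at h1
    have h3 : ∑ ψ ∈ X, ψ.1 1 * conj (ψ.1 g) = ε * θ.1 1 := by
      rw [hR θ hθ 1 o1]
      exact Finset.sum_congr rfl fun ψ hψ => by rw [(hX ψ hψ).2.2 g hg, map_intCast, mul_comm]
    rw [h3] at h1
    have h4 : conj (θ.1 g) = ((-ε : ℤ) : ℂ) := by
      apply mul_left_cancel₀ (H11.irr_apply_one_ne_zero θ.2)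
      push_cast
      linear_combination h1
    have h5 := congrArg conj h4
    rwa [Complex.conj_conj, map_intCast] at h5
  have main : ∀ (α β : IrrCharacter G) (s t : ℤ), α ∈ principalBlock M G →
      β ∈ principalBlock M G → (∀ χ ∈ principalBlock M G, χ = oneIrr G ∨ χ = α ∨ χ = β) →
      α ≠ oneIrr G → β ≠ oneIrr G → (s = 1 ∨ s = -1) → (t = 1 ∨ t = -1) →
      (∀ g, ¬ 3 ∣ orderOf g → 1 + s * α.1 g + t * β.1 g = 0) →
      (∀ g, 3 ∣ orderOf g → α.1 g = s) → (∀ g, 3 ∣ orderOf g → β.1 g = t) →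
      ∃ x χ ψ f, Three (G := G) x χ ψ f := by
    intro α β s t hα hβ hB n1 n2 hs ht reg s1 s2
    have d : 1 + s * dg α + t * dg β = 0 := by
      have := reg 1 o1
      rw [← dg_cast, ← dg_cast] at this
      exact_mod_cast this
    have := dg_pos α
    have := dg_pos β
    have : dg α ≠ 1 := fun e => n1 (lin nc e)
    have : dg β ≠ 1 := fun e => n2 (lin nc e)
    rcases hs with rfl | rfl <;> rcases ht with rfl | rfl
    · omega
    · refine three_of nc h3 hα hB n1 (fun g hg => ?_) (by simpa using s1) (by simpa using s2)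
      have := reg g hg
      push_cast at this
      linear_combination -this
    · refine three_of nc h3 hβ (fun χ h => by have := hB χ h; tauto) n2 (fun g hg => ?_)
        (by simpa using s2) (by simpa using s1)
      have := reg g hg
      push_cast at this
      linear_combination -this
    · omega
  have sub : ∀ a b, a ≠ b → X = {a, b} → oneIrr G = a → ∃ x χ ψ f, Three (G := G) x χ ψ f := by
    rintro _ b ab rfl rfl
    have ma : oneIrr G ∈ ({oneIrr G, b} : Finset _) := by simp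
    have mb : b ∈ ({oneIrr G, b} : Finset _) := by simp
    have e1 : (1 : ℂ) = εX (oneIrr G) := (hX _ ma).2.2 u hu.symm.dvd
    refine main b θ (εX b) (-ε) ((hB _).2 (.inl mb)) ((hB _).2 (.inr hθ))
      (fun χ h => by have := (hB χ).1 h; simp at this; tauto) ab.symm
      (fun e => hD _ ma (e ▸ hθ)) (hX b mb).1 (by omega) (fun g hg => ?_) (hX b mb).2.2 vθ
    have := hR θ hθ g hg
    rw [Finset.sum_pair ab, ← e1, oneIrr_coe] at this
    push_cast
    linear_combination -this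
  obtain ⟨a, b, ab, hab⟩ := Finset.card_eq_two.1 cX
  rcases (hB _).1 (oneIrr_mem_principalBlock (G := G) hM.2.1) with o | o
  · rw [hab, Finset.mem_insert, Finset.mem_singleton] at o
    rcases o with o | o
    · exact sub a b ab hab o
    · exact sub b a ab.symm (hab.trans (Finset.pair_comm a b)) o
  · obtain rfl := Finset.mem_singleton.1 o
    subst hab
    have ma : a ∈ ({a, b} : Finset _) := by simp
    have mb : b ∈ ({a, b} : Finset _) := by simp
    have e1 : (1 : ℂ) = ((-ε : ℤ) : ℂ) := vθ u hu.symm.dvd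
    refine main a b (εX a) (εX b) ((hB _).2 (.inl ma)) ((hB _).2 (.inl mb))
      (fun χ h => by have := (hB χ).1 h; simp at this; tauto) (fun e => hD _ ma (e ▸ hθ))
      (fun e => hD _ mb (e ▸ hθ)) (hX a ma).1 (hX b mb).1 (fun g hg => ?_) (hX a ma).2.2
      (hX b mb).2.2
    have := hR _ hθ g hg
    rw [Finset.sum_pair ab, oneIrr_coe] at this
    push_cast at e1
    linear_combination e1 - this

end Cfsg.Agent.H6.K4
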