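import Mathlib

/-! Consecutive numbers `x, x + 1` with `x (x + 1) ∣ 2 ^ a * 5 * q ^ b` and `x ≡ 1 (mod 3)`. -/

set_option autoImplicit false

namespace Cfsg.Agent.H6.K4

theorem geom_odd {r : ℤ} (hr : Odd r) (k : ℕ) :
    (∑ i ∈ Finset.range k, r ^ i) % 2 = k % 2 := by
  induction k with
  | zero => simp
  | succ k ih =>
    rw [Finset.sum_range_succ]
    have := Int.odd_iff.1 (hr.pow (n := k))
    push_cast
    omega

theorem le_five {s : ℤ} {a : ℕ} (h : s % 2 = 1) (hd : s ∣ 2 ^ a * 5) : |s| ≤ 5 := by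
  have h1 : IsCoprime s (2 ^ a) := (Int.isCoprime_two_right.2 (Int.odd_iff.2 h)).pow_right
  exact Int.le_of_dvd (by norm_num) ((abs_dvd _ _).2 (h1.dvd_of_dvd_mul_left hd))

theorem nt1 {q k E a : ℕ} (hq : q.Prime) (h5 : 5 ≤ q) (hk : 1 ≤ k) (hE : E ∣ 2 ^ a * 5)
    (h : (E = q ^ k + 1 ∧ q ^ k % 3 = 1) ∨ (q ^ k = E + 1 ∧ E % 3 = 1)) : k = 1 := by
  have o2 : q % 2 = 1 := hq.eq_two_or_odd.resolve_left (by omega)
  have o3 : q % 3 ≠ 0 := fun e => by
    have := (Nat.prime_dvd_prime_iff_eq Nat.prime_three hq).1 (Nat.dvd_of_mod_eq_zero e)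
    omega
  by_contra hk1
  rcases Nat.even_or_odd' k with ⟨m, rfl | rfl⟩
  · have s24 : q ^ 2 % 24 = 1 := by
      have : q % 24 < 24 := Nat.mod_lt _ (by norm_num)
      have h1 : q % 24 % 2 = 1 := by omega
      have h2 : q % 24 % 3 ≠ 0 := by omega
      rw [Nat.pow_mod]
      generalize q % 24 = r at *
      interval_cases r <;> simp_all
    have s : q ^ (2 * m) % 24 = 1 := by rw [pow_mul, Nat.pow_mod, s24]; simp
    have big : q ^ 2 ≤ q ^ (2 * m) := Nat.pow_le_pow_right hq.pos (by omega)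
    have b2 : 25 ≤ q ^ 2 := by nlinarith
    rcases h with ⟨h, -⟩ | ⟨h, h'⟩
    · obtain ⟨u, v, hu, hv, e⟩ := (Nat.dvd_mul).1 hE
      obtain ⟨i, -, rfl⟩ := (Nat.dvd_prime_pow Nat.prime_two).1 hu
      have hv5 : v ≤ 5 := Nat.le_of_dvd (by norm_num) hv
      rcases i with _ | _ | i
      · omega
      · omega
      · have : E = 4 * (2 ^ i * v) := by rw [← e]; ring
        omega
    · omega
  · have h3 : 1 ≤ m := by omega
    have big : q ^ 3 ≤ q ^ (2 * m + 1) := Nat.pow_le_pow_right hq.pos (by omega)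
    have b3 : 25 * q ≤ q ^ 3 := by
      rw [pow_succ]; exact Nat.mul_le_mul_right _ (by nlinarith)
    have oq : Odd (q : ℤ) := Int.odd_iff.2 (by omega)
    have hE' : (E : ℤ) ∣ 2 ^ a * 5 := by exact_mod_cast Int.natCast_dvd_natCast.2 hE
    have key : ∀ r : ℤ, Odd r → |r - 1| ≤ q + 1 → (r ^ (2 * m + 1) - 1 = E ∨
        r ^ (2 * m + 1) - 1 = -E) → (E : ℤ) ≤ 5 * (q + 1) := by
      intro r hr h1 h2
      have g := geom_sum_mul r (2 * m + 1)
      have go := geom_odd hr (2 * m + 1)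
      set s := ∑ i ∈ Finset.range (2 * m + 1), r ^ i
      have sd : s ∣ E := by
        rcases h2 with h2 | h2
        · exact ⟨r - 1, by rw [g, h2]⟩
        · exact ⟨-(r - 1), by rw [mul_neg, g, h2, neg_neg]⟩
      have s5 := le_five (by push_cast at go; omega) (sd.trans hE')
      have : (E : ℤ) = |s| * |r - 1| := by
        rw [← abs_mul, g]
        rcases h2 with h2 | h2 <;> rw [h2] <;> simp
      rw [this]
      exact mul_le_mul s5 h1 (abs_nonneg _) (by norm_num)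
    have fin : (E : ℤ) ≤ 5 * (q + 1) := by
      rcases h with ⟨h, -⟩ | ⟨h, -⟩
      · refine key (-q) oq.neg (abs_le.2 ⟨by omega, by omega⟩) (.inr ?_)
        rw [Odd.neg_pow ⟨m, rfl⟩, h]
        push_cast
        ring
      · refine key q oq (abs_le.2 ⟨by omega, by omega⟩) (.inl ?_)
        have : ((q ^ (2 * m + 1) : ℕ) : ℤ) = E + 1 := by rw [h]; push_cast; ring
        push_cast at this
        omega
    rcases h with ⟨h, -⟩ | ⟨h, -⟩ <;> omega

theorem nt2 {q k i : ℕ} (hq : q.Prime) (h5 : 5 ≤ q) (hk : 1 ≤ k)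
    (h : (2 ^ i = 5 * q ^ k + 1 ∧ 5 * q ^ k % 3 = 1) ∨ 5 * q ^ k = 2 ^ i + 1) :
    2 ^ i = 64 ∧ q = 13 := by
  obtain ⟨n, r, hr, rfl⟩ : ∃ n r, r < 4 ∧ i = 4 * n + r :=
    ⟨i / 4, i % 4, Nat.mod_lt _ (by norm_num), by omega⟩
  have e : 2 ^ (4 * n + r) = (2 ^ n) ^ 4 * 2 ^ r := by ring
  have m15 : (2 ^ n) ^ 4 % 15 = 1 := by
    rw [← pow_mul, mul_comm, pow_mul, Nat.pow_mod]; simp
  have qk : q ≤ q ^ k := Nat.le_self_pow (by omega) q
  rw [e] at h ⊢
  rcases h with ⟨h, h'⟩ | h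
  · exfalso
    interval_cases r <;> omega
  · have r2 : r = 2 := by interval_cases r <;> omega
    subst r2
    obtain ⟨t, ht⟩ : ∃ t, 2 ^ n = t + 1 := ⟨2 ^ n - 1, by have := Nat.two_pow_pos n; omega⟩
    have f : (2 * t ^ 2 + 2 * t + 1) * (2 * t ^ 2 + 6 * t + 5) = 5 * q ^ k := by
      rw [h, ht]; ring
    have cop : ∀ L, ¬ q ∣ L → L ∣ 5 * q ^ k → L ≤ 5 := fun L h1 h2 =>
      Nat.le_of_dvd (by norm_num)
        ((((Nat.Prime.coprime_iff_not_dvd hq).2 h1).symm.pow_right k).dvd_of_dvd_mul_right h2)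
    have t1 : t ≤ 1 := by
      by_cases c : q ∣ 2 * t ^ 2 + 2 * t + 1
      · have c2 : ¬ q ∣ 2 * t ^ 2 + 6 * t + 5 := fun c2 => by
          have c3 := (Nat.dvd_add_right c).1
            (show q ∣ 2 * t ^ 2 + 2 * t + 1 + 2 ^ (n + 2) by
              rw [pow_add, ht]; convert c2 using 1; ring)
          have := Nat.le_of_dvd (by norm_num) (hq.dvd_of_dvd_pow c3)
          omega
        have := cop _ c2 ⟨_, by rw [← f, mul_comm]⟩
        nlinarith
      · have := cop _ c ⟨_, f.symm⟩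
        nlinarith
    rw [ht]
    interval_cases t
    · omega
    · have : q ^ k = 13 := by omega
      have c : q ∣ 13 := this ▸ dvd_pow_self q (by omega)
      exact ⟨by norm_num, (Nat.prime_dvd_prime_iff_eq hq (by norm_num)).1 c⟩

theorem num_aux {q a b A E : ℕ} (hq : q.Prime) (h5 : 5 ≤ q) (hA : A % 2 = 1) (h4 : 4 ≤ A)
    (hd : A * E ∣ 2 ^ a * 5 * q ^ b) (h : (E = A + 1 ∧ A % 3 = 1) ∨ (A = E + 1 ∧ E % 3 = 1)) :
    A = 5 ∨ A = q ∨ (E = 64 ∧ q = 13) := by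
  have cop : ∀ p : ℕ, p.Prime → p ∣ A → ¬ p ∣ E := fun p hp h1 h2 => by
    rcases h with ⟨h, -⟩ | ⟨h, -⟩
    · exact hp.not_dvd_one ((Nat.dvd_add_right h1).1 (h ▸ h2))
    · exact hp.not_dvd_one ((Nat.dvd_add_right h2).1 (h ▸ h1))
  have cp : ∀ {p n : ℕ}, p.Prime → ¬ p ∣ n → ∀ k, n.Coprime (p ^ k) := fun hp h k =>
    ((Nat.Prime.coprime_iff_not_dvd hp).2 h).symm.pow_right k
  have dA : A ∣ 5 * q ^ b := (cp Nat.prime_two (by omega) a).dvd_of_dvd_mul_left
    (mul_assoc (2 ^ a) 5 _ ▸ (dvd_mul_right A E).trans hd)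
  by_cases c : q ∣ A
  · have dE : E ∣ 2 ^ a * 5 :=
      (cp hq (cop q hq c) b).dvd_of_dvd_mul_right ((dvd_mul_left E A).trans hd)
    have one : ∀ k, A = q ^ k → A = q := fun k e => by
      have hk : 1 ≤ k := by
        rcases k with _ | k
        · rw [pow_zero] at e; omega
        · omega
      have := nt1 hq h5 hk dE (e ▸ h)
      rw [e, this, pow_one]
    obtain ⟨u, v, hu, hv, e⟩ := (Nat.dvd_mul).1 dA
    obtain ⟨k, -, rfl⟩ := (Nat.dvd_prime_pow hq).1 hv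
    rcases (Nat.dvd_prime (by norm_num : Nat.Prime 5)).1 hu with rfl | rfl
    · exact .inr (.inl (one k (by rw [← e, one_mul])))
    · rcases k with _ | k
      · exact .inl (by rw [← e, pow_zero, mul_one])
      have n5 : ¬ 5 ∣ E := cop 5 (by norm_num) ⟨_, e.symm⟩
      have d2 : E ∣ 2 ^ a := by
        have := cp (by norm_num : Nat.Prime 5) n5 1
        rw [pow_one] at this
        exact this.dvd_of_dvd_mul_right dE
      obtain ⟨i, -, rfl⟩ := (Nat.dvd_prime_pow Nat.prime_two).1 d2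
      refine .inr (.inr (nt2 (k := k + 1) hq h5 (by omega) ?_))
      rw [e]
      exact h.imp id fun h => h.1
  · have := Nat.le_of_dvd (by norm_num) ((cp hq c b).dvd_of_dvd_mul_right dA)
    exact .inl (by omega)

theorem num {q a b x : ℕ} (hq : q.Prime) (h5 : 5 ≤ q) (h2 : 2 ≤ x) (h3 : x % 3 = 1)
    (hd : x * (x + 1) ∣ 2 ^ a * 5 * q ^ b) :
    x = 4 ∨ x = q ∨ x + 1 = q ∨ (x = 64 ∧ q = 13) := by
  rcases Nat.mod_two_eq_zero_or_one x with h | h
  · have := num_aux (A := x + 1) (E := x) hq h5 (by omega) (by omega) (mul_comm x _ ▸ hd)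
      (.inr ⟨rfl, h3⟩)
    omega
  · have := num_aux (A := x) (E := x + 1) hq h5 h (by omega) hd (.inl ⟨rfl, h3⟩)
    omega

end Cfsg.Agent.H6.K4
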