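import Cfsg.Agent.H6.K4Blk

/-! The degrees `64, 65` do not occur in the principal `3`-block of a simple group of order
`2 ^ a * 15 * 13 ^ b`. -/

set_option autoImplicit false
set_option linter.unusedSectionVars false

namespace Cfsg.Agent.H6.K4

open Subgroup Cfsg.Agent.H19

universe u

variable {G : Type u} [Group G] [Finite G]

theorem card_syl {p : ℕ} [hp : Fact p.Prime] (P : Sylow p G) (h1 : p ∣ Nat.card G)
    (h2 : ¬ p ^ 2 ∣ Nat.card G) : Nat.card P = p := by
  obtain ⟨k, hk⟩ := P.2.exists_card_eq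
  have h3 := P.dvd_card_of_dvd_card h1
  have h4 : Nat.card P ∣ Nat.card G := card_subgroup_dvd_card (P : Subgroup G)
  rw [hk] at h3 h4 ⊢
  rcases k with _ | _ | k
  · exact absurd h3 (by simpa using hp.out.ne_one)
  · exact pow_one p
  · exact absurd ((pow_dvd_pow p (by omega)).trans h4) h2

theorem odd_dvd {d a m : ℕ} (h : d % 2 = 1) (hd : d ∣ 2 ^ a * m) : d ∣ m :=
  (((Nat.coprime_two_right.2 (Nat.odd_iff.2 h))).pow_right a).dvd_of_dvd_mul_left hd

theorem s13 [IsSimpleGroup G] (nc : ¬ IsMulCommutative G) {a : ℕ} (hd : Nat.card G ∣ 2 ^ a * 195)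
    (h13 : 13 ∣ Nat.card G) : False := by
  have := Fact.mk (by norm_num : Nat.Prime 13)
  obtain ⟨P⟩ : Nonempty (Sylow 13 G) := inferInstance
  have hP := card_syl P h13 fun h => absurd (odd_dvd (by norm_num) (h.trans hd)) (by norm_num)
  have ed := ee_dvd (by norm_num) hP
  obtain ⟨e2, d, ε, hε, d2, d1, dd, le, -, h⟩ := data nc (by norm_num) P hP
  have d195 : d ∈ Nat.divisors 195 := Nat.mem_divisors.2 ⟨odd_dvd d2 (dd.trans hd), by norm_num⟩
  have : d = 15 ∧ ε = 1 ∧ ee (P : Subgroup G) = 2 := by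
    have h' : (d : ℤ) ≡ ε [ZMOD 13] ∨ (d : ℤ) ≡ ε * ee (P : Subgroup G) [ZMOD 13] :=
      h.imp id fun h => h.1
    have := Nat.le_of_dvd (by norm_num) ed
    generalize ee (P : Subgroup G) = e at *
    rw [show Nat.divisors 195 = {1, 3, 5, 13, 15, 39, 65, 195} by decide] at d195
    simp only [Finset.mem_insert, Finset.mem_singleton] at d195
    unfold Int.ModEq at h'
    interval_cases e <;> omega
  obtain ⟨rfl, rfl, e⟩ := this
  rcases h with h | h
  · exact absurd h (by decide)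
  · have h7 : 14 ∣ Nat.card G := Int.natCast_dvd_natCast.1 (h.2 e)
    exact absurd (odd_dvd (d := 7) (by norm_num) ((Dvd.dvd.trans (by norm_num) h7).trans hd))
      (by norm_num)

theorem exists_max (Z : Subgroup G) [Z.Normal] (h : Z ≠ ⊤) :
    ∃ (N : Subgroup G) (_ : N.Normal), Z ≤ N ∧ N ≠ ⊤ ∧ IsSimpleGroup (G ⧸ N) := by
  obtain ⟨N, ⟨hN, hZ, hN'⟩, hmax⟩ :=
    (Set.toFinite {N : Subgroup G | N.Normal ∧ Z ≤ N ∧ N ≠ ⊤}).exists_maximal
      ⟨Z, inferInstance, le_rfl, h⟩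
  refine ⟨N, hN, hZ, hN', ?_⟩
  have : Nontrivial (G ⧸ N) := QuotientGroup.nontrivial_iff.2 hN'
  refine ⟨fun M hM => ?_⟩
  by_cases h : M.comap (QuotientGroup.mk' N) = ⊤
  · right
    rw [← map_comap_eq_self_of_surjective (QuotientGroup.mk'_surjective N) M, h,
      map_top_of_surjective _ (QuotientGroup.mk'_surjective N)]
  · left
    have h1 : N ≤ M.comap (QuotientGroup.mk' N) := QuotientGroup.le_comap_mk' N M
    have h2 := hmax (y := M.comap (QuotientGroup.mk' N)) ⟨hM.comap _, hZ.trans h1, h⟩ h1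
    rw [← map_comap_eq_self_of_surjective (QuotientGroup.mk'_surjective N) M,
      Subgroup.map_eq_bot_iff, QuotientGroup.ker_mk']
    exact h2

/-- A group generated by two elements of order 13. -/
theorem gen {a : ℕ} (Z : Subgroup G) [Z.Normal] (hZ : Z ≠ ⊤) (hi : Z.index ∣ 2 ^ a * 195)
    {y z : G} (hy : y ^ 13 = 1) (hz : z ^ 13 = 1) (hg : closure {y, z} = ⊤)
    (h3 : 3 ∣ Nat.card G) (h9 : ¬ 3 ^ 2 ∣ Nat.card G) :
    ∃ (u x : G) (k : ℕ), orderOf u = 3 ∧ orderOf x = 13 ^ k ∧ x ∉ Z ∧ u * x = x * u := by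
  have := Fact.mk (by norm_num : Nat.Prime 13)
  have := Fact.mk Nat.prime_three
  obtain ⟨N, _, hZN, hN, hs⟩ := exists_max Z hZ
  have key : ∀ (g : G) (n : ℕ), g ^ n = 1 → n.Coprime N.index → g ∈ N := fun g n h c =>
    (QuotientGroup.eq_one_iff g).1 (orderOf_eq_one_iff.1 (Nat.eq_one_of_dvd_coprimes c
      (orderOf_dvd_of_pow_eq_one (by rw [← QuotientGroup.mk_pow, h, QuotientGroup.mk_one]))
      (orderOf_dvd_natCard _)))
  have h13 : 13 ∣ N.index := by
    by_contra h
    have c := (Nat.Prime.coprime_iff_not_dvd (by norm_num)).2 h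
    refine hN (top_le_iff.1 (hg ▸ (closure_le _).2 ?_))
    rintro _ (rfl | rfl)
    exacts [key _ _ hy c, key _ _ hz c]
  by_cases nc : IsMulCommutative (G ⧸ N)
  swap
  · exact (s13 nc ((index_dvd_of_le hZN).trans hi) h13).elim
  have i13 : N.index = 13 := ((Nat.prime_dvd_prime_iff_eq (by norm_num)
    (Group.is_simple_iff_prime_card.1 hs)).1 h13).symm
  obtain ⟨P⟩ : Nonempty (Sylow 3 G) := inferInstance
  have hP := card_syl P h3 h9
  have PN : (P : Subgroup G) ≤ N := fun g hg => key g 3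
    (congrArg Subtype.val (hP ▸ pow_card_eq_one' (x := (⟨g, hg⟩ : P)))) (by rw [i13]; norm_num)
  obtain ⟨g, g1, g2⟩ : ∃ g ∈ normalizer ((P : Subgroup G) : Set G), g ∉ N := by
    by_contra h
    push Not at h
    exact hN (top_le_iff.1 (P.normalizer_sup_eq_top' PN ▸ sup_le h le_rfl))
  have gc : g ^ 2 ∈ centralizer ((P : Subgroup G) : Set G) := by
    obtain ⟨k, hk⟩ := ee_dvd Nat.prime_three hP
    have := pow_index_mem ((centralizer ((P : Subgroup G) : Set G)).subgroupOf _) ⟨g, g1⟩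
    rw [show 2 = ee (P : Subgroup G) * k from hk, pow_mul]
    exact pow_mem this k
  have g3 : g ^ 2 ∉ N := fun h => g2 (by
    have h1 := pow_index_mem N g
    rw [i13, show g ^ 13 = (g ^ 2) ^ 6 * g by group] at h1
    exact (mul_mem_cancel_left (pow_mem h 6)).1 h1)
  obtain ⟨x, w, e, -, ⟨k, hk⟩, hw⟩ := H20.exists_pPart (p := 13) (by norm_num)
    (⟨_, gc⟩ : centralizer ((P : Subgroup G) : Set G))
  obtain ⟨⟨u, hu⟩, ou⟩ := exists_prime_orderOf_dvd_card' (G := P) 3 hP.symm.dvd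
  refine ⟨u, x, k, by rw [← ou, orderOf_mk], by rw [← hk, orderOf_coe], fun h => g3 ?_, x.2 u hu⟩
  rw [show g ^ 2 = x * w from (congrArg Subtype.val e).symm]
  refine mul_mem (hZN h) (key _ (orderOf w) ?_ ?_)
  · rw [← orderOf_coe, pow_orderOf_eq_one]
  · rw [i13]
    exact ((Nat.Prime.coprime_iff_not_dvd (by norm_num)).2 hw).symm

theorem dvd_card_of_index {H X : Type*} [Group H] [MulAction H X] [Finite X] {k : ℕ}
    (h : ∀ x : X, k ∣ (MulAction.stabilizer H x).index) : k ∣ Nat.card X := by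
  have := Fintype.ofFinite (MulAction.orbitRel.Quotient H X)
  rw [Nat.card_congr (MulAction.selfEquivSigmaOrbits H X), Nat.card_sigma]
  exact Finset.dvd_sum fun ω _ => by
    rw [Nat.card_coe_set_eq, ← MulAction.index_stabilizer]; exact h _

/-- A union of double cosets of a `p`-group. -/
theorem dcos {p b c : ℕ} [hp : Fact p.Prime] (R : Subgroup G) (hR : Nat.card R = p ^ b)
    (T : Set G) (hT : ∀ r ∈ R, ∀ s ∈ R, ∀ g ∈ T, r * g * s⁻¹ ∈ T)
    (h : ¬ p ^ (b + c + 1) ∣ Nat.card T) :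
    ∃ g ∈ T, ∃ F ≤ R, (∀ r ∈ F, g⁻¹ * r * g ∈ R) ∧ p ^ b ∣ Nat.card F * p ^ c := by
  let _ : MulAction (R × R) T :=
    { smul := fun q g => ⟨q.1 * g * (q.2 : G)⁻¹, hT _ q.1.2 _ q.2.2 _ g.2⟩
      one_smul := fun g => Subtype.ext (show ((1 : R) : G) * g * ((1 : R) : G)⁻¹ = g by simp)
      mul_smul := fun q r g => Subtype.ext (show ((q.1 * r.1 : R) : G) * g * ((q.2 * r.2 : R) : G)⁻¹
        = q.1 * (r.1 * g * (r.2 : G)⁻¹) * (q.2 : G)⁻¹ by simp [mul_assoc]) }
  obtain ⟨g, hg⟩ := not_forall.1 (mt (dvd_card_of_index (H := R × R) (X := T)) h)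
  have st : ∀ q ∈ MulAction.stabilizer (R × R) g, (g : G)⁻¹ * q.1 * g = q.2 := fun q hq => by
    have : (q.1 : G) * g * (q.2 : G)⁻¹ = g := congrArg Subtype.val hq
    rw [mul_assoc, mul_inv_eq_iff_eq_mul.1 this, inv_mul_cancel_left]
  let φ : R × R →* G := R.subtype.comp (MonoidHom.fst R R)
  refine ⟨g, g.2, (MulAction.stabilizer (R × R) g).map φ, ?_, ?_, ?_⟩
  · rintro _ ⟨q, -, rfl⟩
    exact q.1.2
  · rintro _ ⟨q, hq, rfl⟩
    exact st q hq ▸ q.2.2
  have hc : Nat.card ((MulAction.stabilizer (R × R) g).map φ) =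
      Nat.card (MulAction.stabilizer (R × R) g) := by
    refine (Nat.card_congr (Equiv.ofBijective (φ.subgroupMap _) ⟨fun q r e => ?_,
      φ.subgroupMap_surjective _⟩)).symm
    have e1 : (q.1.1 : G) = r.1.1 := by have := congrArg Subtype.val e; exact this
    exact Subtype.ext (Prod.ext (Subtype.ext e1)
      (Subtype.ext (by rw [← st _ q.2, ← st _ r.2, e1])))
  have hm := (MulAction.stabilizer (R × R) g).card_mul_index
  rw [Nat.card_prod, hR, ← pow_add] at hm
  obtain ⟨s, -, hs⟩ := (Nat.dvd_prime_pow hp.out).1 (Dvd.intro_left _ hm)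
  obtain ⟨t, -, ht⟩ := (Nat.dvd_prime_pow hp.out).1 (Dvd.intro _ hm)
  rw [hs, ht, ← pow_add] at hm
  have := Nat.pow_right_injective hp.out.two_le hm
  rw [hs, Nat.pow_dvd_pow_iff_le_right hp.out.one_lt] at hg
  rw [hc, ht, ← pow_add]
  exact pow_dvd_pow p (by omega)

theorem count {x : ℕ} {χ ψ : IrrCharacter G} {f : G → ℤ} (h : Three x χ ψ f) {y : G}
    (hy : ¬ 3 ∣ orderOf y) :
    (3 * (x * (x + 1)) * Nat.card {g : G | 3 ∣ orderOf (g * y * g⁻¹ * y)} : ℤ) =
      Nat.card G * (x - f y) ^ 2 := by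
  classical
  let _ := Fintype.ofFinite G
  have h1 := H11.sum_irr_conj_mul χ.2 y y
  have h2 := H11.sum_irr_conj_mul ψ.2 y y
  rw [← charDegree_cast_irr, h.d1, h.v1] at h1
  rw [← charDegree_cast_irr, h.d2, h.reg y hy] at h2
  have h3 : ∑ g : G, (1 + χ.1 (g * y * g⁻¹ * y) - ψ.1 (g * y * g⁻¹ * y)) =
      3 * Nat.card {g : G | 3 ∣ orderOf (g * y * g⁻¹ * y)} := by
    rw [Nat.card_coe_set_eq, Set.ncard_eq_toFinset_card', Set.toFinset_ofPred,
      Finset.card_filter, Nat.cast_sum, Finset.mul_sum]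
    refine Finset.sum_congr rfl fun g _ => ?_
    split_ifs with c
    · rw [h.v1, h.s1 _ c, h.s2 _ c]; norm_num
    · rw [h.v1, h.reg _ c]; push_cast; ring
  rw [Finset.sum_sub_distrib, Finset.sum_add_distrib, h1, h2, Finset.sum_const, Finset.card_univ,
    ← Nat.card_eq_fintype_card] at h3
  have x0 : (x : ℂ) ≠ 0 := by have := h.two; exact_mod_cast (by omega : x ≠ 0)
  have x1 : (x : ℂ) + 1 ≠ 0 := by exact_mod_cast (by omega : x + 1 ≠ 0)
  have : (3 * (x * (x + 1)) * Nat.card {g : G | 3 ∣ orderOf (g * y * g⁻¹ * y)} : ℂ) =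
      Nat.card G * (x - f y) ^ 2 := by
    rw [mul_right_comm, ← h3]
    push_cast
    field_simp
    ring
  exact_mod_cast this

theorem six [IsSimpleGroup G] (nc : ¬ IsMulCommutative G) {a b : ℕ} (hb : 1 ≤ b)
    (hG : Nat.card G = 2 ^ a * 15 * 13 ^ b) {χ ψ : IrrCharacter G} {f : G → ℤ}
    (h : Three 64 χ ψ f) : False := by
  have p13 : Nat.Prime 13 := by norm_num
  have := Fact.mk p13
  have cop : ∀ k, (13 ^ k).Coprime (2 ^ a * 15) := fun k =>
    Nat.Coprime.pow_left k (Nat.Coprime.mul_right (Nat.Coprime.pow_right a (by norm_num))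
      (by norm_num))
  have top : ¬ 13 ^ (b + 1) ∣ Nat.card G := fun k => by
    have := (Nat.pow_dvd_pow_iff_le_right p13.one_lt).1 ((cop _).dvd_of_dvd_mul_left (hG ▸ k))
    omega
  have h9 : ¬ 3 ^ 2 ∣ Nat.card G := fun k => by
    rw [hG] at k
    have := odd_dvd (by norm_num) ((Nat.Coprime.pow_right b (by norm_num)).dvd_of_dvd_mul_right k)
    omega
  obtain ⟨R⟩ : Nonempty (Sylow 13 G) := inferInstance
  have hR : Nat.card R = 13 ^ b := by
    obtain ⟨k, hk⟩ := R.2.exists_card_eq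
    have h1 := R.pow_dvd_card_of_pow_dvd_card (n := b) (hG ▸ dvd_mul_left _ _)
    have h2 : Nat.card R ∣ Nat.card G := card_subgroup_dvd_card (R : Subgroup G)
    rw [hk] at h1 h2 ⊢
    have := (Nat.pow_dvd_pow_iff_le_right p13.one_lt).1 h1
    have : ¬ b + 1 ≤ k := fun c => top ((pow_dvd_pow _ c).trans h2)
    rw [show k = b by omega]
  obtain ⟨j, j0, hj⟩ := IsPGroup.card_center_eq_prime_pow hR hb
  obtain ⟨⟨⟨y, yR⟩, yZ⟩, oy⟩ := exists_prime_orderOf_dvd_card' (G := center R) 13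
    (hj ▸ dvd_pow_self _ j0.ne')
  rw [orderOf_mk, orderOf_mk] at oy
  have yc : ∀ r ∈ (R : Subgroup G), r * y = y * r := fun r hr =>
    congrArg Subtype.val (mem_center_iff.1 yZ ⟨r, hr⟩)
  have y13 : y ^ 13 = 1 := oy ▸ pow_orderOf_eq_one y
  have n1 : χ ≠ oneIrr G := fun e => by
    have := h.d1
    rw [e, oneIrr_coe, charDegree_const_one] at this
    omega
  have d64 : dg χ = 64 := by rw [dg, h.d1]; rfl
  obtain ⟨n, hn⟩ := cong p13 (H11.irr_isCharacter χ) (x := y) (y := 1) (k := 1) (by simpa using y13)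
    (Commute.one_right y) (m := f y) (by rw [mul_one, h.v1]) (dg_cast χ).symm
  have lt := abs_lt nc n1 (g := y) (fun e => by rw [e, orderOf_one] at oy; omega) (h.v1 y)
  rw [d64] at hn lt
  have n13 : ¬ 13 ∣ n := by have := _root_.abs_lt.1 lt; omega
  have cnt := count h (y := y) (by rw [oy]; norm_num)
  obtain ⟨g, gT, F, FR, hF, cF⟩ := dcos (c := 1) (R : Subgroup G) hR
    {g : G | 3 ∣ orderOf (g * y * g⁻¹ * y)} (fun r hr s hs g hg => by
      have e : r * g * s⁻¹ * y * (r * g * s⁻¹)⁻¹ * y = MulAut.conj r (g * y * g⁻¹ * y) := by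
        have e1 : s⁻¹ * y * s = y := by rw [yc _ (inv_mem hs), inv_mul_cancel_right]
        have e2 : r⁻¹ * y = y * r⁻¹ := yc _ (inv_mem hr)
        calc _ = r * g * (s⁻¹ * y * s) * g⁻¹ * (r⁻¹ * y) := by group
          _ = _ := by rw [e1, e2, MulAut.conj_apply]; group
      show 3 ∣ _
      rw [e, MulEquiv.orderOf_eq]
      exact hg) (fun ⟨t, ht⟩ => by
      rw [ht, hG, show ((64 : ℕ) : ℤ) - f y = -(13 * n) by push_cast at hn ⊢; omega] at cnt
      have e : (2 : ℤ) ^ a * 15 * n ^ 2 = 13 * (960 * t) := by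
        apply mul_left_cancel₀ (a := (13 : ℤ) ^ (b + 2)) (by positivity)
        push_cast at cnt
        linear_combination -cnt
      have p13' : Prime (13 : ℤ) := Int.prime_iff_natAbs_prime.2 p13
      rcases p13'.dvd_or_dvd ⟨_, e⟩ with k | k
      · have k' : 13 ^ 1 ∣ 2 ^ a * 15 := Int.natCast_dvd_natCast.1 (by exact_mod_cast k)
        exact absurd ((cop 1).eq_one_of_dvd k') (by norm_num)
      · exact n13 (p13'.dvd_of_dvd_pow k))
  have gT' : 3 ∣ orderOf (g * y * g⁻¹ * y) := gT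
  have zc : ∀ r ∈ F, r * (g * y * g⁻¹) = g * y * g⁻¹ * r := fun r hr => by
    calc _ = g * (g⁻¹ * r * g * y) * g⁻¹ := by group
      _ = _ := by rw [yc _ (hF r hr)]; group
  have z13 : (g * y * g⁻¹) ^ 13 = 1 := by rw [conj_pow, y13, mul_one, mul_inv_cancel]
  let L : Subgroup G := closure {g * y * g⁻¹, y}
  have LC : L ≤ centralizer (F : Set G) := (closure_le _).2 (by
    rintro _ (rfl | rfl)
    exacts [zc, fun r hr => yc r (FR hr)])
  have LN := LC.trans (centralizer_le_normalizer _)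
  have : (F.subgroupOf L).Normal := normal_subgroupOf_of_le_normalizer LN
  have mz : g * y * g⁻¹ ∈ L := subset_closure (by simp)
  have my : y ∈ L := subset_closure (by simp)
  have yF : y ∉ F := fun k => by
    have : (g * y * g⁻¹ * y) ^ 13 = 1 := by
      rw [Commute.mul_pow (zc y k).symm, z13, y13, one_mul]
    exact absurd (gT'.trans (orderOf_dvd_of_pow_eq_one this)) (by norm_num)
  have iF : F.index ∣ 2 ^ a * 195 := by
    apply Nat.dvd_of_mul_dvd_mul_left (Nat.card_pos (α := F))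
    rw [F.card_mul_index, hG]
    exact (mul_dvd_mul_left _ cF).trans (dvd_of_eq (by ring))
  obtain ⟨u, x, k, ou, ox, xF, ux⟩ := gen (a := a) (F.subgroupOf L)
    (fun e => yF (show (⟨y, my⟩ : L) ∈ F.subgroupOf L from e ▸ mem_top _))
    (by
      refine Dvd.dvd.trans ?_ ((relIndex_dvd_index_of_le le_normalizer).trans iF)
      show F.relIndex L ∣ _
      rw [← relIndex_subgroupOf LN]
      exact relIndex_dvd_index_of_normal _ _)
    (y := ⟨_, mz⟩) (z := ⟨y, my⟩) (Subtype.ext z13) (Subtype.ext y13)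
    (by
      rw [← closure_closure_coe_preimage]
      congr 1
      ext t
      simp [Subtype.ext_iff])
    ((orderOf_coe (⟨_, mul_mem mz my⟩ : L) ▸ gT').trans (orderOf_dvd_natCard _))
    (fun c => h9 (c.trans (card_subgroup_dvd_card L)))
  rw [← orderOf_coe] at ou ox
  have pF : IsPGroup 13 F := R.2.to_le FR
  have pK := IsPGroup.to_sup_of_normal_left' pF
    (IsPGroup.of_card (n := k) (by rw [Nat.card_zpowers, ox])) (zpowers_le.2 (LN x.2))
  obtain ⟨s, hs⟩ := pF.exists_card_eq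
  obtain ⟨t, ht⟩ := pK.exists_card_eq
  have st : s < t := by
    have : Nat.card F < Nat.card (F ⊔ zpowers (x : G) : Subgroup G) :=
      lt_of_le_of_ne (card_le_of_le le_sup_left) fun e => xF
        (show (x : G) ∈ F from eq_of_le_of_card_ge le_sup_left e.ge ▸
          mem_sup_right (mem_zpowers _))
    rw [hs, ht] at this
    exact (Nat.pow_lt_pow_iff_right p13.one_lt).1 this
  rw [hs, ← pow_add, Nat.pow_dvd_pow_iff_le_right p13.one_lt] at cF
  have KC : F ⊔ zpowers (x : G) ≤ centralizer {(u : G)} := sup_le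
    (fun r hr => mem_centralizer_singleton_iff.2 (LC u.2 r hr))
    (zpowers_le.2 (mem_centralizer_singleton_iff.2 (congrArg Subtype.val ux).symm))
  have c1 : 13 ^ b ∣ Nat.card (centralizer {(u : G)}) :=
    (pow_dvd_pow _ (by omega)).trans (ht ▸ card_dvd_of_le KC)
  have c2 : 65 ∣ (centralizer {(u : G)}).index := by
    have := (H12.irr_isIntegral_index_mul_div ψ.2 (u : G)).neg
    rw [h.s2 _ ou.symm.dvd, ← charDegree_cast_irr, h.d2] at this
    exact H12.dvd_of_isIntegral_div (by norm_num) (by convert this using 1; push_cast; ring)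
  apply top
  rw [← (centralizer {(u : G)}).card_mul_index, pow_succ]
  exact mul_dvd_mul c1 (Dvd.dvd.trans (by norm_num) c2)

end Cfsg.Agent.H6.K4
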