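import Cfsg.Agent.H50.L81Defs

set_option autoImplicit false

namespace Cfsg.Agent.H6.L81Good

open Equiv Cfsg.Lie H37 H40 H34 H29 Module H82 H50.SL2S Finset H50.E83 Cfsg.Agent.H50.L81
open H42.Fv (al cp Sum2 Clo Pos Supp Ph sg frV)
open scoped Matrix MatrixGroups

theorem act_mul' (a b : GK) (v : V) : act (a * b) v = act a (act b v) := by
  rw [map_mul]; rfl

theorem good (par : ParStmt) (ser : SerStmt) (kit : KitStmt) (hw : HwStmt) (zel : ZelStmt)
    (bt1 : Bt1Stmt) (bt2 : Bt2Stmt) (sup : SupStmt) (wst : WstStmt) (top : TopStmt)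
    (ind : IndStmt) : GoodStmt := by
  intro ψ hψ p i hc hreg g n hn hg ht
  obtain ⟨-, -, -, -, -, -, hzy, -, hconj, -⟩ := par.2.2.2 p
  have hm : rho ψ (-1) = 1 := by
    change act (ι (ψ (-1))) = 1
    rw [(hψ _).2 (Or.inr rfl), map_one, map_one]
  have hD : IsPGroup 3 ((UU F).map ψ) :=
    (isPGroup_UU (p := 3) (n := 4) card_F).map ψ
  have hD0 : (UU F).map ψ ≠ ⊥ := fun e => by
    have h1 : ψ (uu 1) = 1 := Subgroup.mem_bot.1 (e ▸ Subgroup.mem_map_of_mem ψ (uu_mem 1))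
    rcases (hψ _).1 h1 with h | h
    · have := congrArg (fun s : SL => s.1 0 1) h
      simp [uu] at this
    · have := congrArg (fun s : SL => s.1 0 1) h
      simp [uu] at this
  obtain ⟨g1, Q, P, hB, hQ, hPQ, hd, hy⟩ := bt1 _ hD hD0 (ψ (t0 p)) (by
    rintro _ ⟨_, ⟨s, rfl⟩, rfl⟩
    refine ⟨uu (((p.l : F) ^ 2)⁻¹ * s), uu_mem _, ?_⟩
    have := hconj (((p.l : F) ^ 2)⁻¹ * s)
    rw [mul_inv_cancel_left₀ (pow_ne_zero 2 p.l.ne_zero)] at this
    rw [← this]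
    simp only [map_mul, map_inv]
    group)
  obtain ⟨n1, hn1, ha⟩ := bt2 _ _ _ hzy ht hreg P hB (g⁻¹ * g1) (by convert hy using 1; group)
  let u : F → GK := fun s => g⁻¹ * ι (ψ (uu s)) * g
  obtain ⟨hPt, hU, hI⟩ := sup n1 hn1 (Set.range u) (by
    rintro _ ⟨s, rfl⟩
    refine hQ ?_
    convert hPQ _ ha _ (hd _ (Subgroup.mem_map_of_mem ψ (uu_mem s))) using 1
    simp only [u]
    group)
  have hU' : ∀ s, u s ∈ P8.U (cl (DD (Set.range u))) := fun s => hU _ ⟨s, rfl⟩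
  have hW := wst n hn (Set.range u) (by rintro _ ⟨s, rfl⟩; exact (zel.1 g n hg).1 _)
  obtain ⟨i1, i2⟩ := ind p u _ _ _ ht
    (fun s s' => by simp only [u, uu_add, map_mul]; group)
    (fun s => by
      simp only [u]
      rw [← hconj s]
      simp only [map_mul, map_inv]
      group) hPt hU' hI
  refine ⟨_, ⟨hPt, hW, i1, fun e e0 e1 => ?_, i2⟩, hU'⟩
  obtain ⟨L, hL⟩ := (ser p V (rho ψ) hm).2.2 ⊥ [] ⊤ Ser.nil bot_le (fun _ _ _ => trivial)
  have h1 := hw p V (rho ψ) hm ⊤ _ hL e e0 e1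
  rw [hc _ hL (2 * e) (by omega) (even_two_mul e)] at h1
  refine le_trans (top.2.1 _ ((⊤ ⊓ Fx (rho ψ) (UU F) ⊓ Wt (rho ψ) p e).map (act g⁻¹)) ?_)
    ((Submodule.finrank_map_le _ _).trans h1)
  rintro r ⟨hr1, hr2⟩
  refine ⟨act g (ee r), ⟨⟨trivial, ?_⟩, ?_⟩, by rw [← act_mul', inv_mul_cancel, map_one]; rfl⟩
  · rintro _ ⟨s, rfl⟩
    rw [rho_apply, ← act_mul', show ι (ψ (uu s)) * g = g * u s by simp only [u]; group, act_mul',
      top.1 _ r hr1 _ (hU' s)]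
  · refine Module.End.mem_eigenspace_iff.2 ?_
    rw [rho_apply, ← act_mul', show ι (ψ (t0 p)) * g = g * (g⁻¹ * ι (ψ (t0 p)) * g) by group, act_mul',
      ← map_smul]
    congr 1
    obtain ⟨k1, k2⟩ := kit.2.2.1 _ _ _ ht (ee r)
    have hz : zy p ^ ff i r = zy p ^ (e : ℤ) := by
      rw [← mul_inv_eq_one, ← zpow_sub, hzy.zpow_eq_one_iff_dvd]
      have hr3 : ((ff i r : ℤ) : ZMod 40) = ((e : ℤ) : ZMod 40) := by
        rw [Int.cast_natCast]; exact hr2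
      exact ((ZMod.intCast_eq_intCast_iff_dvd_sub _ _ 40).1 hr3.symm)
    funext j
    rcases j with j | s
    · rw [k1]; simp [eV]
    · rw [k2]
      by_cases h : s = r
      · subst h
        rw [hz]; simp [eV]
      · have : (s : ℕ) ≠ r := fun c => h (Fin.ext c)
        simp [eV, this]

end Cfsg.Agent.H6.L81Good
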