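import Cfsg.Agent.H93.L8Defs

/-! Project CY, chapter L8, piece TOUR. -/

set_option autoImplicit false

namespace Cfsg.Agent.H6.L8Tour

open Subgroup Cfsg.Agent.H93.L8

theorem pm (z : ℂˣ) (h : z * z = 1) : z = 1 ∨ z = -1 := by
  have h' : (z : ℂ) * z = 1 := by rw [← Units.val_mul, h, Units.val_one]
  rcases mul_self_eq_one_iff.1 h' with e | e
  · exact Or.inl (Units.ext e)
  · exact Or.inr (Units.ext (by simpa using e))

theorem ne_neg (z : ℂˣ) : z ≠ z * -1 := by
  intro h
  have h1 : (1 : ℂˣ) = -1 := mul_left_cancel (a := z) (by rw [mul_one]; exact h)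
  have : (1 : ℂ) = -1 := by simpa using congrArg Units.val h1
  norm_num at this

theorem ex_not_mem {V : Type} [Finite V] (l : List V) (h : l.length < Nat.card V) :
    ∃ x, x ∉ l := by
  classical
  have := Fintype.ofFinite V
  by_contra hc
  push Not at hc
  have h1 : (Finset.univ : Finset V) ⊆ l.toFinset := fun x _ => List.mem_toFinset.2 (hc x)
  have h2 := Finset.card_le_card h1
  have h3 := List.toFinset_card_le l
  rw [Finset.card_univ, ← Nat.card_eq_fintype_card] at h2
  omega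

theorem exfun {V : Type} [CommGroup V] [Finite V] (h2 : ∀ x : V, x * x = 1)
    (W : Subgroup (MulAut V)) (hW : Odd (Nat.card W)) (t : V) (ht : t ≠ 1) :
    ∃ b : V →* ℂˣ, b t = -1 ∧ ∀ u ∈ W, u t = t → ∀ s, b (u s) = b s := by
  classical
  have : NeZero (Monoid.exponent V) := ⟨Monoid.exponent_ne_zero_of_finite⟩
  obtain ⟨l, hl⟩ := CommGroup.exists_apply_ne_one_of_hasEnoughRootsOfUnity V ℂ ht
  have hl' : l t = -1 := (pm _ (by rw [← map_mul, h2, map_one])).resolve_left hl
  let T : Subgroup (MulAut V) := W ⊓ MulAction.stabilizer (MulAut V) t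
  have hT : Odd (Nat.card T) := hW.of_dvd_nat (card_dvd_of_le inf_le_left)
  have := Fintype.ofFinite T
  refine ⟨∏ w : T, l.comp (w.1 : V ≃* V).toMonoidHom, ?_, ?_⟩
  · rw [MonoidHom.finsetProd_apply]
    have e : ∀ w : T, (l.comp (w.1 : V ≃* V).toMonoidHom) t = -1 := fun w => by
      have : w.1 t = t := w.2.2
      simp only [MonoidHom.comp_apply, MulEquiv.coe_toMonoidHom, this, hl']
    rw [Finset.prod_congr rfl fun w _ => e w, Finset.prod_const, Finset.card_univ,
      ← Nat.card_eq_fintype_card, hT.neg_one_pow]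
  · intro u hu hut s
    rw [MonoidHom.finsetProd_apply, MonoidHom.finsetProd_apply]
    let u' : T := ⟨u, hu, hut⟩
    exact Fintype.prod_equiv (Equiv.mulRight u') _ _ fun w => rfl

theorem core {V : Type} [CommGroup V] [Finite V] (h2 : ∀ x : V, x * x = 1)
    (W : Subgroup (MulAut V)) (hW : Odd (Nat.card W))
    (htr : ∀ a b : V, a ≠ 1 → b ≠ 1 → ∃ w ∈ W, w a = b)
    (hc : ∀ t s s' : V, t ≠ 1 → s ≠ 1 → s' ≠ 1 → s ≠ t → s' ≠ t →
      ∃ w ∈ W, w t = t ∧ (w s = s' ∨ w s = s' * t)) : Nat.card V ≤ 8 := by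
  classical
  by_contra hlt
  push Not at hlt
  obtain ⟨t1, ht1⟩ := ex_not_mem [(1 : V)] (by simp; omega)
  simp only [List.mem_singleton] at ht1
  obtain ⟨b0, hb0, hinv⟩ := exfun h2 W hW t1 ht1
  have hw : ∀ t : V, ∃ w ∈ W, t ≠ 1 → w t = t1 := fun t => by
    by_cases h : t = 1
    · exact ⟨1, W.one_mem, fun h' => absurd h h'⟩
    · obtain ⟨w, hw, e⟩ := htr t t1 h ht1
      exact ⟨w, hw, fun _ => e⟩
  choose ω hωW hω using hw
  let b : V → (V →* ℂˣ) := fun t => b0.comp (ω t : V ≃* V).toMonoidHom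
  have hb : ∀ t s, b t s = b0 (ω t s) := fun _ _ => rfl
  have b1 : ∀ t, t ≠ 1 → b t t = -1 := fun t ht => by rw [hb, hω t ht, hb0]
  have bpm : ∀ t s, b t s = 1 ∨ b t s = -1 := fun t s => pm _ (by rw [← map_mul, h2, map_one])
  have beq : ∀ t, t ≠ 1 → ∀ w ∈ W, ∀ s, b (w t) (w s) = b t s := by
    intro t ht w hw s
    have hwt : w t ≠ 1 := fun e => ht (by simpa using e)
    have := hinv (ω (w t) * w * (ω t)⁻¹) (W.mul_mem (W.mul_mem (hωW _) hw) (W.inv_mem (hωW _)))
      (by
        have e : (ω t)⁻¹ t1 = t := by rw [← hω t ht]; simp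
        simp only [MulAut.mul_apply, e, hω _ hwt]) (ω t s)
    rw [hb, hb, ← this]
    simp only [MulAut.mul_apply, MulAut.inv_apply_self]
  have anti : ∀ t s, t ≠ 1 → s ≠ 1 → s ≠ t → b t s * b s t = -1 := by
    intro t s ht hs hst
    have hne : b t s ≠ b s t := by
      intro e
      obtain ⟨w, hw, hwt⟩ := htr t s ht hs
      have hx : w (w⁻¹ t) = t := by simp
      have hx1 : w⁻¹ t ≠ 1 := fun e => ht (by rw [← hx, e, map_one])
      have hxt : w⁻¹ t ≠ t := fun e => hst (by rw [← hwt, ← e, hx, e])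
      have e1 : b t (w⁻¹ t) = b t s := by
        rw [← beq t ht w hw, hwt, hx, e]
      obtain ⟨u, hu, hut, h | h⟩ := hc t (w⁻¹ t) s ht hx1 hs hxt hst
      · have hv : u * w⁻¹ ∈ W := W.mul_mem hu (W.inv_mem hw)
        have v1 : (u * w⁻¹) t = s := h
        have v2 : (u * w⁻¹) s = t := by
          rw [MulAut.mul_apply, ← hwt, MulAut.inv_apply_self, hut]
        obtain ⟨k, hk⟩ := hW
        have p1 : (u * w⁻¹) ^ (2 * k + 1) = 1 := by
          have := pow_card_eq_one' (G := W) (x := ⟨_, hv⟩)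
          rw [hk] at this
          exact congrArg Subtype.val this
        have p2 : ∀ j : ℕ, ((u * w⁻¹) ^ (2 * j + 1)) t = s := by
          intro j
          induction j with
          | zero => simpa using v1
          | succ j ih =>
            rw [show 2 * (j + 1) + 1 = 1 + 1 + (2 * j + 1) by ring, pow_add, pow_add, pow_one,
              MulAut.mul_apply, ih, MulAut.mul_apply, v2, v1]
        have := p2 k
        rw [p1] at this
        exact hst this.symm
      · have e2 := beq t ht u hu (w⁻¹ t)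
        rw [hut, h, map_mul, b1 t ht, e1] at e2
        exact ne_neg _ e2.symm
    rcases bpm t s with e1 | e1 <;> rcases bpm s t with e2 | e2 <;> simp_all
  obtain ⟨t2, ht2⟩ := ex_not_mem [1, t1] (by simp; omega)
  simp only [List.mem_cons, List.not_mem_nil, or_false, not_or] at ht2
  have h3 : t1 * t2 ≠ 1 := fun e => ht2.2 (by
    have := h2 t1
    exact mul_left_cancel (a := t1) (by rw [e, this]))
  have L : ∀ s, s ≠ 1 → s ≠ t1 → s ≠ t2 → s ≠ t1 * t2 →
      b t1 s * b t2 s * b (t1 * t2) s = -1 := by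
    intro s a0 a1 a2 a3
    have c1 := anti t1 s ht1 a0 a1
    have c2 := anti t2 s ht2.1 a0 a2
    have c3 := anti _ s h3 a0 a3
    have c4 : b s t1 * b s t2 * b s (t1 * t2) = 1 := by
      rw [← map_mul, ← map_mul, h2, map_one]
    calc b t1 s * b t2 s * b (t1 * t2) s
        = (b t1 s * b t2 s * b (t1 * t2) s) * (b s t1 * b s t2 * b s (t1 * t2)) := by
          rw [c4, mul_one]
      _ = (b t1 s * b s t1) * (b t2 s * b s t2) * (b (t1 * t2) s * b s (t1 * t2)) := by
          simp only [mul_assoc, mul_comm, mul_left_comm]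
      _ = -1 := by rw [c1, c2, c3]; simp
  obtain ⟨s, hs⟩ := ex_not_mem [1, t1, t2, t1 * t2] (by simp; omega)
  obtain ⟨r, hr⟩ := ex_not_mem [1, t1, t2, t1 * t2, s, s * t1, s * t2, s * (t1 * t2)]
    (by simp; omega)
  simp only [List.mem_cons, List.not_mem_nil, or_false, not_or] at hs hr
  have k : ∀ v, s * r = v → r = s * v := fun v e => by rw [← e, ← mul_assoc, h2, one_mul]
  have l1 := L s hs.1 hs.2.1 hs.2.2.1 hs.2.2.2
  have l2 := L r hr.1 hr.2.1 hr.2.2.1 hr.2.2.2.1
  have l3 := L (s * r) (fun e => hr.2.2.2.2.1 (by rw [k _ e, mul_one]))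
    (fun e => hr.2.2.2.2.2.1 (k _ e)) (fun e => hr.2.2.2.2.2.2.1 (k _ e))
    (fun e => hr.2.2.2.2.2.2.2 (k _ e))
  have l4 : b t1 (s * r) * b t2 (s * r) * b (t1 * t2) (s * r) =
      (b t1 s * b t2 s * b (t1 * t2) s) * (b t1 r * b t2 r * b (t1 * t2) r) := by
    simp only [map_mul, mul_assoc, mul_comm, mul_left_comm]
  rw [l3, l1, l2] at l4
  exact ne_neg _ l4

theorem tour : TourStmt := by
  intro G _ _ hG P
  have : Fact (Nat.Prime 2) := ⟨Nat.prime_two⟩
  have sq : ∀ x : G, x ∈ (P : Subgroup G) → x * x = 1 := by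
    intro x hx
    obtain ⟨k, hk⟩ := P.isPGroup' ⟨x, hx⟩
    have hk' : x ^ 2 ^ k = 1 := congrArg Subtype.val hk
    have key : ∀ k : ℕ, ∀ y : G, y ^ 2 ^ k = 1 → y ^ 2 = 1 := by
      intro k
      induction k with
      | zero => intro y hy; rw [pow_zero, pow_one] at hy; rw [hy, one_pow]
      | succ k ih =>
        intro y hy
        apply hG.four
        have := ih (y ^ 2) (by rw [← pow_mul, ← pow_succ', hy])
        rwa [← pow_mul] at this
    rw [← pow_two]
    exact key k x hk'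
  have cm : ∀ x ∈ (P : Subgroup G), ∀ y ∈ (P : Subgroup G), x * y = y * x := by
    intro x hx y hy
    have h1 := sq _ (mul_mem hx hy)
    have hx' : x⁻¹ = x := inv_eq_of_mul_eq_one_right (sq x hx)
    have hy' : y⁻¹ = y := inv_eq_of_mul_eq_one_right (sq y hy)
    have h2 : (x * y)⁻¹ = x * y := inv_eq_of_mul_eq_one_right h1
    rw [← h2, mul_inv_rev, hx', hy']
  have ord : ∀ x : (P : Subgroup G), x ≠ 1 → orderOf (x : G) = 2 := fun x hx =>
    orderOf_eq_prime (by rw [pow_two]; exact sq _ x.2) fun e => hx (Subtype.ext e)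
  have hPc : (P : Subgroup G) ≤ centralizer ((P : Subgroup G) : Set G) := fun x hx y hy =>
    cm y hy x hx
  letI : CommGroup (P : Subgroup G) :=
    { (inferInstance : Group (P : Subgroup G)) with
      mul_comm := fun a b => Subtype.ext (cm _ a.2 _ b.2) }
  let φ := (P : Subgroup G).normalizerMonoidHom
  have hφ : ∀ (n : normalizer ((P : Subgroup G) : Set G)) (x : (P : Subgroup G)),
      ((φ n x : (P : Subgroup G)) : G) = n * x * (n : G)⁻¹ := fun _ _ => rfl
  refine core (V := (P : Subgroup G)) (fun x => Subtype.ext (sq _ x.2)) φ.range ?_ ?_ ?_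
  · rw [← index_ker, normalizerMonoidHom_ker]
    have h1 : ((P : Subgroup G).subgroupOf (normalizer ((P : Subgroup G) : Set G))) ≤
        (centralizer ((P : Subgroup G) : Set G)).subgroupOf _ := fun x hx => hPc hx
    have h2 := (P.subtype (N := normalizer ((P : Subgroup G) : Set G)) le_normalizer).not_dvd_index
    rw [← Nat.not_even_iff_odd, even_iff_two_dvd]
    exact fun h => h2 (h.trans (index_dvd_of_le h1))
  · intro a b ha hb
    obtain ⟨c, hc⟩ := isConj_iff.1 (hG.conj _ _ (ord a ha) (ord b hb))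
    obtain ⟨n, hn, e⟩ := P.conj_eq_normalizer_conj_of_mem_centralizer a c⁻¹ (hPc a.2)
      (by rw [inv_inv, hc]; exact hPc b.2)
    refine ⟨φ ⟨n⁻¹, inv_mem hn⟩, ⟨_, rfl⟩, Subtype.ext ?_⟩
    rw [hφ, inv_inv, ← e, inv_inv, hc]
  · intro t s s' ht hs hs' hst hs't
    obtain ⟨g, hg, hh⟩ := hG.cen t s s' (ord t ht) (ord s hs) (ord s' hs')
      (fun e => hst (Subtype.ext e)) (fun e => hs't (Subtype.ext e)) (cm _ s.2 _ t.2)
      (cm _ s'.2 _ t.2)
    let C : Subgroup G := centralizer ({(t : G)} : Set G)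
    have hPC : (P : Subgroup G) ≤ C := fun x hx => mem_centralizer_singleton_iff.2 (cm x hx _ t.2)
    have hgC : g ∈ C := mem_centralizer_singleton_iff.2 hg
    have hm : g * s * g⁻¹ ∈ (P : Subgroup G) := by
      rcases hh with e | e <;> rw [e]
      · exact s'.2
      · exact mul_mem s'.2 t.2
    have cc : ∀ x : C, (x : G) ∈ (P : Subgroup G) →
        x ∈ centralizer ((P.subtype hPC : Sylow 2 C) : Set C) := fun x hx y hy =>
      Subtype.ext (cm _ hy _ hx)
    obtain ⟨n, hn, e⟩ := (P.subtype hPC).conj_eq_normalizer_conj_of_mem_centralizer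
      ⟨s, hPC s.2⟩ ⟨g, hgC⟩⁻¹ (cc _ s.2) (cc _ (by simpa using hm))
    have hn' : ((n⁻¹ : C) : G) ∈ normalizer ((P : Subgroup G) : Set G) := by
      apply mem_normalizer_fintype
      intro y hy
      exact ((mem_normalizer_iff.1 (inv_mem hn)) ⟨y, hPC hy⟩).1 hy
    have e' : g * s * g⁻¹ = ((n⁻¹ : C) : G) * s * ((n⁻¹ : C) : G)⁻¹ := by
      simpa using congrArg Subtype.val e
    refine ⟨φ ⟨_, hn'⟩, ⟨_, rfl⟩, Subtype.ext ?_, ?_⟩
    · rw [hφ]
      have := mem_centralizer_singleton_iff.1 (n⁻¹).2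
      rw [this, mul_inv_cancel_right]
    · rcases hh with h | h
      · exact Or.inl (Subtype.ext (by rw [hφ, ← e', h]))
      · exact Or.inr (Subtype.ext (by rw [hφ, ← e', h]; rfl))

end Cfsg.Agent.H6.L8Tour
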