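import Cfsg.Agent.H58.Q4Defs
import Cfsg.Agent.S4221
import Cfsg.Agent.S0418

/-!
Project Q4 (statement S3404), piece HALL.
-/

set_option autoImplicit false

namespace Cfsg.Agent.H6.Q4Hall

open Subgroup Equiv Function MulAction Cfsg.Agent.H58.Q4
open scoped commutatorElement

universe u

variable {G Ω : Type u} [Group G] [MulAction G Ω] {N : Subgroup G} {Δ : Set Ω} {k : ℕ}
  {e : Fin k → Ω}

theorem exists_rho (hinv : ∀ g ∈ N, ∀ x ∈ Δ, g • x ∈ Δ) (he : Injective e)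
    (hr : Set.range e = Δ) :
    ∃ ρ : N →* Perm (Fin k), ∀ (g : N) i, (g : G) • e i = e (ρ g i) := by
  have h : ∀ (g : N) i, ∃ j, e j = (g : G) • e i := fun g i => by
    have := hinv g g.2 (e i) (hr ▸ Set.mem_range_self i)
    rwa [← hr] at this
  choose f hf using h
  let _ : MulAction N (Fin k) :=
    { smul := f
      one_smul := fun i => he (by
        change e (f 1 i) = e i
        rw [hf, OneMemClass.coe_one, one_smul])
      mul_smul := fun a b i => he (by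
        change e (f (a * b) i) = e (f a (f b i))
        rw [hf, hf, hf, coe_mul, mul_smul]) }
  exact ⟨MulAction.toPermHom N (Fin k), fun g i => (hf g i).symm⟩

theorem exists_emb (hr : Set.range e = Δ) {F : Set Ω} (hF : F ⊆ Δ) (h4 : F.ncard = 4) :
    ∃ x : Fin 4 ↪ Fin k, ∀ ω, ω ∈ F ↔ ∃ i, e (x i) = ω := by
  have hfin : F.Finite := Set.finite_of_ncard_ne_zero (by omega)
  have := hfin.to_subtype
  let a : F ≃ Fin 4 := Finite.equivFinOfCardEq h4
  have h : ∀ i, ∃ j, e j = (a.symm i : Ω) := fun i => by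
    have := hF (a.symm i).2
    rwa [← hr] at this
  choose f hf using h
  refine ⟨⟨f, fun i j hij => a.symm.injective (Subtype.ext ?_)⟩, fun ω => ⟨fun h => ?_, ?_⟩⟩
  · rw [← hf, ← hf, hij]
  · exact ⟨a ⟨ω, h⟩, by change e (f _) = ω; rw [hf, symm_apply_apply]⟩
  · rintro ⟨i, rfl⟩
    change e (f i) ∈ F
    rw [hf]
    exact (a.symm i).2

variable {ρ : N →* Perm (Fin k)}

theorem rho_eq_one (he : Injective e) (hr : Set.range e = Δ)
    (hρ : ∀ (g : N) i, (g : G) • e i = e (ρ g i)) {g : N} : ρ g = 1 ↔ (g : G) ∈ St G Δ := by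
  rw [mem_St, ← hr]
  refine ⟨fun h => ?_, fun h => Equiv.ext fun i => he ?_⟩
  · rintro _ ⟨i, rfl⟩
    rw [hρ, h, Perm.one_apply]
  · rw [← hρ, h _ (Set.mem_range_self i), Perm.one_apply]

theorem trans4 (he : Injective e) (hr : Set.range e = Δ) (htr : Tr4 N Δ)
    (hρ : ∀ (g : N) i, (g : G) • e i = e (ρ g i)) : IsMultiplyPretransitive ρ.range (Fin k) 4 :=
  ⟨fun x y => by
    obtain ⟨g, hg, h⟩ := htr (e ∘ x) (e ∘ y) (he.comp x.injective) (he.comp y.injective)
      (fun i => hr ▸ Set.mem_range_self _) (fun i => hr ▸ Set.mem_range_self _)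
    refine ⟨⟨ρ ⟨g, hg⟩, _, rfl⟩, Embedding.ext fun i => he ?_⟩
    exact (hρ ⟨g, hg⟩ (x i)).symm.trans (h i)⟩

theorem mem_stab (he : Injective e) (hρ : ∀ (g : N) i, (g : G) • e i = e (ρ g i)) {F : Set Ω}
    {x : Fin 4 ↪ Fin k} (hx : ∀ ω, ω ∈ F ↔ ∃ i, e (x i) = ω) {g : N} :
    (⟨ρ g, g, rfl⟩ : ρ.range) ∈ stabilizer ρ.range x ↔ (g : G) ∈ St G F := by
  rw [mem_stabilizer_iff, mem_St]
  refine ⟨fun h ω hω => ?_, fun h => Embedding.ext fun i => he ?_⟩
  · obtain ⟨i, rfl⟩ := (hx ω).1 hω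
    rw [hρ]
    exact congrArg e (DFunLike.congr_fun h i)
  · exact (hρ g (x i)).symm.trans (h _ ((hx _).2 ⟨i, rfl⟩))

theorem card_stab (he : Injective e) (hr : Set.range e = Δ)
    (hρ : ∀ (g : N) i, (g : G) • e i = e (ρ g i)) {F : Set Ω}
    {x : Fin 4 ↪ Fin k} (hx : ∀ ω, ω ∈ F ↔ ∃ i, e (x i) = ω) :
    Nat.card (stabilizer ρ.range x) = (St G Δ).relIndex (N ⊓ St G F) := by
  let τ : ↥(N ⊓ St G F) →* Perm (Fin k) := ρ.comp (inclusion inf_le_left)
  have h1 : τ.ker = (St G Δ).subgroupOf (N ⊓ St G F) := by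
    ext g
    exact rho_eq_one he hr hρ
  have h2 : τ.range = (stabilizer ρ.range x).map ρ.range.subtype := by
    ext s
    constructor
    · rintro ⟨g, rfl⟩
      exact ⟨_, (mem_stab he hρ hx (g := inclusion inf_le_left g)).2 g.2.2, rfl⟩
    · rintro ⟨⟨_, g, rfl⟩, hs, rfl⟩
      exact ⟨⟨g, g.2, (mem_stab he hρ hx).1 hs⟩, rfl⟩
  rw [relIndex, ← h1, index_ker, h2, card_map_of_injective ρ.range.subtype_injective]

theorem card_range (he : Injective e) (hr : Set.range e = Δ) (htr : Tr4 N Δ)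
    (hρ : ∀ (g : N) i, (g : G) • e i = e (ρ g i)) (x : Fin 4 ↪ Fin k) :
    k.descFactorial 4 * Nat.card (stabilizer ρ.range x) = Nat.card ρ.range := by
  have h : (stabilizer ρ.range x).index = Nat.card (Fin 4 ↪ Fin k) :=
    @index_stabilizer_of_transitive _ _ _ _ x (trans4 he hr htr hρ)
  rw [← (stabilizer ρ.range x).index_mul_card, h,
    Nat.card_eq_fintype_card (α := Fin 4 ↪ Fin k), Fintype.card_embedding_eq, Fintype.card_fin,
    Fintype.card_fin]

theorem core (he : Injective e) (hr : Set.range e = Δ) (htr : Tr4 N Δ)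
    (hρ : ∀ (g : N) i, (g : G) • e i = e (ρ g i)) {F : Set Ω} (hF : F ⊆ Δ) (h4 : F.ncard = 4)
    (hodd : ∀ g ∈ N ⊓ St G F, ∃ m, Odd m ∧ g ^ m ∈ St G Δ) :
    ((k = 4 ∨ k = 5) ∧ ρ.range = ⊤) ∨ ((k = 6 ∨ k = 7) ∧ ρ.range = alternatingGroup (Fin k)) ∨
      (k = 11 ∧ Nat.card ρ.range = 7920) := by
  obtain ⟨x, hx⟩ := exists_emb hr hF h4
  have := S4221.result ρ.range (trans4 he hr htr hρ) x ?_
  · rwa [Fintype.card_fin] at this
  · by_contra hc
    obtain ⟨⟨⟨_, g, rfl⟩, hs⟩, h2⟩ := exists_prime_orderOf_dvd_card' (G := stabilizer ρ.range x) 2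
      (even_iff_two_dvd.1 (Nat.not_odd_iff_even.1 hc))
    obtain ⟨m, hm, h1⟩ := hodd g ⟨g.2, (mem_stab he hρ hx).1 hs⟩
    have h3 : ρ (g ^ m) = 1 := (rho_eq_one he hr hρ).2 h1
    have h5 : orderOf (ρ g) = 2 := by
      rw [← h2, ← orderOf_coe, ← orderOf_coe]
    rw [map_pow] at h3
    exact Nat.not_even_iff_odd.2 hm (even_iff_two_dvd.2 (h5 ▸ orderOf_dvd_of_pow_eq_one h3))

theorem perfect_of_simple {H : Type*} [Group H] [IsSimpleGroup H] (h : ¬ (Nat.card H).Prime) :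
    _root_.commutator H = ⊤ := by
  refine (IsSimpleGroup.eq_bot_or_eq_top_of_normal _ inferInstance).resolve_left fun hb => h ?_
  let _ : CommGroup H :=
    { (inferInstance : Group H) with
      mul_comm := fun a b => commutatorElement_eq_one_iff_mul_comm.1
        (mem_bot.1 (hb ▸ commutator_mem_commutator (mem_top a) (mem_top b))) }
  exact IsSimpleGroup.prime_card

theorem hall : HallStmt.{u} := by
  intro G Ω _ _ _ _ N Δ hinv htr F hF h4 hodd
  obtain ⟨k, hk⟩ : ∃ k, Δ.ncard = k := ⟨_, rfl⟩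
  let a : Δ ≃ Fin k := Finite.equivFinOfCardEq hk
  have he : Injective fun i => (a.symm i : Ω) := Subtype.val_injective.comp a.symm.injective
  have hr : Set.range (fun i => (a.symm i : Ω)) = Δ := by
    ext ω
    exact ⟨by rintro ⟨i, rfl⟩; exact (a.symm i).2, fun h => ⟨a ⟨ω, h⟩, by simp⟩⟩
  obtain ⟨ρ, hρ⟩ := exists_rho hinv he hr
  have hc := core he hr htr hρ hF h4 hodd
  have hx : ∀ x : Fin 4 ↪ Fin k, Nat.card (stabilizer ρ.range x) = if k = 7 then 3 else 1 := by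
    intro x
    have h := card_range he hr htr hρ x
    rcases hc with ⟨rfl | rfl, h1⟩ | ⟨rfl | rfl, h1⟩ | ⟨rfl, h1⟩
    · have h2 : Nat.card ρ.range = 24 := by rw [h1, card_top, Nat.card_perm, Nat.card_fin]; rfl
      rw [h2, show Nat.descFactorial 4 4 = 24 from rfl] at h
      rw [if_neg (by norm_num)]; omega
    · have h2 : Nat.card ρ.range = 120 := by rw [h1, card_top, Nat.card_perm, Nat.card_fin]; rfl
      rw [h2, show Nat.descFactorial 5 4 = 120 from rfl] at h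
      rw [if_neg (by norm_num)]; omega
    · have h2 : Nat.card ρ.range = 360 := by rw [h1, nat_card_alternatingGroup, Nat.card_fin]; rfl
      rw [h2, show Nat.descFactorial 6 4 = 360 from rfl] at h
      rw [if_neg (by norm_num)]; omega
    · have h2 : Nat.card ρ.range = 2520 := by rw [h1, nat_card_alternatingGroup, Nat.card_fin]; rfl
      rw [h2, show Nat.descFactorial 7 4 = 840 from rfl] at h
      rw [if_pos rfl]; omega
    · rw [h1, show Nat.descFactorial 11 4 = 7920 from rfl] at h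
      rw [if_neg (by norm_num)]; omega
  have hidx : ∀ F' ⊆ Δ, F'.ncard = 4 →
      (St G Δ).relIndex (N ⊓ St G F') = if k = 7 then 3 else 1 := fun F' hF' h4' => by
    obtain ⟨x, hx'⟩ := exists_emb hr hF' h4'
    rw [← card_stab he hr hρ hx', hx]
  refine ⟨hinv, htr, by omega, fun h7 F' hF' h4' => ?_, fun h7 F' hF' h4' => ?_, fun h6 g hg => ?_,
    fun k' e' he' hr' => ?_⟩
  · rw [← relIndex_eq_one, hidx F' hF' h4', if_neg (hk ▸ h7)]
  · rw [hidx F' hF' h4', if_pos (hk ▸ h7)]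
  · have hp : ⁅ρ.range, ρ.range⁆ = ρ.range := by
      rcases hc with ⟨h0, -⟩ | ⟨h0, h1⟩ | ⟨h0, h1⟩
      · omega
      · rw [h1]
        exact commutator_alternatingGroup_eq_self (by rw [Nat.card_fin]; omega)
      · have := trans4 he hr htr hρ
        have := (S0418.result (by rw [Fintype.card_fin, h0]) ρ.range fun x => by
          rw [← card_eq_one, hx, if_neg (by omega)]).1
        rw [← map_subtype_commutator, perfect_of_simple (by rw [h1]; norm_num),
          ← MonoidHom.range_eq_map, range_subtype]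
    have h1 : ρ ⟨g, hg⟩ ∈ (_root_.commutator N).map ρ := by
      rw [_root_.commutator_def, map_commutator, ← MonoidHom.range_eq_map, hp]
      exact ⟨_, rfl⟩
    obtain ⟨c, hc1, hc2⟩ := h1
    have h2 : ρ (c⁻¹ * ⟨g, hg⟩) = 1 := by rw [map_mul, map_inv, hc2, inv_mul_cancel]
    have h3 : g = c * (c⁻¹ * ⟨g, hg⟩ : N) := by simp
    rw [h3]
    exact mul_mem_sup (map_subtype_commutator N ▸ mem_map_of_mem N.subtype hc1)
      ⟨(c⁻¹ * ⟨g, hg⟩ : N).2, (rho_eq_one he hr hρ).1 h2⟩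
  · obtain ⟨ρ', hρ'⟩ := exists_rho hinv he' hr'
    refine ⟨ρ', hρ', ?_⟩
    rcases core he' hr' htr hρ' hF h4 hodd with ⟨h0, h1⟩ | ⟨h0, h1⟩ | ⟨h0, -⟩
    · exact ⟨fun _ => h1, fun _ => by omega⟩
    · exact ⟨fun _ => by omega, fun _ => h1⟩
    · exact ⟨fun _ => by omega, fun _ => by omega⟩

end Cfsg.Agent.H6.Q4Hall
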