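import Cfsg.Agent.H79.RbDefs

/-! The piece `BasicStmt` of project RB. -/

set_option autoImplicit false

open Cfsg Finset

namespace Cfsg.Agent.H6.RbB

open Cfsg.Agent.H79.RB

theorem hom_zero (n : ℕ) : Hom n 0 := fun _ h => absurd (MvPolynomial.coeff_zero _) h

theorem hom_mul {a b : ℕ} {P R : Fk} (hP : Hom a P) (hR : Hom b R) : Hom (a + b) (P * R) := by
  classical
  intro m h
  rw [MvPolynomial.coeff_mul] at h
  obtain ⟨x, hx, h⟩ := exists_ne_zero_of_sum_ne_zero h
  rw [← mem_antidiagonal.1 hx, wt_add, hP _ (left_ne_zero_of_mul h), hR _ (right_ne_zero_of_mul h)]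

theorem hom_smul {n : ℕ} {P : Fk} (c : ℂ) (h : Hom n P) : Hom n (c • P) := fun m hm =>
  h m fun e => hm (by rw [MvPolynomial.coeff_smul, e, smul_zero])

theorem hom_sum {ι : Type*} {n : ℕ} {s : Finset ι} {f : ι → Fk} (h : ∀ i ∈ s, Hom n (f i)) :
    Hom n (∑ i ∈ s, f i) := fun m hm => by
  rw [MvPolynomial.coeff_sum] at hm
  obtain ⟨x, hx, e⟩ := exists_ne_zero_of_sum_ne_zero hm
  exact h x hx m e

theorem hom_monomial (m : ℕ →₀ ℕ) (c : ℂ) : Hom (wt m) (MvPolynomial.monomial m c) :=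
  fun m' h => by
    classical
    rw [MvPolynomial.coeff_monomial] at h
    rw [← (ne_of_ne_of_eq h rfl |> fun h => by_contra fun e => h (if_neg e) : m = m')]

theorem wt_zero : wt 0 = 0 := Finsupp.sum_zero_index

theorem hom_C (c : ℂ) : Hom 0 (MvPolynomial.C c) := wt_zero ▸ hom_monomial 0 c

theorem hom_one : Hom 0 1 := hom_C 1

theorem hom_X (i : ℕ) : Hom (2 * i + 1) (MvPolynomial.X i) := by
  have := hom_monomial (Finsupp.single i 1) 1
  rwa [wt_single, mul_one] at this

theorem hom_qq (n : ℕ) : Hom n (qq n) :=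
  hom_sum fun m hm => mem_Mon.1 hm ▸ hom_monomial m _

theorem qq_zero : qq 0 = 1 := by
  have : Mon 0 = {0} := by
    ext m
    rw [mem_Mon, mem_singleton]
    refine ⟨fun h => Finsupp.ext fun i => ?_, fun h => h ▸ wt_zero⟩
    have := le_wt m i
    rw [h, Nat.le_zero, mul_eq_zero] at this
    exact this.resolve_left (by omega)
  rw [qq, this, sum_singleton, nrm, Finsupp.prod_zero_index, inv_one]
  rfl

/-- Homogeneous of total weight `n`. -/
def PH (n : ℕ) (Q : Polynomial Fk) : Prop :=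
  ∀ j m, MvPolynomial.coeff m (Q.coeff j) ≠ 0 → wt m + j = n

theorem ph_mul {a b : ℕ} {Q R : Polynomial Fk} (hQ : PH a Q) (hR : PH b R) :
    PH (a + b) (Q * R) := by
  classical
  intro j m h
  rw [Polynomial.coeff_mul, MvPolynomial.coeff_sum] at h
  obtain ⟨x, hx, h⟩ := exists_ne_zero_of_sum_ne_zero h
  rw [MvPolynomial.coeff_mul] at h
  obtain ⟨y, hy, h⟩ := exists_ne_zero_of_sum_ne_zero h
  rw [← mem_antidiagonal.1 hx, ← mem_antidiagonal.1 hy, wt_add,
    ← hQ _ _ (left_ne_zero_of_mul h), ← hR _ _ (right_ne_zero_of_mul h)]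
  ring

theorem ph_C {n : ℕ} {P : Fk} (h : Hom n P) : PH n (Polynomial.C P) := fun j m hm => by
  rw [Polynomial.coeff_C] at hm
  split_ifs at hm with e
  · rw [e, add_zero, h m hm]
  · exact absurd (MvPolynomial.coeff_zero _) hm

theorem ph_one : PH 0 1 := ph_C hom_one

theorem ph_gen (i : ℕ) :
    PH (2 * i + 1) (Polynomial.C (MvPolynomial.X i) + Polynomial.X ^ (2 * i + 1)) := fun j m hm => by
  rw [Polynomial.coeff_add, MvPolynomial.coeff_add] at hm
  by_cases h : MvPolynomial.coeff m ((Polynomial.C (MvPolynomial.X i : Fk)).coeff j) = 0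
  · rw [h, zero_add, Polynomial.coeff_X_pow] at hm
    split_ifs at hm with e
    · rw [hom_one m hm, zero_add, e]
    · exact absurd (MvPolynomial.coeff_zero _) hm
  · exact ph_C (hom_X i) j m h

theorem ph_pow {a : ℕ} {Q : Polynomial Fk} (h : PH a Q) (k : ℕ) : PH (a * k) (Q ^ k) := by
  induction k with
  | zero => exact ph_one
  | succ k ih => rw [pow_succ, Nat.mul_succ]; exact ph_mul ih h

theorem ph_prod {s : Finset ℕ} {a : ℕ → ℕ} {Q : ℕ → Polynomial Fk} (h : ∀ i, PH (a i) (Q i)) :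
    PH (∑ i ∈ s, a i) (∏ i ∈ s, Q i) := by
  induction s using Finset.induction_on with
  | empty => exact ph_one
  | insert i s hi ih => rw [sum_insert hi, prod_insert hi]; exact ph_mul (h i) ih

theorem ph_monomial (m : ℕ →₀ ℕ) (c : ℂ) : PH (wt m) (shift (MvPolynomial.monomial m c)) := by
  rw [shift, MvPolynomial.aeval_monomial, ← zero_add (wt m)]
  exact ph_mul (ph_C (hom_C c)) (ph_prod fun i => ph_pow (ph_gen i) (m i))

theorem ph_shift {n : ℕ} {P : Fk} (h : Hom n P) : PH n (shift P) := fun j m hm => by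
  rw [P.as_sum, map_sum, Polynomial.finsetSum_coeff, MvPolynomial.coeff_sum] at hm
  obtain ⟨x, hx, e⟩ := exists_ne_zero_of_sum_ne_zero hm
  rw [ph_monomial x _ j m e, h x (MvPolynomial.mem_support_iff.1 hx)]

theorem TT_apply (j : ℕ) (P : Fk) : TT j P = (shift P).coeff j := rfl

theorem TT_zero (P : Fk) : TT 0 P = P := by
  rw [TT_apply]
  induction P using MvPolynomial.induction_on with
  | C a => simp [shift]
  | add p q hp hq => rw [map_add, Polynomial.coeff_add, hp, hq]
  | mul_X p i hp => rw [map_mul, Polynomial.mul_coeff_zero, hp]; simp [shift]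

theorem hom_TT {a j : ℕ} {P : Fk} (h : Hom (a + j) P) : Hom a (TT j P) := fun m hm =>
  Nat.add_right_cancel (ph_shift h j m hm)

theorem TT_eq_zero {n j : ℕ} {P : Fk} (h : Hom n P) (hj : n < j) : TT j P = 0 :=
  MvPolynomial.ext _ _ fun m => by
    by_contra e
    have := ph_shift h j m e
    omega

theorem phi_eq (a : ℤ) (N : ℕ) (P : Fk) (h : ∀ j, N < j → TT j P = 0) :
    phi a P = ∑ j ∈ range (N + 1), ((-1 : ℂ) ^ j) • (qz (a + j) * TT j P) := by
  have h1 : (shift P).natDegree < N + 1 :=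
    Nat.lt_succ_of_le (Polynomial.natDegree_le_iff_coeff_eq_zero.2 h)
  rw [phi, LinearMap.comp_apply, Polynomial.lsum_apply]
  exact Polynomial.sum_over_range' _ (fun n => map_zero _) _ h1

theorem hom_phi (a : ℤ) (n n' : ℕ) (P : Fk) (h : Hom n P) (e : (n' : ℤ) = n + a) :
    Hom n' (phi a P) := by
  rw [phi_eq a n P fun j => TT_eq_zero h]
  refine hom_sum fun j hj => hom_smul _ ?_
  have hj' := mem_range.1 hj
  rw [qz]
  split_ifs with h0
  · have := hom_mul (hom_qq (a + j).toNat)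
      (hom_TT (a := n - j) (j := j) (by rwa [Nat.sub_add_cancel (by omega)]))
    rwa [show (a + j).toNat + (n - j) = n' by omega] at this
  · rw [zero_mul]; exact hom_zero _

theorem phi_eq_zero (a : ℤ) (n : ℕ) (P : Fk) (h : Hom n P) (e : (n : ℤ) + a < 0) :
    phi a P = 0 := by
  rw [phi_eq a n P fun j => TT_eq_zero h]
  refine sum_eq_zero fun j hj => ?_
  have hj' := mem_range.1 hj
  rw [qz, if_neg (by omega), zero_mul, smul_zero]

theorem phi_one (a : ℤ) : phi a 1 = qz a := by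
  rw [phi_eq a 0 1 fun j => TT_eq_zero hom_one]
  simp [TT_zero]

theorem QS_empty : QS ∅ = 1 := by simp [QS, QL]

theorem QS_insert (S : Finset ℕ) (x : ℕ) (h : ∀ y ∈ S, y < x) :
    QS (insert x S) = phi x (QS S) := by
  rw [QS, sort_insert _ (fun y hy => (h y hy).le) fun e => lt_irrefl _ (h x e)]
  rfl

theorem hom_QS (S : Finset ℕ) : Hom (∑ x ∈ S, x) (QS S) := by
  induction S using Finset.induction_on_max with
  | empty => rw [QS_empty]; exact hom_one
  | insert x S h ih =>
    rw [QS_insert S x h, sum_insert fun e => lt_irrefl _ (h x e)]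
    exact hom_phi _ _ _ _ ih (by push_cast; ring)

theorem basicStmt : BasicStmt :=
  ⟨fun _ _ _ _ => hom_mul, hom_qq, qq_zero, TT_zero, fun _ _ _ => hom_TT,
    fun _ _ _ => TT_eq_zero, phi_eq, hom_phi, phi_eq_zero, phi_one, hom_QS, QS_empty, QS_insert⟩

end Cfsg.Agent.H6.RbB
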