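import Cfsg.Agent.H79.RbDefs
import Cfsg.Agent.H21.Basic

/-! The piece `SpinDegStmt` of project RB. -/

set_option autoImplicit false

open Cfsg Finset Equiv

namespace Cfsg.Agent.H6.RbSD

open Cfsg.Agent.H79.RB

theorem s2_ne : s2 ≠ 0 := fun h => by
  have := s2_mul_self
  rw [h, mul_zero] at this
  exact two_ne_zero this.symm

theorem s2_sq (n : ℕ) : (s2 ^ n) ^ 2 = 2 ^ n := by
  rw [← pow_mul, mul_comm, pow_mul, sq, s2_mul_self]

theorem spinDegStmt (hId : IdStmt) (hCl : ClassStmt) (hMon : MonStmt) (hVal : ValStmt)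
    (hMn : MnStmt) (hDeg : DegStmt) (hPad : PadicStmt) : SpinDegStmt := by
  intro F n p k hp h2 θ x hθ hx hne hk
  have hodd : OddT (F.π n x) := by
    by_contra h
    obtain ⟨y, hy⟩ := ((hCl F n).2.2.2 x).2.1 hx h
    have e := hθ.1 x y
    rw [hy, hθ.2] at e
    exact hne (by linear_combination (-1 / 2 : ℂ) * e)
  obtain ⟨S, h0, hn, e, ε, hε, hS⟩ := hId F n θ hθ
  have hv := (hVal F n θ).2.1 hθ
  have key : ∀ g, OddT (F.π n g) → ε * ip (MvPolynomial.monomial (mon (F.π n g)) 1) (QS S) =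
      s2 ^ e * (s2 ^ n / 2 ^ Multiset.card (H19.typ (F.π n g)) * (θ.1 g * F.τ n g)) :=
    fun g hg => by rw [← hv g hg, ← smul_eq_mul, ← map_smul, ← hS, map_smul, smul_eq_mul]
  obtain ⟨i, rfl⟩ := hp.odd_of_ne_two h2
  have h1 : MvPolynomial.coeff (mon (F.π n x)) (QS S) ≠ 0 := fun h => by
    have h3 := key x hodd
    have h4 : F.τ n x ≠ 0 := fun h => by
      have := F.τ_sq n x hodd
      rw [h, zero_pow two_ne_zero, zero_mul] at this
      exact pow_ne_zero _ two_ne_zero this.symm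
    rw [ip_monomial, h, mul_zero, mul_zero] at h3
    exact mul_ne_zero (pow_ne_zero _ s2_ne) (mul_ne_zero (div_ne_zero (pow_ne_zero _ s2_ne)
      (pow_ne_zero _ two_ne_zero)) (mul_ne_zero hne h4)) h3.symm
  have h3 := hMn i k S _ h0 h1 (((hMon.1 n _ hodd).2.2.1 i).symm ▸ hk)
  obtain ⟨g, hg, hg'⟩ := hDeg S n h0 hn
  have h4 := hPad (2 * i + 1) S n g hp h0 hg'
  have o1 : OddT (F.π n 1) := by rw [map_one]; exact (hMon.2.2.1 n).1
  have h5 := key 1 o1
  have h6 := F.τ_sq n 1 o1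
  rw [(F.π n).map_one, (hMon.2.2.1 n).2, ← MvPolynomial.X_pow_eq_monomial, hg, ← H21.cast_deg] at h5
  rw [(F.π n).map_one] at h6
  generalize Multiset.card (H19.typ (1 : Perm (Fin n))) = c at h5 h6
  have e2 : ε ^ 2 = 1 := by rcases hε with rfl | rfl <;> norm_num
  have h7 : (g : ℂ) ^ 2 * 2 ^ c = 2 ^ e * (charDegree θ.1 : ℂ) ^ 2 := by
    have h8 := congrArg (· ^ 2) h5
    simp only [mul_pow, div_pow, s2_sq, e2, one_mul] at h8
    have h9 : (2 : ℂ) ^ c ≠ 0 := pow_ne_zero _ two_ne_zero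
    rw [h8]
    field_simp
    linear_combination (charDegree θ.1 : ℂ) ^ 2 * h6
  have h8 : g ^ 2 * 2 ^ c = 2 ^ e * charDegree θ.1 ^ 2 := by exact_mod_cast h7
  have d0 := H21.deg_ne_zero θ
  have g0 : g ≠ 0 := by
    rintro rfl
    simp [d0] at h8
  have h9 := congrArg (fun m => Nat.factorization m (2 * i + 1)) h8
  have t0 : Nat.factorization 2 (2 * i + 1) = 0 := by
    rw [Nat.prime_two.factorization, Finsupp.single_eq_of_ne h2]
  simp only [Nat.factorization_mul (pow_ne_zero _ g0) (pow_ne_zero _ two_ne_zero),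
    Nat.factorization_mul (pow_ne_zero _ two_ne_zero) (pow_ne_zero _ d0), Nat.factorization_pow,
    Finsupp.add_apply, Finsupp.smul_apply, t0, smul_eq_mul] at h9
  rw [nu]
  omega

end Cfsg.Agent.H6.RbSD
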