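import Cfsg.Agent.H79.RbDefs
import Cfsg.Agent.H19.SymDegP

/-! The pieces `SymDegStmt` and `AltBlkStmt` of project RB. -/

set_option autoImplicit false

open Cfsg Finset Equiv Function

namespace Cfsg.Agent.H6.RbSym

open Cfsg.Agent.H79.RB Cfsg.Agent.H19 Cfsg.Agent.H17 Cfsg.Agent.H18

variable {N p : ℕ}

theorem le_wgt (hp : 0 < p) (k : ℕ) {S : Finset ℕ} (hS : #S = N) {μ : Multiset ℕ}
    (h : chiS N S (Multiset.replicate k p + μ) ≠ 0) : k ≤ wgt p S := by
  induction k generalizing S with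
  | zero => exact Nat.zero_le _
  | succ k ih =>
    rw [Multiset.replicate_succ, Multiset.cons_add, chiS_cons hS hp] at h
    obtain ⟨x, hx, h1⟩ := exists_ne_zero_of_sum_ne_zero h
    obtain ⟨h2, h3, h4⟩ := mem_filter.1 hx
    have h5 := ih ((card_move h2 h4).trans hS) (right_ne_zero_of_mul h1)
    have h6 := sum_move h2 h4
    rw [sum_eq_baseS hp, sum_eq_baseS hp S, cnt_move h2 h3 h4 (dvd_refl p)] at h6
    have h7 : p * (wgt p (insert (x - p) (S.erase x)) + 1) = p * wgt p S := by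
      rw [mul_add]; omega
    have := Nat.eq_of_mul_eq_mul_left hp h7
    omega

theorem nu_le (hp : p.Prime) {n : ℕ} {S : Finset ℕ} (hS : S ∈ Lam N n) (hN : n + p * n ≤ N) :
    (degS N S n).factorization p + wgt p S ≤ n.factorial.factorization p := by
  have h1 := factorization_degS hp hS
  have h2 : wgt p S ≤ n := by
    have a1 := wgt_of_mem_XS hp.pos (mem_XS.2 ⟨hS, rfl⟩)
    have a2 := sum_eq_baseS hp.pos (coreS (cnt p S))
    have a3 := sum_eq_wtS (coreS (cnt p S))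
    rw [← sum_cnt hp.pos, cnt_coreS, sum_cnt hp.pos, (mem_Lam.1 hS).1] at a3
    rw [cnt_coreS, wgt_coreS] at a2
    have a4 := Nat.le_mul_of_pos_left (wgt p S) hp.pos
    omega
  have h4 : ∀ j : Fin p, (degS (cnt p S j) (run p j S) (wtS (run p j S))).factorization p ≤
      (wtS (run p j S)).factorial.factorization p := by
    intro j
    have h3 : wtS (run p j S) ≤ wgt p S :=
      single_le_sum (f := fun j : Fin p => wtS (run p j S)) (fun _ _ => Nat.zero_le _) (mem_univ j)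
    have h5 : run p j S ∈ Lam (cnt p S j) (wtS (run p j S)) := mem_Lam'.2 ⟨rfl, rfl⟩
    have h6 : Fintype.card (Fin (wtS (run p j S))) ≤ cnt p S j := by
      rw [Fintype.card_fin]
      exact (h3.trans h2).trans (le_cnt hS hN j)
    have h7 := H17.deg_dvd_card (G := Perm (Fin (wtS (run p j S))))
      ⟨_, isIrr_symChi h6 (by rwa [Fintype.card_fin])⟩
    rw [charDegree_symChi (by rwa [Fintype.card_fin]), Nat.card_perm, Nat.card_eq_fintype_card,
      Fintype.card_fin] at h7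
    exact (Nat.factorization_le_iff_dvd (degS_pos h5).ne' (Nat.factorial_ne_zero _)).2 h7 p
  have := sum_le_sum fun j (_ : j ∈ univ) => h4 j
  omega

theorem symDegStmt : SymDegStmt := by
  intro n p k hp θ σ h hk
  obtain ⟨S, hS, e⟩ := exists_eq_symChi (N := n + p * n) (by simp) θ
  obtain ⟨μ, hμ⟩ := Multiset.le_iff_exists_add.1 (Multiset.le_count_iff_replicate_le.1 hk)
  rw [e, symChi_apply, hμ] at h
  have h1 := le_wgt hp.pos k (mem_Lam.1 hS).1 (by exact_mod_cast h)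
  rw [nu, e, charDegree_symChi hS]
  rw [Fintype.card_fin] at hS ⊢
  have := nu_le hp hS le_rfl
  omega

theorem altBlkStmt : AltBlkStmt := by
  intro n hn2 M hM b hb D hD
  classical
  have : Fact (Nat.Prime 2) := ⟨Nat.prime_two⟩
  have : Nontrivial (Fin n) := Fin.nontrivial_iff_two_le.2 hn2
  obtain ⟨N, hN⟩ : ∃ N, Fintype.card (Fin n) + 2 * Fintype.card (Fin n) ≤ N := ⟨_, le_rfl⟩
  obtain ⟨B, hB, hcov⟩ := H22.exists_covering _ hM.2.1 hb
  obtain ⟨c, f, w, hc1, hc2, hn, hw, rfl, -, U, hU, hQ⟩ := sym_block hM hN hB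
  obtain ⟨Q⟩ := (inferInstance : Nonempty (Sylow 2 (Perm (Fin w × Bool))))
  let e : Fin w × Bool ≃ {x // x ∈ U} := Fintype.equivOfCardEq (by simp [hU, mul_comm])
  have hle : D.map (alternatingGroup (Fin n)).subtype ≤ alternatingGroup (Fin n) :=
    Subgroup.map_subtype_le _
  have hD' : IsDefectGroup 2 M b ((D.map (alternatingGroup (Fin n)).subtype).subgroupOf _) := by
    rwa [Subgroup.subgroupOf, Subgroup.comap_map_eq_self_of_injective (Subgroup.subtype_injective _)]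
  obtain ⟨P, hP, hPD⟩ := hcov.exists_dg_inf_eq hM hB hb
    ((isDefectGroup_subgroupOf_iff hM hb hle).1 hD')
  obtain ⟨x, rfl⟩ := dg_exists_cs_eq hM hB
    (hQ (Q.mapSurjective (f := e.permCongrHom.toMonoidHom) e.permCongrHom.surjective)) hP
  let j : Fin w × Bool ↪ Fin n :=
    e.toEmbedding.trans ((Embedding.subtype _).trans x.toEmbedding)
  have hj : ∀ σ, x * Perm.ofSubtype (e.permCongr σ) * x⁻¹ = σ.viaEmbedding j := fun σ => by
    ext y
    by_cases hy : y ∈ Set.range j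
    · obtain ⟨a, rfl⟩ := hy
      rw [Perm.viaEmbedding_apply]
      simp [j]
    · rw [Perm.viaEmbedding_apply_of_notMem _ _ _ hy, Perm.mul_apply, Perm.mul_apply,
        Perm.ofSubtype_apply_of_not_mem]
      · simp
      · exact fun h => hy ⟨e.symm ⟨_, h⟩, by simp [j]⟩
  have hs : ∀ σ : Perm (Fin w × Bool), Perm.sign (σ.viaEmbedding j) = Perm.sign σ := fun σ => by
    rw [← hj, Perm.sign_mul, Perm.sign_mul, Perm.sign_inv, Perm.sign_ofSubtype, mul_right_comm,
      Int.units_mul_self, one_mul, Perm.sign_permCongr]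
  refine ⟨w, j, Q, ?_, fun χ hχ => ?_⟩
  · rw [← hPD]
    ext y
    constructor
    · rintro ⟨⟨_, ⟨_, ⟨σ, hσ, rfl⟩, rfl⟩, rfl⟩, hy⟩
      exact ⟨σ, ⟨hσ, Perm.mem_alternatingGroup.2 ((hs σ).symm.trans ((hj σ) ▸ hy))⟩, (hj σ).symm⟩
    · rintro ⟨σ, ⟨hσ, hσ'⟩, rfl⟩
      exact ⟨⟨_, ⟨_, ⟨σ, hσ, rfl⟩, rfl⟩, hj σ⟩, Perm.mem_alternatingGroup.2 ((hs σ).trans hσ')⟩
  · obtain ⟨θ, ⟨S, hS, hθ⟩, ho⟩ := hcov.exists_over hM.2.1 hB hb hχ
    rw [hθ] at ho
    have hSL := (mem_XS.1 hS).1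
    have h1 := nu_le Nat.prime_two hSL hN
    have h2 := wgt_of_mem_XS two_pos hS
    have h3 := deg_of_over (by omega) hSL ho
    have h4 := (Nat.factorization_le_iff_dvd (H21.deg_ne_zero χ) (degS_pos hSL).ne').2
      (Dvd.intro_left _ h3.symm) 2
    rw [nu]
    rw [Fintype.card_fin] at h1 h2 h4 hn
    omega

end Cfsg.Agent.H6.RbSym
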