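import Cfsg.Agent.H6.TIDefs

/-!
Project TI: the assembly.
-/

set_option autoImplicit false

namespace Cfsg.Agent.H6.TI

open Cfsg Subgroup
open Cfsg.Agent.H83 (cj)
open scoped Cfsg.Agent.H63

universe u

structure All : Prop where
  ba : BAStmt.{u}
  bb : BBStmt.{u}
  l6 : L6Stmt.{u}
  yy : YYStmt.{u}
  l7 : L7Stmt.{u}
  be : BEStmt.{u}
  soc : SOCStmt.{u}
  hf : HFStmt.{u}
  noe : NOEStmt.{u}
  one : ONEStmt.{u}
  a9 : A9Stmt.{u}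
  con : CONStmt.{u}
  du : DUStmt.{u}
  g2 : G2Stmt.{u}
  cz : CZStmt.{u}
  adj : ADJStmt.{u}
  nm : NMStmt.{u}
  on : ONStmt.{u}
  qa : QAStmt.{u}
  qb : QBStmt.{u}
  qc : QCStmt.{u}
  qd : QDStmt.{u}
  he : HEStmt.{u}
  n4a : N4AStmt.{u}
  n4b : N4BStmt.{u}
  hq1 : HQ1Stmt.{u}
  sc : SCStmt.{u}
  hq3 : HQ3Stmt.{u}
  hq4 : HQ4Stmt.{u}

variable {G : Type u} [Group G] [Finite G] {Ω : Set (Subgroup G)} {K : Subgroup G}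

omit [Finite G] in
theorem card_eq (h : TI Ω) {P Q : Subgroup G} (hP : P ∈ Ω) (hQ : Q ∈ Ω) :
    Nat.card P = Nat.card Q := by
  obtain ⟨g, rfl⟩ := h.trans P hP Q hQ
  exact (H83.card_cj g P).symm

theorem two_or_four {q : ℕ} (h2 : 2 ≤ q) (hk : ∃ k, q = 2 ^ k) : q = 2 ∨ 4 ≤ q := by
  obtain ⟨k, rfl⟩ := hk
  match k with
  | 0 => omega
  | 1 => exact Or.inl rfl
  | k + 2 => exact Or.inr (by rw [pow_add]; have := Nat.one_le_two_pow (n := k); omega)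

theorem caseNS (a : All.{u}) (c : C1 Ω K) (ns : ¬ Sp Ω)
    (h4 : ∀ A B, Ed Ω A B → hh A B = 4 ∧ qq A B = 4) : Out Ω := by
  obtain ⟨A, B, e⟩ := c.ed
  have hg : Good Ω := fun A B B' m m' e1 e2 =>
    c.l6.gh m m' e1 e2 ((h4 _ _ m.toEd).1.trans (h4 _ _ m.toEd).2.symm)
  have h8 : ∀ P ∈ Ω, 8 ≤ Nat.card P := fun P hP => by
    rw [card_eq c.toTI hP e.l, ← (c.ba.hq e).1, (h4 _ _ e).1, (h4 _ _ e).2]; norm_num
  have c4 : C4 Ω K := ⟨c, h4, ns, a.cz Ω K c h8 hg⟩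
  obtain ⟨hz, hc⟩ := a.n4a Ω K c4
  have hs := c.hf.simp c.ed A e.l (hz A e.l)
  exact ⟨hs, (a.n4b Ω K c4 hz hc).elim (fun h => by tauto) fun h => by tauto⟩

theorem caseEq (a : All.{u}) (c : C1 Ω K) (sp : Sp Ω) {A B : Subgroup G} (m : Mn Ω A B)
    (e : hh A B = qq A B) : Out Ω := by
  have eq : ∀ A' B', Mn Ω A' B' → hh A' B' = qq A' B' := fun A' B' m' => by
    rw [← (c.ba.mnq m m').1, ← (c.ba.mnq m m').2, e]
  obtain ⟨B', m', ne⟩ := c.two A B m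
  have hz : zc Ω A = ⊥ := by
    have h1 := (c.yy.ycard sp m m' ne.symm).2.1
    have h2 := (c.ba.hq m.toEd).2.1
    rw [e] at h1
    have h3 : ax A B ⊓ ax A B' = ⊥ := card_eq_one.1
      (Nat.eq_of_mul_eq_mul_right (by omega) (h1.trans (one_mul _).symm))
    refine eq_bot_iff.2 fun x hx => h3.le ?_
    obtain ⟨x1, x2⟩ := mem_zc.1 hx
    exact ⟨⟨x1, x2 B m⟩, x1, x2 B' m'⟩
  have hs := c.hf.simp c.ed A m.l hz
  have c5 : C5 Ω K := ⟨c, sp, eq, hs⟩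
  have : Fact (Nat.Prime 2) := ⟨Nat.prime_two⟩
  have h2 : IsPGroup 2 ↥(A ⊔ ax B A) := sup_comm (ax B A) A ▸
    H83.isPGroup_sup ((c.ba.two B m.r).to_le ax_le) (c.ba.two A m.l) ax_le_norm
  obtain ⟨S, hS⟩ := h2.exists_le_sylow
  obtain ⟨s1, s2, s3⟩ := a.hq1 Ω c.toC0 sp eq A B m S hS
  have eS := a.sc S _ (c.hf.nse c.ed c.conn) s1 s2 s3
  obtain ⟨h5, h6, -, -, h7⟩ := c.ba.hq m.toEd
  refine ⟨hs, ?_⟩
  rcases two_or_four h6 h7 with q2 | q4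
  · rcases a.hq4 Ω K c5 A B m S eS q2 with h | h | h
    · tauto
    · tauto
    · refine Or.inr (Or.inr (Or.inr (Or.inl ⟨h, fun P hP => ?_⟩)))
      rw [card_eq c.toTI hP m.l, ← h5, e, q2]
  · exact Or.inr (Or.inl (a.hq3 Ω K c5 A B m S eS q4))

theorem caseLt (a : All.{u}) (c : C1 Ω K) (sp : Sp Ω) {A B : Subgroup G} (m : Mn Ω A B)
    (e : qq A B < hh A B) : Out Ω := by
  have lt : ∀ A' B', Mn Ω A' B' → qq A' B' < hh A' B' := fun A' B' m' => by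
    rwa [← (c.ba.mnq m m').1, ← (c.ba.mnq m m').2]
  obtain ⟨h5, h6, -, h8, h7⟩ := c.ba.hq m.toEd
  have hg : Good Ω := by
    rcases two_or_four h6 h7 with q2 | q4
    · exact a.g2 Ω c.toC0 c.two sp fun A' B' m' =>
        ⟨(c.ba.mnq m m').2 ▸ q2, (c.ba.mnq m m').1 ▸ q2 ▸ e⟩
    · exact (a.du Ω c.toC0 (a.be Ω c.toTI c.ba) c.two).2 sp fun A' B' m' =>
        ⟨(c.ba.mnq m m').2 ▸ q4, lt A' B' m'⟩
  have h9 : ∀ P ∈ Ω, 8 ≤ Nat.card P := fun P hP => by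
    rw [card_eq c.toTI hP m.l, ← h5]
    have : 4 ≤ hh A B := (two_or_four (by omega) h8).resolve_left (by omega)
    nlinarith
  have ln := a.cz Ω K c h9 hg
  have c2 : C2 Ω K := ⟨c, sp, lt, ln, a.adj Ω c.toC0 sp ln⟩
  by_cases hall : ∀ A B, Ed Ω A B → Mn Ω A B
  · obtain ⟨h1, h2⟩ := a.on Ω K c2 hall
    exact ⟨h1, Or.inr (Or.inl h2)⟩
  push Not at hall
  have nm := a.nm Ω c.toC0 (a.l7 Ω c.toTI c.ba c.bb) ln
  obtain ⟨A₀, C₀, e₀, n₀⟩ := hall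
  have c3 : C3 Ω K := by
    refine ⟨c2, ⟨A₀, C₀, e₀, n₀⟩, fun A' B' m' => ?_, fun A' C' e' n' => ?_⟩
    · obtain ⟨B₀, m₀⟩ := c.ba.exMn c.ed A₀ e₀.l
      rw [← (c.ba.mnq m₀ m').2]
      exact (nm _ _ _ m₀ e₀ n₀).1
    · obtain ⟨B₀, m₀⟩ := c.ba.exMn c.ed A' e'.l
      exact (nm _ _ _ m₀ e' n').2
  have qa := a.qa Ω K c3
  have qb := a.qb Ω K c3 qa
  obtain ⟨z, A', n, x⟩ := a.qd Ω K c3 qa qb (a.qc Ω K c3 qa qb)
  have hs := c.hf.simp c.ed A m.l (qb A m.l)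
  exact ⟨hs, (a.he z A' n x).elim (fun h => by tauto) fun h => by tauto⟩

theorem main_of (a : All.{u}) : MainStmt.{u} := by
  intro G _ _ Ω h
  have ba := a.ba Ω h.toTI
  have bb := a.bb Ω h.toTI ba
  obtain ⟨K, hy⟩ := a.soc Ω h ba
  have hf := a.hf Ω K hy ba bb
  by_cases ed : HasEd Ω
  swap
  · obtain ⟨h1, h2⟩ := a.noe Ω K hy ba hf ed
    exact ⟨h1, Or.inl ⟨ed, h2⟩⟩
  rcases a.con a.a9 Ω K hy ba bb hf ed with cn | ⟨h1, h2⟩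
  swap
  · exact ⟨h1, by tauto⟩
  have c : C1 Ω K := ⟨⟨h.toTI, ba, bb, a.l6 Ω h.toTI ba bb, a.yy Ω h.toTI ba⟩, hy, hf, ed, cn,
    a.one Ω h ba bb⟩
  by_cases sp : Sp Ω
  swap
  · exact caseNS a c sp ((a.du Ω c.toC0 (a.be Ω h.toTI ba) c.two).1.resolve_left sp)
  obtain ⟨A, hA⟩ := h.ne
  obtain ⟨B, m⟩ := ba.exMn ed A hA
  rcases (ba.hq m.toEd).2.2.1.eq_or_lt with e | e
  · exact caseEq a c sp m e.symm
  · exact caseLt a c sp m e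

end Cfsg.Agent.H6.TI
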