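import Cfsg.Agent.H97.U4Defs

/-!
The standard position of a second conjugate of `XV`: the steps `V4Stmt` and `V5Stmt`.
-/

set_option autoImplicit false

namespace Cfsg.Agent.H6.U4V

open Cfsg.Agent.H97 Cfsg.Agent.H97.U4
open Cfsg.Agent.H97.U5 (Hm)

universe u

variable {K : Type u} [Field K] {T : Hm K} {p : ℕ} {Γ : Subgroup (Equiv.Perm (VV T))}
  {g : Equiv.Perm (VV T)}

theorem exists_u (T : Hm K) : ∃ u, u * T.σ u = 1 ∧ u ≠ 1 := by
  have h : T.om ≠ 0 := fun e => T.om_ne (by rw [e, map_zero])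
  have h' := T.σ_ne_zero h
  refine ⟨T.om / T.σ T.om, by rw [map_div₀, T.inv]; field_simp, fun e => T.om_ne ?_⟩
  rw [div_eq_one_iff_eq h'] at e
  exact e.symm

/-- An element of `Γ` as an additive map. -/
def ah (h : VG T p Γ) (hg : g ∈ Γ) : VV T →+ VV T := AddMonoidHom.mk' g (h.add g hg)

theorem g_zero (h : VG T p Γ) (hg : g ∈ Γ) : g 0 = 0 := (ah h hg).map_zero

theorem g_sub (h : VG T p Γ) (hg : g ∈ Γ) (x y : VV T) : g (x - y) = g x - g y :=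
  (ah h hg).map_sub x y

theorem g_nsmul (h : VG T p Γ) (hg : g ∈ Γ) (n : ℕ) (x : VV T) : g (n • x) = n • g x :=
  (ah h hg).map_nsmul n x

/-- The subgroup `g Z₂`. -/
def YY (h : VG T p Γ) (hg : g ∈ Γ) : AddSubgroup (VV T) where
  carrier := {v | vd (g⁻¹ v) = 0}
  zero_mem' := by
    change vd (g⁻¹ 0) = 0
    rw [g_zero h (inv_mem hg), vd_zero]
  add_mem' := fun {a b} (ha : _ = _) (hb : _ = _) => by
    change vd (g⁻¹ (a + b)) = 0
    rw [h.add _ (inv_mem hg), vd_add, ha, hb, add_zero]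
  neg_mem' := fun {a} (ha : _ = _) => by
    change vd (g⁻¹ (-a)) = 0
    rw [← zero_sub, g_sub h (inv_mem hg), g_zero h (inv_mem hg), vd_sub, ha, vd_zero, sub_zero]

theorem mem_YY (h : VG T p Γ) (hg : g ∈ Γ) {v : VV T} :
    v ∈ YY h hg ↔ ∃ y, vd y = 0 ∧ v = g y :=
  ⟨fun e => ⟨g⁻¹ v, e, by simp⟩, by
    rintro ⟨y, hy, rfl⟩
    change vd (g⁻¹ (g y)) = 0
    simpa using hy⟩

theorem YY_Z (h : VG T p Γ) (o : OppV T Γ) (hg : g ∈ Γ) (hn : g ∉ NV T) {v : VV T}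
    (hv : v ∈ YY h hg) (hz : zV v) : v = 0 :=
  (o g⁻¹ (inv_mem hg) (fun e => hn (inv_mem_iff.1 e))).1 v hz hv

/-- `XV` moves `g Z` out of `g Z₂`. -/
theorem key (h : VG T p Γ) (b : VB T Γ) (o : OppV T Γ) (hg : g ∈ Γ) (hn : g ∉ NV T) {z : VV T}
    (hz : zV z) (h0 : z ≠ 0) {t : K} (ht : t ≠ 0) : vX T t (g z) ∉ YY h hg := fun e => by
  have h1 : g⁻¹ * vX T t * g⁻¹⁻¹ ∈ Γ :=
    mul_mem (mul_mem (inv_mem hg) (h.le (vX_mem T t))) (inv_mem (inv_mem hg))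
  have h2 : g⁻¹ * vX T t * g⁻¹⁻¹ ∈ NV T := by
    by_contra h3
    exact h0 ((o _ h1 h3).1 z hz (by rw [inv_inv]; exact e))
  exact hn (inv_mem_iff.1 (b.pn _ (inv_mem hg) _ (vX_mem T t) (mt (vX_eq_one T).1 ht) h2))

/-- All values of `d` occur on `g Z`. -/
theorem all_d (h : VG T p Γ) (o : OppV T Γ) (hg : g ∈ Γ) (hn : g ∉ NV T) (w : VV T) :
    ∃ z, zV z ∧ vd (g z) = vd w := by
  obtain ⟨z, y, h1, h2, h3⟩ := (o g⁻¹ (inv_mem hg) (fun e => hn (inv_mem_iff.1 e))).2 (g⁻¹ w)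
  refine ⟨z, h1, ?_⟩
  have : w = g z + y := by
    have := congrArg g h3
    rw [h.add g hg] at this
    simpa using this
  rw [this, vd_add, h2, add_zero]

theorem lam_N (b : VB T Γ) {c : Kˣ × Kˣ} {φ : RingAut K} (hl : lamV T c φ ∈ Γ) :
    lamV T c φ ∈ NV T :=
  b.s1 _ hl fun z hz => ⟨by simp [hz.1], by simp [hz.2]⟩

theorem vX_N (b : VB T Γ) (h : VG T p Γ) (t : K) : vX T t ∈ NV T :=
  b.s1 _ (h.le (vX_mem T t)) fun z hz => ⟨by simp [hz.1, hz.2], by simp [hz.2]⟩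

/-- **V4** -/
theorem v4 : V4Stmt T p := by
  rintro Γ h b o orb ⟨g0, hg0, hn0⟩ ⟨c, hc, hc2, hl⟩
  have hN := lam_N b hl
  have c0 : (c : K) ≠ 0 := c.ne_zero
  have c1 : (c : K) - 1 ≠ 0 := fun e => hc2 (by rw [sub_eq_zero.1 e, one_pow])
  have c2 : (c : K) * c - 1 ≠ 0 := fun e => hc2 (by rw [sq, sub_eq_zero.1 e])
  obtain ⟨s, hs⟩ := orb _ (mul_mem hl hg0) (fun e => hn0 ((mul_mem_cancel_left hN).1 e)) g0 hg0 hn0
  obtain ⟨t, ht⟩ : ∃ t : K, -t + (c : K)⁻¹ * t = s :=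
    ⟨-(c * s / (c - 1)), by field_simp; ring⟩
  have hg : vX T t * g0 ∈ Γ := mul_mem (h.le (vX_mem T t)) hg0
  have hn : vX T t * g0 ∉ NV T := fun e => hn0 ((mul_mem_cancel_left (vX_N b h t)).1 e)
  have e1 : (vX T t * g0)⁻¹ * lamV T (1, c) 1 * (vX T t * g0) ∈ NV T := by
    have : (vX T t * g0)⁻¹ * lamV T (1, c) 1 * (vX T t * g0) =
        g0⁻¹ * vX T s * (lamV T (1, c) 1 * g0) := by
      rw [mul_inv_rev, vX_inv, mul_assoc, mul_assoc, ← mul_assoc (lamV T _ _), lamV_vX, ← ht,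
        ← vX_mul]
      simp [mul_assoc]
    rwa [this]
  generalize vX T t * g0 = g at hg hn e1
  have e2 := (b.nz _ (mul_mem (mul_mem (inv_mem hg) hl) hg) e1).2
  have hY : ∀ v ∈ YY h hg, lamV T (1, c) 1 v ∈ YY h hg := fun v hv => by
    have := e2 _ hv
    change vd (g⁻¹ (lamV T (1, c) 1 v)) = 0
    simpa using this
  have a0 : ∀ v : VV T, va v = 0 → v ∈ YY h hg := fun v hv => by
    have sk : vd v / (c * c - 1) + T.σ (vd v / (c * c - 1)) = 0 := by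
      rw [map_div₀, map_sub, map_mul, hc, map_one, σ_vd]; ring
    obtain ⟨z, y, h1, h2, h3⟩ :=
      (o g hg hn).2 (mkV 0 (vm v / (c - 1)) (vd v / (c * c - 1)) (by simp) sk)
    have h4 : g y ∈ YY h hg := (mem_YY h hg).2 ⟨y, h2, rfl⟩
    have h5 : vm (g y) = vm v / (c - 1) := by simpa [h1.1] using (congrArg vm h3).symm
    have h6 : vd (g y) = vd v / (c * c - 1) := by simpa [h1.2] using (congrArg vd h3).symm
    have : v = lamV T (1, c) 1 (g y) - g y := by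
      apply vext
      · simp [hv]
      · simp [h5, hc]; field_simp
      · simp [h6, hc]; field_simp
    rw [this]
    exact sub_mem (hY _ h4) h4
  have a1 : ∀ v ∈ YY h hg, va v = 0 := fun v hv => by
    have h1 := a0 (mkV 0 (vm v) (vd v) (by simp) (vd_sk v)) rfl
    have h2 := YY_Z h o hg hn (sub_mem hv h1) ⟨by simp, by simp⟩
    simpa using congrArg va h2
  have a2 : ∀ z, zV z → vm (g z) = 0 ∧ va (g z) = 0 := fun z hz => by
    have h1 : va (g z) = 0 := a1 _ ((mem_YY h hg).2 ⟨z, hz.2, rfl⟩)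
    refine ⟨?_, h1⟩
    by_contra hm
    have h0 : z ≠ 0 := fun e => hm (by rw [e, g_zero h hg, vm_zero])
    have hd : vd (g z) ≠ 0 := fun e => h0 ((o g hg hn).1 z hz e)
    obtain ⟨u, u1, u2⟩ := exists_u T
    refine key h b o hg hn hz h0 (t := (u - 1) * vm (g z) / vd (g z))
      (div_ne_zero (mul_ne_zero (sub_ne_zero.2 u2) hm) hd) (a0 _ ?_)
    simp only [va_vX, h1, map_div₀, map_mul, map_sub, map_one, σ_vd]
    field_simp
    linear_combination (-(vm (g z) * T.σ (vm (g z)))) * u1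
  refine ⟨g, hg, fun v => ⟨?_, fun hv => ?_⟩, fun v => ?_⟩
  · rintro ⟨z, hz, rfl⟩
    rw [zero_mul]
    exact a2 z hz
  · obtain ⟨z, hz, e⟩ := all_d h o hg hn v
    rw [zero_mul] at hv
    exact ⟨z, hz, vext (hv.2.trans (a2 z hz).2.symm) (hv.1.trans (a2 z hz).1.symm) e.symm⟩
  · rw [← mem_YY h hg, zero_mul]
    exact ⟨a1 v, a0 v⟩

/-- **V5** -/
theorem v5 : V5Stmt T p := by
  rintro Γ h b o orb ⟨g0, hg0, hn0⟩ pri
  have ep := T.ep_ne
  have sk : ∀ {x y : K}, x + T.σ x = 0 → y + T.σ y = 0 → y ≠ 0 → ∃ n : ℕ, x = n * y :=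
    fun {x y} hx hy h0 => by
      have h1 : T.σ x = -x := by linear_combination hx
      have h2 : T.σ y = -y := by linear_combination hy
      obtain ⟨n, hn⟩ := pri (x / y) (by rw [map_div₀, h1, h2, neg_div_neg_eq])
      exact ⟨n, by rw [← hn]; field_simp⟩
  obtain ⟨z0, hz0, d0⟩ := all_d h o hg0 hn0 (mkV 0 0 T.ep (by simp) (by simp))
  rw [vd_mk] at d0
  have hg : vX T (-(vm (g0 z0) / T.ep)) * g0 ∈ Γ := mul_mem (h.le (vX_mem T _)) hg0
  have hn : vX T (-(vm (g0 z0) / T.ep)) * g0 ∉ NV T :=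
    fun e => hn0 ((mul_mem_cancel_left (vX_N b h _)).1 e)
  have m1 : vm ((vX T (-(vm (g0 z0) / T.ep)) * g0) z0) = 0 := by
    simp only [Equiv.Perm.mul_apply, vm_vX, d0]; field_simp; ring
  have d1 : vd ((vX T (-(vm (g0 z0) / T.ep)) * g0) z0) = T.ep := d0
  generalize vX T (-(vm (g0 z0) / T.ep)) * g0 = g at hg hn m1 d1
  have h0 : z0 ≠ 0 := fun e => ep (by rw [← d1, e, g_zero h hg, vd_zero])
  have ha0 : va z0 ≠ 0 := fun e => h0 (vext e hz0.1 hz0.2)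
  obtain ⟨f, hf, a1⟩ : ∃ f, T.σ f = f ∧ va (g z0) = f * T.ep :=
    ⟨va (g z0) / T.ep, by rw [map_div₀, σ_va, T.σ_ep, neg_div_neg_eq], by field_simp⟩
  have s1 : ∀ v, (∃ z, zV z ∧ v = g z) ↔ vm v = 0 ∧ va v = f * vd v := fun v => by
    constructor
    · rintro ⟨z, hz, rfl⟩
      obtain ⟨n, hn⟩ := sk (va_sk z) (va_sk z0) ha0
      have : z = n • z0 := vext (by rw [va_nsmul, hn]) (by rw [vm_nsmul, hz.1, hz0.1, mul_zero])
        (by rw [vd_nsmul, hz.2, hz0.2, mul_zero])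
      rw [this, g_nsmul h hg, vm_nsmul, va_nsmul, vd_nsmul, m1, a1, d1]
      exact ⟨mul_zero _, by ring⟩
    · rintro ⟨h1, h2⟩
      obtain ⟨n, hn⟩ := sk (vd_sk v) (y := T.ep) (by simp) ep
      refine ⟨n • z0, ⟨by rw [vm_nsmul, hz0.1, mul_zero], by rw [vd_nsmul, hz0.2, mul_zero]⟩, ?_⟩
      rw [g_nsmul h hg]
      exact vext (by rw [va_nsmul, a1, h2, hn]; ring) (by rw [vm_nsmul, m1, h1, mul_zero])
        (by rw [vd_nsmul, d1, hn])
  have ex : ∀ m, ∃ y ∈ YY h hg, vm y = m ∧ vd y = 0 := fun m => by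
    obtain ⟨z, y, h1, h2, h3⟩ := (o g hg hn).2 (mkV 0 m 0 (by simp) (by simp))
    exact ⟨g y, (mem_YY h hg).2 ⟨y, h2, rfl⟩, by simpa [h1.1] using (congrArg vm h3).symm,
      by simpa [h1.2] using (congrArg vd h3).symm⟩
  obtain ⟨y1, hy1, m2, d2⟩ := ex 1
  obtain ⟨y2, hy2, m3, d3⟩ := ex T.om
  obtain ⟨x, x1, x2⟩ := exists_sk2 T (va_sk y1) (va_sk y2)
  have v0 : g z0 ∈ YY h hg := (mem_YY h hg).2 ⟨z0, hz0.2, rfl⟩
  have gr : ∀ v : VV T, ∃ y ∈ YY h hg, vm y = vm v ∧ vd y = vd v ∧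
      va y = x * vm v - T.σ x * T.σ (vm v) + f * vd v := fun v => by
    obtain ⟨n2, e2⟩ := sk (x := vm v - T.σ (vm v)) (y := T.ep) (by simp) (by simp) ep
    obtain ⟨n1, e1⟩ := pri (vm v - n2 * T.om) (by
      rw [map_sub, map_mul, map_natCast]
      simp only [Hm.ep] at e2
      linear_combination -e2)
    obtain ⟨n3, e3⟩ := sk (vd_sk v) (y := T.ep) (by simp) ep
    have e4 : vm v = n1 + n2 * T.om := by linear_combination e1
    refine ⟨n1 • y1 + n2 • y2 + n3 • g z0,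
      add_mem (add_mem (nsmul_mem hy1 _) (nsmul_mem hy2 _)) (nsmul_mem v0 _), ?_, ?_, ?_⟩
    · simp only [vm_add, vm_nsmul, m1, m2, m3, e4]; ring
    · simp only [vd_add, vd_nsmul, d1, d2, d3, e3]; ring
    · simp only [va_add, va_nsmul, a1, ← x1, ← x2, e3, e4, map_add, map_mul, map_natCast]; ring
  have s2 : ∀ v : VV T, v ∈ YY h hg ↔ va v = x * vm v - T.σ x * T.σ (vm v) + f * vd v := fun v => by
    obtain ⟨y, hy, e1, e2, e3⟩ := gr v
    refine ⟨fun hv => ?_, fun hv => ?_⟩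
    · have := YY_Z h o hg hn (sub_mem hv hy) ⟨by simp [e1], by simp [e2]⟩
      rw [sub_eq_zero.1 this] at e3 ⊢
      exact e3
    · rwa [show v = y from vext (hv.trans e3.symm) e1.symm e2.symm]
  have x0 : x = 0 := by
    by_contra hx
    obtain ⟨u, u1, u2⟩ := exists_u T
    refine key h b o hg hn hz0 h0 (t := (1 - u) * T.σ x)
      (mul_ne_zero (sub_ne_zero.2 u2.symm) (T.σ_ne_zero hx)) ((s2 _).2 ?_)
    simp only [va_vX, vm_vX, vd_vX, a1, m1, d1, map_add, map_mul, map_sub, map_one, map_zero, T.inv,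
      T.σ_ep]
    linear_combination (x * T.σ x * T.ep) * u1
  refine ⟨f, hf, ⟨g, hg, s1, fun v => ?_⟩, fun c φ hl => ?_⟩
  · rw [← mem_YY h hg, s2, x0]
    simp
  · have hN := lam_N b hl
    obtain ⟨s, hs⟩ := orb _ (mul_mem hl hg) (fun e => hn ((mul_mem_cancel_left hN).1 e)) g hg hn
    have h1 := (b.nz _ (mul_mem (mul_mem (inv_mem hg) (h.le (vX_mem T s))) (mul_mem hl hg)) hs).1
      z0 hz0
    obtain ⟨h2, h3⟩ := (s1 (vX T s (lamV T c φ (g z0)))).1 ⟨_, h1, by simp⟩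
    have φe : φ T.ep ≠ 0 := (map_ne_zero φ).2 ep
    have c2 : (c.2 : K) * T.σ c.2 ≠ 0 := mul_ne_zero c.2.ne_zero (T.σ_ne_zero c.2.ne_zero)
    simp only [vm_vX, vm_lamV, vd_lamV, m1, d1, map_zero, mul_zero, zero_add] at h2
    have s0 : s = 0 := (mul_eq_zero.1 h2).resolve_right (mul_ne_zero c2 φe)
    simp only [s0, va_vX, vd_vX, va_lamV, vd_lamV, a1, d1, map_mul, map_zero, zero_mul, sub_zero,
      add_zero] at h3
    exact mul_right_cancel₀ φe (by linear_combination h3)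

end Cfsg.Agent.H6.U4V
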